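import Mathlib

/-! Cameron-Kantor for `q = 2`: linear algebra over `F2`, pairings, the Fourier lemma, Sylow lemmas. -/

set_option autoImplicit false
set_option linter.unusedSectionVars false

namespace H98.CK

open Module

abbrev F2 := ZMod 2

theorem f01 (a : F2) : a = 0 ∨ a = 1 := by revert a; decide
theorem f11 : (1 + 1 : F2) = 0 := by decide
theorem f_ne {a : F2} (h : a ≠ 0) : a = 1 := (f01 a).resolve_left h
theorem f_ne1 {a : F2} (h : a ≠ 1) : a = 0 := (f01 a).resolve_right h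
theorem f10 : (1 : F2) ≠ 0 := by decide

section Lin

variable {V : Type*} [AddCommGroup V] [Module F2 V]

theorem aa (v : V) : v + v = 0 := by
  rw [← one_smul F2 v, ← add_smul, f11, zero_smul]

theorem aab (u v : V) : u + (u + v) = v := by rw [← add_assoc, aa, zero_add]
theorem aba (u v : V) : u + v + u = v := by rw [add_right_comm, aa, zero_add]
theorem abb (u v : V) : u + v + v = u := by rw [add_assoc, aa, add_zero]
theorem bab (u v : V) : u + (v + u) = v := by rw [add_comm v, aab]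

theorem add_eq_z {u v : V} : u + v = 0 ↔ u = v :=
  ⟨fun h => by rw [← abb u v, h, zero_add], fun h => by rw [h, aa]⟩

theorem add_ne_z {u v : V} (h : u ≠ v) : u + v ≠ 0 := fun h' => h (add_eq_z.1 h')

theorem eq_add_of {u v w : V} (h : u + v = w) : u = w + v := by rw [← h, abb]

/-- Submodule from an additively closed set. -/
def sub (s : Set V) (h0 : (0 : V) ∈ s) (ha : ∀ a b, a ∈ s → b ∈ s → a + b ∈ s) : Submodule F2 V where
  carrier := s
  zero_mem' := h0
  add_mem' := fun {a b} h h' => ha a b h h'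
  smul_mem' := fun c x hx => by
    rcases f01 c with rfl | rfl
    · rw [zero_smul]; exact h0
    · rw [one_smul]; exact hx

@[simp] theorem mem_sub {s : Set V} {h0 ha} {v : V} : v ∈ sub s h0 ha ↔ v ∈ s := Iff.rfl

theorem mem_add {T : Submodule F2 V} {a b : V} (ha : a ∈ T) : a + b ∈ T ↔ b ∈ T :=
  T.add_mem_iff_right ha

theorem mem_add' {T : Submodule F2 V} {a b : V} (ha : a ∈ T) : b + a ∈ T ↔ b ∈ T :=
  T.add_mem_iff_left ha

/-- The point `<x>`. -/
abbrev pt (x : V) : Submodule F2 V := Submodule.span F2 {x}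

theorem mem_pt {x u : V} : u ∈ pt x ↔ u = 0 ∨ u = x := by
  rw [Submodule.mem_span_singleton]
  constructor
  · rintro ⟨a, rfl⟩
    rcases f01 a with rfl | rfl <;> simp
  · rintro (rfl | rfl)
    · exact ⟨0, by simp⟩
    · exact ⟨1, by simp⟩

theorem mem_sup_pt {T : Submodule F2 V} {x u : V} : u ∈ T ⊔ pt x ↔ u ∈ T ∨ u + x ∈ T := by
  rw [Submodule.mem_sup]
  constructor
  · rintro ⟨a, ha, b, hb, rfl⟩
    rcases mem_pt.1 hb with rfl | rfl
    · left; simpa using ha
    · right; rwa [abb]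
  · rintro (h | h)
    · exact ⟨u, h, 0, zero_mem _, add_zero _⟩
    · exact ⟨_, h, x, mem_pt.2 (Or.inr rfl), abb _ _⟩

/-- The line `<x, y>`. -/
def ln (x y : V) : Submodule F2 V := pt x ⊔ pt y

theorem mem_ln {x y u : V} : u ∈ ln x y ↔ u = 0 ∨ u = x ∨ u = y ∨ u = x + y := by
  rw [ln, mem_sup_pt, mem_pt, mem_pt, add_eq_z]
  constructor
  · rintro ((h | h) | h | h)
    · exact Or.inl h
    · exact Or.inr (Or.inl h)
    · exact Or.inr (Or.inr (Or.inl h))
    · exact Or.inr (Or.inr (Or.inr (eq_add_of h)))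
  · rintro (h | h | h | h)
    · exact Or.inl (Or.inl h)
    · exact Or.inl (Or.inr h)
    · exact Or.inr (Or.inl h)
    · exact Or.inr (Or.inr (by rw [h, abb]))

theorem l_mem_ln (x y : V) : x ∈ ln x y := mem_ln.2 (Or.inr (Or.inl rfl))
theorem r_mem_ln (x y : V) : y ∈ ln x y := mem_ln.2 (Or.inr (Or.inr (Or.inl rfl)))
theorem ln_le {x y : V} {T : Submodule F2 V} (hx : x ∈ T) (hy : y ∈ T) : ln x y ≤ T :=
  sup_le ((Submodule.span_singleton_le_iff_mem _ _).2 hx) ((Submodule.span_singleton_le_iff_mem _ _).2 hy)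
theorem ln_comm (x y : V) : ln x y = ln y x := sup_comm _ _

variable [Finite V]

instance : Module.Finite F2 V := Module.Finite.of_finite

theorem card_sub (T : Submodule F2 V) : (T : Set V).ncard = 2 ^ finrank F2 T := by
  rw [← Nat.card_coe_set_eq]
  have := Module.natCard_eq_pow_finrank (K := F2) (V := T)
  rwa [Nat.card_zmod] at this

theorem card_V : Nat.card V = 2 ^ finrank F2 V := by
  have := Module.natCard_eq_pow_finrank (K := F2) (V := V)
  rwa [Nat.card_zmod] at this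

theorem fr_sup_pt {T : Submodule F2 V} {x : V} (hx : x ∉ T) :
    finrank F2 (T ⊔ pt x :) = finrank F2 T + 1 := by
  have h := Submodule.finrank_sup_add_finrank_inf_eq T (pt x)
  have h0 : x ≠ 0 := fun h => hx (h ▸ zero_mem _)
  have h1 : T ⊓ pt x = ⊥ := by
    rw [eq_bot_iff]; rintro u ⟨hu, hu'⟩
    rcases mem_pt.1 hu' with rfl | rfl
    · exact zero_mem _
    · exact absurd hu hx
  rw [h1, finrank_bot, finrank_span_singleton h0] at h
  omega

theorem fr_pt {x : V} (hx : x ≠ 0) : finrank F2 (pt x) = 1 := finrank_span_singleton hx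

theorem fr_ln {x y : V} (hx : x ≠ 0) (hy : y ≠ 0) (hxy : x ≠ y) : finrank F2 (ln x y) = 2 := by
  rw [ln, fr_sup_pt (by rw [mem_pt]; push Not; exact ⟨hy, hxy.symm⟩), fr_pt hx]

theorem fr_le (T : Submodule F2 V) : finrank F2 T ≤ finrank F2 V := T.finrank_le

theorem exists_notMem {T T' : Submodule F2 V} (h : finrank F2 T < finrank F2 T') : ∃ v ∈ T', v ∉ T := by
  by_contra hc
  push Not at hc
  exact absurd (Submodule.finrank_mono hc) (by omega)

theorem exists_notMem' {T : Submodule F2 V} (h : finrank F2 T < finrank F2 V) : ∃ v, v ∉ T := by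
  obtain ⟨v, -, hv⟩ := exists_notMem (T := T) (T' := ⊤) (by rwa [finrank_top])
  exact ⟨v, hv⟩

theorem eq_of_le {T T' : Submodule F2 V} (h : T ≤ T') (h' : finrank F2 T' ≤ finrank F2 T) : T = T' :=
  Submodule.eq_of_le_of_finrank_le h h'

/-- Hyperplane dichotomy. -/
theorem ext2 {E T : Submodule F2 V} (h : E ≤ T) (hr : finrank F2 T ≤ finrank F2 E + 1) {a b : V}
    (ha : a ∈ T) (ha' : a ∉ E) (hb : b ∈ T) : b ∈ E ∨ b + a ∈ E := by
  have : E ⊔ pt a = T := eq_of_le (sup_le h ((Submodule.span_singleton_le_iff_mem _ _).2 ha))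
    (by rw [fr_sup_pt ha']; exact hr)
  rw [← this] at hb
  exact mem_sup_pt.1 hb

theorem ncard_coset (T : Submodule F2 V) (a : V) : {v | v + a ∈ T}.ncard = 2 ^ finrank F2 T := by
  rw [← card_sub]
  refine Set.ncard_congr (fun v _ => v + a) (fun v hv => hv) (fun v w _ _ h => add_right_cancel h)
    (fun w hw => ⟨w + a, by simpa [abb] using hw, abb _ _⟩)

theorem half (T : Submodule F2 V) (φ : V →ₗ[F2] F2) {a : V} (ha : a ∈ T) (h1 : φ a = 1) :
    {v | v ∈ T ∧ φ v = 1}.ncard = 2 ^ (finrank F2 T - 1) ∧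
      finrank F2 (T ⊓ LinearMap.ker φ :) + 1 = finrank F2 T := by
  have ha' : a ∉ T ⊓ LinearMap.ker φ := fun h => f10 (h1 ▸ h.2)
  have h2 : (T ⊓ LinearMap.ker φ) ⊔ pt a = T := by
    apply le_antisymm (sup_le inf_le_left ((Submodule.span_singleton_le_iff_mem _ _).2 ha))
    intro v hv
    rw [mem_sup_pt]
    rcases f01 (φ v) with h | h
    · exact Or.inl ⟨hv, h⟩
    · exact Or.inr ⟨add_mem hv ha, by simp [h, h1, f11]⟩
  have h3 := fr_sup_pt ha'
  rw [h2] at h3
  refine ⟨?_, h3.symm⟩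
  rw [h3, Nat.add_sub_cancel, ← ncard_coset _ a]
  congr 1
  ext v
  simp only [Set.mem_setOf_eq, Submodule.mem_inf, LinearMap.mem_ker, map_add, h1, mem_add' ha]
  refine and_congr_right fun _ => ?_
  rcases f01 (φ v) with h | h <;> simp [h, f11]

end Lin

section Act

variable {G V : Type*} [Group G] [AddCommGroup V] [Module F2 V] [DistribMulAction G V]

/-- The linear map of a group element. -/
def lin (g : G) : V ≃ₗ[F2] V where
  toFun v := g • v
  invFun v := g⁻¹ • v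
  map_add' := smul_add g
  map_smul' c v := by rcases f01 c with rfl | rfl <;> simp
  left_inv v := inv_smul_smul g v
  right_inv v := smul_inv_smul g v

@[simp] theorem lin_apply (g : G) (v : V) : lin g v = g • v := rfl

theorem sm_ne {g : G} {v : V} (h : v ≠ 0) : g • v ≠ 0 := fun h' => h ((smul_eq_zero_iff_eq g).1 h')

theorem sm_ne' {g : G} {v w : V} (h : v ≠ w) : g • v ≠ g • w := fun h' => h (MulAction.injective g h')

theorem inv_fix {α : Type*} [MulAction G α] {g : G} {a b : α} (h : g • a = b) : g⁻¹ • b = a := by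
  rw [← h, inv_smul_smul]

theorem fr_mono [Finite V] {T T' : Submodule F2 V} (g : G) (h : ∀ v ∈ T, g • v ∈ T') :
    finrank F2 T ≤ finrank F2 T' := by
  rw [← LinearEquiv.finrank_map_eq (lin g) T]
  apply Submodule.finrank_mono
  rintro _ ⟨v, hv, rfl⟩
  exact h v hv

theorem sm_mem_sup {A B A' B' : Submodule F2 V} {g : G} (hA : ∀ v ∈ A, g • v ∈ A')
    (hB : ∀ v ∈ B, g • v ∈ B') : ∀ v ∈ A ⊔ B, g • v ∈ A' ⊔ B' := by
  intro v hv
  obtain ⟨a, ha, b, hb, rfl⟩ := Submodule.mem_sup.1 hv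
  rw [smul_add]
  exact add_mem (Submodule.mem_sup_left (hA a ha)) (Submodule.mem_sup_right (hB b hb))

theorem sm_mem_ln {g : G} {x y v : V} (h : v ∈ ln x y) : g • v ∈ ln (g • x) (g • y) := by
  rcases mem_ln.1 h with rfl | rfl | rfl | rfl <;> simp [mem_ln]

theorem sm_notMem_ln {g : G} {x y v : V} (h : v ∉ ln x y) : g • v ∉ ln (g • x) (g • y) := fun h' =>
  h (by simpa using sm_mem_ln (g := g⁻¹) h')

/-- A subgroup of odd index is transitive on every orbit of `2`-power length. -/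
theorem odd_trans [Finite G] {α : Type*} [MulAction G α] (Y P : Subgroup G) (hPY : P ≤ Y)
    (hodd : Odd P.index) (Ω : Set α) {k : ℕ} (hΩ : Ω.ncard = 2 ^ k) {a : α}
    (hinv : ∀ g ∈ Y, g • a ∈ Ω) (htr : ∀ a' ∈ Ω, ∃ g ∈ Y, g • a = a') :
    ∀ a' ∈ Ω, ∃ g ∈ P, g • a = a' := by
  have key : ∀ Z : Subgroup G, (MulAction.stabilizer G a).relIndex Z = (MulAction.orbit Z a).ncard :=
    fun Z => MulAction.index_stabilizer Z a
  have h1 : MulAction.orbit Y a = Ω := by
    ext b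
    constructor
    · rintro ⟨g, rfl⟩; exact hinv g g.2
    · intro hb; obtain ⟨g, hg, rfl⟩ := htr b hb; exact ⟨⟨g, hg⟩, rfl⟩
  have h2 := Subgroup.relIndex_inf_mul_relIndex (MulAction.stabilizer G a) P Y
  rw [inf_of_le_left hPY, key P] at h2
  have h3 : (MulAction.stabilizer G a).relIndex Y ∣ (MulAction.stabilizer G a ⊓ P).relIndex Y :=
    Subgroup.relIndex_dvd_of_le_left _ inf_le_left
  rw [key Y, h1, hΩ, ← h2] at h3
  have h4 : Odd (P.relIndex Y) := hodd.of_dvd_nat (Subgroup.relIndex_dvd_index_of_le hPY)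
  have h5 : 2 ^ k ∣ (MulAction.orbit P a).ncard :=
    (Nat.Coprime.pow_left k (Nat.coprime_two_left.2 h4)).dvd_of_dvd_mul_right h3
  have hfin : Ω.Finite := Set.finite_of_ncard_pos (by rw [hΩ]; positivity)
  have hsub : MulAction.orbit P a ⊆ Ω := by rintro _ ⟨g, rfl⟩; exact hinv g (hPY g.2)
  have h6 : MulAction.orbit P a = Ω := by
    apply Set.eq_of_subset_of_ncard_le hsub _ hfin
    rw [hΩ]
    exact Nat.le_of_dvd ((Set.ncard_pos (hfin.subset hsub)).2 ⟨a, MulAction.mem_orbit_self a⟩) h5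
  intro a' ha'
  rw [← h6] at ha'
  obtain ⟨g, rfl⟩ := ha'
  exact ⟨g, g.2, rfl⟩

/-- A `2`-group fixes a nonzero vector in every nonzero section. -/
theorem exists_fix [Finite V] {P : Subgroup G} (hP : IsPGroup 2 P) {T T' : Submodule F2 V}
    (hT : ∀ g ∈ P, ∀ v ∈ T, g • v ∈ T) (hT' : ∀ g ∈ P, ∀ v ∈ T', g • v ∈ T') {a : V} (ha : a ∈ T')
    (ha' : a ∉ T) : ∃ t ∈ T', t ∉ T ∧ ∀ g ∈ P, g • t + t ∈ T := by
  haveI : Fact (Nat.Prime 2) := ⟨Nat.prime_two⟩
  let m : P → (V ⧸ T) →ₗ[F2] (V ⧸ T) := fun g => T.mapQ T (lin (g : G)).toLinearMap (hT g g.2)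
  have hm : ∀ (g : P) (v : V), m g (T.mkQ v) = T.mkQ ((g : G) • v) := fun g v => rfl
  let N := T'.map T.mkQ
  letI : MulAction P N :=
    { smul := fun g q => ⟨m g q, by
        obtain ⟨_, v, hv, rfl⟩ := q
        exact ⟨_, hT' g g.2 v hv, rfl⟩⟩
      one_smul := fun q => by
        obtain ⟨_, v, hv, rfl⟩ := q
        apply Subtype.ext
        change m 1 (T.mkQ v) = T.mkQ v
        rw [hm]; simp
      mul_smul := fun g g' q => by
        obtain ⟨_, v, hv, rfl⟩ := q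
        apply Subtype.ext
        change m (g * g') (T.mkQ v) = m g (m g' (T.mkQ v))
        rw [hm, hm, hm, Subgroup.coe_mul, mul_smul] }
  haveI : Finite (V ⧸ T) := Finite.of_surjective _ T.mkQ_surjective
  have h2 : 2 ∣ Nat.card N := by
    rw [card_V (V := N)]
    apply dvd_pow_self
    intro h0
    have : N = ⊥ := Submodule.finrank_eq_zero.1 h0
    have h3 : T.mkQ a ∈ N := ⟨a, ha, rfl⟩
    rw [this, Submodule.mem_bot, Submodule.mkQ_apply, Submodule.Quotient.mk_eq_zero] at h3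
    exact ha' h3
  obtain ⟨⟨_, t, ht, rfl⟩, hb, hne⟩ := hP.exists_fixed_point_of_prime_dvd_card_of_fixed_point N h2
    (a := 0) (fun g => Subtype.ext (map_zero (m g)))
  refine ⟨t, ht, fun h => hne (Subtype.ext ?_), fun g hg => ?_⟩
  · exact ((Submodule.Quotient.mk_eq_zero T).2 h).symm
  · have h3 : m ⟨g, hg⟩ (T.mkQ t) = T.mkQ t := congrArg Subtype.val (hb ⟨g, hg⟩)
    rw [hm] at h3
    rw [← Submodule.Quotient.mk_eq_zero T, Submodule.Quotient.mk_add]
    exact add_eq_z.2 h3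

theorem inv_sup_pt {P : Subgroup G} {T : Submodule F2 V} (hT : ∀ g ∈ P, ∀ v ∈ T, g • v ∈ T) {t : V}
    (ht : ∀ g ∈ P, g • t + t ∈ T) : ∀ g ∈ P, ∀ v ∈ T ⊔ pt t, g • v ∈ T ⊔ pt t := by
  intro g hg v hv
  rw [mem_sup_pt] at hv ⊢
  rcases hv with hv | hv
  · exact Or.inl (hT g hg v hv)
  · right
    have := add_mem (hT g hg _ hv) (ht g hg)
    rwa [smul_add, add_assoc, aab] at this

theorem exists_chain [Finite V] {P : Subgroup G} (hP : IsPGroup 2 P) {T T' : Submodule F2 V}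
    (hT : ∀ g ∈ P, ∀ v ∈ T, g • v ∈ T) (hT' : ∀ g ∈ P, ∀ v ∈ T', g • v ∈ T') (hle : T ≤ T') (d : ℕ)
    (hd : finrank F2 T + d ≤ finrank F2 T') : ∃ Z : Submodule F2 V, T ≤ Z ∧ Z ≤ T' ∧
      (∀ g ∈ P, ∀ v ∈ Z, g • v ∈ Z) ∧ finrank F2 Z = finrank F2 T + d := by
  induction d with
  | zero => exact ⟨T, le_rfl, hle, hT, rfl⟩
  | succ d ih =>
    obtain ⟨Z, h1, h2, h3, h4⟩ := ih (by omega)
    obtain ⟨a, ha, ha'⟩ := exists_notMem (T := Z) (T' := T') (by omega)
    obtain ⟨t, ht, ht', ht''⟩ := exists_fix hP h3 hT' ha ha'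
    exact ⟨Z ⊔ pt t, h1.trans le_sup_left, sup_le h2 ((Submodule.span_singleton_le_iff_mem _ _).2 ht),
      inv_sup_pt h3 ht'', by rw [fr_sup_pt ht', h4]; rfl⟩

/-- Waists: comparable with every `P`-invariant subspace. -/
theorem comparable [Finite V] [Finite G] {P Y : Subgroup G} (hP : IsPGroup 2 P) (hodd : Odd P.index)
    (hPY : P ≤ Y) {W T : Submodule F2 V} (hW : ∀ g ∈ Y, ∀ v ∈ W, g • v ∈ W)
    (hc : ∀ m, m ∉ W → ∀ l ∈ W, ∃ g ∈ Y, g • m = m + l) (hT : ∀ g ∈ P, ∀ v ∈ T, g • v ∈ T) :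
    T ≤ W ∨ W ≤ T := by
  by_cases h : T ≤ W
  · exact Or.inl h
  right
  obtain ⟨a, ha, ha'⟩ := SetLike.not_le_iff_exists.1 h
  have hWP : ∀ g ∈ P, ∀ v ∈ W, g • v ∈ W := fun g hg => hW g (hPY hg)
  obtain ⟨t0, ht0, ht0', ht0''⟩ := exists_fix hP hWP (sm_mem_sup' hWP hT) (Submodule.mem_sup_right ha) ha'
  obtain ⟨w, hw, t, ht, rfl⟩ := Submodule.mem_sup.1 ht0
  have ht' : t ∉ W := fun h => ht0' (add_mem hw h)
  let Z : Subgroup G :=
    { carrier := {g | g ∈ Y ∧ g • t + t ∈ W}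
      one_mem' := ⟨one_mem _, by rw [one_smul, aa]; exact zero_mem _⟩
      mul_mem' := fun {g k} hg hk => ⟨mul_mem hg.1 hk.1, by
        have := add_mem (hW g hg.1 _ hk.2) hg.2
        rwa [smul_add, add_assoc, aab, ← mul_smul] at this⟩
      inv_mem' := fun {g} hg => ⟨inv_mem hg.1, by
        have := hW _ (inv_mem hg.1) _ hg.2
        rwa [smul_add, inv_smul_smul, add_comm] at this⟩ }
  have hPZ : P ≤ Z := fun g hg => ⟨hPY hg, by
    have h1 := ht0'' g hg
    have h2 := add_mem (hWP g hg w hw) hw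
    rw [smul_add, add_add_add_comm, mem_add h2] at h1
    exact h1⟩
  have := odd_trans Z P hPZ hodd {v | v + t ∈ W} (ncard_coset W t) (a := t) (fun g hg => hg.2)
    (fun a' ha' => by
      obtain ⟨g, hg, hg'⟩ := hc t ht' _ ha'
      rw [bab] at hg'
      exact ⟨g, ⟨hg, by rw [hg']; exact ha'⟩, hg'⟩)
  intro l hl
  obtain ⟨g, hg, hg'⟩ := this (l + t) (by simpa [abb] using hl)
  have h3 := hT g hg t ht
  rwa [hg', mem_add' ht] at h3
where
  sm_mem_sup' {P : Subgroup G} {A B : Submodule F2 V} (hA : ∀ g ∈ P, ∀ v ∈ A, g • v ∈ A)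
    (hB : ∀ g ∈ P, ∀ v ∈ B, g • v ∈ B) : ∀ g ∈ P, ∀ v ∈ A ⊔ B, g • v ∈ A ⊔ B :=
    fun g hg => sm_mem_sup (hA g hg) (hB g hg)

end Act

end H98.CK
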