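import Cfsg.Agent.Lib.CK.Std

/-! The union of the blocks of an invariant spread inside a hyperplane is a subspace; families on lines. -/

set_option autoImplicit false
set_option linter.unusedSectionVars false

namespace H98.CK

open Module

variable {G V V' : Type*} [Group G] [AddCommGroup V] [Module F2 V] [DistribMulAction G V]
  [AddCommGroup V'] [Module F2 V'] [DistribMulAction G V'] [Finite V] [Finite V'] [Finite G]

theorem kernel_sub {P : Subgroup G} (hP : IsPGroup 2 P) {T0 T1 : Submodule F2 V}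
    (i0 : ∀ g ∈ P, ∀ v ∈ T0, g • v ∈ T0) (i1 : ∀ g ∈ P, ∀ v ∈ T1, g • v ∈ T1) (φ : V →ₗ[F2] F2)
    (hφ0 : ∀ v ∈ T0, φ v = 0) {u0 : V} (hu0 : u0 ∈ T1) (hφ1 : φ u0 = 1)
    (htr : ∀ u ∈ T1, φ u = 1 → ∃ g ∈ P, g • u0 = u) (S : V → Submodule F2 V) {σ : ℕ}
    (hS : ∀ u ∈ T1, u ∉ T0 → T0 ≤ S u ∧ S u ≤ T1 ∧ u ∈ S u ∧ finrank F2 (S u) = σ ∧
      ∀ v ∈ S u, v ∉ T0 → S v = S u)
    (heq : ∀ g ∈ P, ∀ u v, v ∈ S u → g • v ∈ S (g • u)) :
    ∃ K : Submodule F2 V, finrank F2 K + σ = finrank F2 T1 + finrank F2 T0 ∧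
      ∀ u, u ∈ K ↔ u ∈ T1 ∧ (u ∈ T0 ∨ ∀ v ∈ S u, φ v = 0) := by
  have n0 : ∀ u, φ u = 1 → u ∉ T0 := fun u hu h => f10 (hu.symm.trans (hφ0 u h))
  obtain ⟨a1, a2, a3, a4, -⟩ := hS u0 hu0 (n0 _ hφ1)
  have h01 : T0 ≤ T1 := a1.trans a2
  let K : Set V := {u | u ∈ T1 ∧ (u ∈ T0 ∨ ∀ v ∈ S u, φ v = 0)}
  have cnt : ∀ T : Submodule F2 V, T0 ≤ T → T ≤ T1 → (∀ g ∈ P, ∀ v ∈ T, g • v ∈ T) →
      2 ^ (finrank F2 T1 - 1) * (2 ^ finrank F2 (T ⊓ S u0 :) - 2 ^ finrank F2 T0) =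
        {t | t ∈ T ∧ t ∉ K}.ncard * 2 ^ (σ - 1) := by
    intro T hT0 hT1 hT
    rw [← (half T1 φ hu0 hφ1).1]
    refine dcount _ _ (fun u t => t ∈ S u) (fun u hu => ?_) (fun t ht => ?_)
    · obtain ⟨b1, b2, b3, -, b5⟩ := hS u hu.1 (n0 _ hu.2)
      obtain ⟨g, hg, rfl⟩ := htr u hu.1 hu.2
      have e : finrank F2 (T ⊓ S (g • u0) :) = finrank F2 (T ⊓ S u0 :) :=
        le_antisymm (fr_mono g⁻¹ fun v hv => ⟨hT _ (inv_mem hg) v hv.1, by
          simpa using heq _ (inv_mem hg) _ _ hv.2⟩)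
          (fr_mono g fun v hv => ⟨hT _ hg v hv.1, heq _ hg _ _ hv.2⟩)
      rw [← e, ← ncard_punct (T0 := T0) (le_inf hT0 b1), Nat.add_sub_cancel]
      congr 1; ext t
      constructor
      · rintro ⟨⟨c1, c2⟩, c3⟩
        exact ⟨⟨c1, c3⟩, fun c => c2 ⟨hT1 c1, Or.inl c⟩⟩
      · rintro ⟨⟨c1, c3⟩, c2⟩
        refine ⟨⟨c1, fun c => f10 (hu.2.symm.trans (c.2.resolve_left c2 _ ?_))⟩, c3⟩
        rw [b5 t c3 c2]; exact b3
    · have c0 : t ∉ T0 := fun c => ht.2 ⟨hT1 ht.1, Or.inl c⟩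
      obtain ⟨b1, b2, b3, b4, b5⟩ := hS t (hT1 ht.1) c0
      have : ∃ v ∈ S t, φ v = 1 := by
        by_contra hc
        push Not at hc
        exact ht.2 ⟨hT1 ht.1, Or.inr fun v hv => f_ne1 (hc v hv)⟩
      obtain ⟨v, hv, hv'⟩ := this
      rw [← b4, ← (half (S t) φ hv hv').1]
      congr 1; ext u
      constructor
      · rintro ⟨⟨c1, c2⟩, c3⟩
        obtain ⟨-, -, d3, -, d5⟩ := hS u c1 (n0 _ c2)
        exact ⟨by rw [d5 t c3 c0]; exact d3, c2⟩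
      · rintro ⟨c1, c2⟩
        exact ⟨⟨b2 c1, c2⟩, by rw [b5 u c1 (n0 _ c2)]; exact b3⟩
  have s1 : finrank F2 T0 < σ := a4 ▸ Submodule.finrank_lt_finrank_of_lt
    (lt_of_le_of_ne a1 fun e => n0 _ hφ1 (e ▸ a3))
  have s2 : σ ≤ finrank F2 T1 := a4 ▸ Submodule.finrank_mono a2
  obtain ⟨e, he⟩ := Nat.exists_eq_add_of_lt s1
  obtain ⟨d, hd⟩ := Nat.exists_eq_add_of_le s2
  obtain ⟨Z, z1, z2, z3, z4⟩ := exists_chain hP i0 i1 h01 d (by omega)
  have c1 := cnt T1 h01 le_rfl i1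
  have c2 := cnt Z z1 z2 z3
  rw [inf_of_le_right a2, a4] at c1
  have p1 : 2 ^ (finrank F2 T1 - 1) = 2 ^ d * 2 ^ (σ - 1) := by rw [← pow_add]; congr 1; omega
  rw [p1, mul_right_comm] at c1 c2
  have c1 := Nat.eq_of_mul_eq_mul_right (by positivity) c1
  have c2 := Nat.eq_of_mul_eq_mul_right (by positivity) c2
  have zc := card_sub Z
  rw [z4, pow_add] at zc
  have hZK : (Z : Set V) ⊆ K := by
    by_contra hc
    have h1 : {t | t ∈ Z ∧ t ∉ K}.ncard < (Z : Set V).ncard :=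
      Set.ncard_lt_ncard ⟨fun t ht => ht.1, fun h => (h (zero_mem Z)).2 ⟨zero_mem _, Or.inl (zero_mem _)⟩⟩
    have h2 : 0 < {t | t ∈ Z ∧ t ∉ K}.ncard := by
      rw [Set.ncard_pos]
      obtain ⟨t, ht, ht'⟩ := Set.not_subset.1 hc
      exact ⟨t, ht, ht'⟩
    have h3 : finrank F2 T0 ≤ finrank F2 (Z ⊓ S u0 :) := Submodule.finrank_mono (le_inf z1 a1)
    rcases h3.eq_or_lt with h4 | h4
    · rw [← c2, ← h4] at h2; simp at h2
    · have h5 : 2 ^ (finrank F2 T0 + 1) ≤ 2 ^ finrank F2 (Z ⊓ S u0 :) := Nat.pow_le_pow_right (by omega) h4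
      rw [← c2, zc, mul_comm] at h1
      have := lt_of_mul_lt_mul_right h1 (Nat.zero_le _)
      rw [pow_succ] at h5
      omega
  have kc : {t | t ∈ T1 ∧ t ∉ K}.ncard + K.ncard = 2 ^ finrank F2 T1 := by
    rw [← card_sub]
    exact Set.ncard_diff_add_ncard_of_subset fun t ht => ht.1
  have hK : (Z : Set V) = K := by
    apply Set.eq_of_subset_of_ncard_le hZK
    rw [← c1, hd, pow_add, Nat.mul_sub, mul_comm (2 ^ σ)] at kc
    have : 2 ^ d * 2 ^ finrank F2 T0 ≤ 2 ^ d * 2 ^ σ :=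
      Nat.mul_le_mul_left _ (Nat.pow_le_pow_right (by omega) s1.le)
    rw [zc, mul_comm]
    omega
  exact ⟨Z, by omega, fun u => by rw [← SetLike.mem_coe, hK]; rfl⟩

variable {Γ : Pr G V V'}

namespace St

variable (s : St Γ)
include s

theorem sw1 {x y u : V} (h : Ind x y) (hu : u ∉ ln x y) : ∃ g : G, g • x = x ∧ g • y = u ∧ g • u = y := by
  have h1 : y + u ∉ ln x y := by rwa [mem_add (r_mem_ln _ _)]
  obtain ⟨g, e1, e2, e3⟩ := s.f3 (ind_of_notMem h h1) (notMem_swap h h1) (r_mem_ln _ _)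
  rw [aab] at e3
  exact ⟨g, e1, e3, by rw [← aab y u, smul_add, e2, e3, bab]⟩

theorem sw2 {x y u : V} (h : Ind x y) (hu : u ∉ ln x y) : ∃ g : G, g • x = y ∧ g • y = x ∧ g • u = u := by
  have h1 := notMem_swap h hu
  have h2 := ind_of_notMem h hu
  rw [ln_comm] at h1
  obtain ⟨g, e1, e2, e3⟩ := s.sw1 h2.symm h1
  exact ⟨g, e2, e3, e1⟩

theorem sw3 {x y u : V} (h : Ind x y) (hu : u ∉ ln x y) :
    ∃ g : G, g • x = x ∧ g • y = y + x ∧ g • u = u := by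
  obtain ⟨g, e1, e2, e3⟩ := s.f3 (ind_of_notMem h hu) (notMem_swap h hu) (l_mem_ln _ _)
  exact ⟨g, e1, e3, e2⟩

end St

/-- An equivariant family of spaces of functionals vanishing on the line. -/
structure Fam (Γ : Pr G V V') (M : V → V → Submodule F2 V') : Prop where
  eqv : ∀ (g : G) x y f, f ∈ M x y → g • f ∈ M (g • x) (g • y)
  kl : ∀ x y f, Ind x y → f ∈ M x y → Γ.b f x = 0
  kr : ∀ x y f, Ind x y → f ∈ M x y → Γ.b f y = 0

namespace Fam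

variable {M : V → V → Submodule F2 V'} (H : Fam Γ M) (s : St Γ)
include H

theorem kln {x y : V} {f : V'} (h : Ind x y) (hf : f ∈ M x y) {t : V} (ht : t ∈ ln x y) : Γ.b f t = 0 :=
  ln_le (T := Γ.kr f) (H.kl x y f h hf) (H.kr x y f h hf) ht

theorem ktr {x y u x' y' u' : V} {g : G} (h1 : g • x = x') (h2 : g • y = y') (h3 : g • u = u')
    (hk : ∀ f ∈ M x y, Γ.b f u = 0) : ∀ f ∈ M x' y', Γ.b f u' = 0 := by
  intro f hf
  have := H.eqv g⁻¹ _ _ _ hf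
  rw [inv_fix h1, inv_fix h2] at this
  rw [← hk _ this, Γ.inv_r (inv_fix h3)]

theorem tr {x y u x' y' u' : V} {g : G} (h1 : g • x = x') (h2 : g • y = y') (h3 : g • u = u')
    (e : M x y = M x u) : M x' y' = M x' u' := by
  have key : ∀ {a c a' c' : V}, g • a = a' → g • c = c' → M x a = M x c → M x' a' ≤ M x' c' := by
    intro a c a' c' e1 e2 e3 f hf
    have := H.eqv g⁻¹ _ _ _ hf
    rw [inv_fix h1, inv_fix e1, e3] at this
    have := H.eqv g _ _ _ this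
    rwa [h1, e2, smul_inv_smul] at this
  exact le_antisymm (key h2 h3 e) (key h3 h2 e.symm)

theorem fr_eq (hT : T2 G V) {x y x' y' : V} (h : Ind x y) (h' : Ind x' y') :
    finrank F2 (M x y) = finrank F2 (M x' y') := by
  obtain ⟨g, e1, e2⟩ := hT _ _ _ _ h h'
  exact le_antisymm (fr_mono g fun v hv => e1 ▸ e2 ▸ H.eqv g _ _ _ hv)
    (fr_mono g⁻¹ fun v hv => inv_fix e1 ▸ inv_fix e2 ▸ H.eqv g⁻¹ _ _ _ hv)

theorem le_of {x y x' y' : V} (h' : Ind x' y') (e : ln x y = ln x' y')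
    (hg : ∀ u, u ∉ ln x y → ∃ g : G, g • x = x' ∧ g • y = y' ∧ g • u = u) : M x' y' ≤ M x y := by
  intro f hf
  by_contra hc
  obtain ⟨t, h1, h2⟩ := Γ.sep' hc
  by_cases ht : t ∈ ln x y
  · exact f10 (h2.symm.trans (H.kln h' hf (e ▸ ht)))
  · obtain ⟨g, e1, e2, e3⟩ := hg t ht
    exact f10 (h2.symm.trans (H.ktr e1 e2 e3 h1 f hf))

include s

theorem symm {x y : V} (h : Ind x y) : M y x = M x y :=
  le_antisymm (H.le_of h.symm (ln_comm _ _) fun _ hu => s.sw2 h hu)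
    (H.le_of h (ln_comm _ _) fun _ hu => s.sw2 h.symm hu)

theorem add {x y : V} (h : Ind x y) : M x (y + x) = M x y := by
  have key : ∀ y, Ind x y → M x (y + x) ≤ M x y := fun y h =>
    H.le_of h.add (ln_add _ _).symm fun _ hu => s.sw3 h hu
  exact le_antisymm (key y h) (by simpa [abb] using key _ h.add)

theorem of_ln {x y u : V} (h : Ind x y) (hu : Ind x u) (e : u ∈ ln x y) : M x u = M x y := by
  rcases mem_ln_ind e hu with rfl | rfl
  · rfl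
  · exact H.add s h

theorem ksw {x u t : V} (hu : Ind x u) (ht : Ind x t) (hk : ∀ f ∈ M x u, Γ.b f t = 0) :
    ∀ f ∈ M x t, Γ.b f u = 0 := by
  by_cases e : t ∈ ln x u
  · rw [H.of_ln s hu ht e]
    exact fun f hf => H.kr x u f hu hf
  · obtain ⟨g, e1, e2, e3⟩ := s.sw1 hu e
    exact H.ktr e1 e2 e3 hk

theorem s2 {x u u' : V} (h : Ind x u) (h' : Ind x u') (h'' : Ind x (u + u')) :
    M x (u + u') ≤ M x u ⊔ M x u' := by
  intro f hf
  by_contra hc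
  obtain ⟨t, h1, h2⟩ := Γ.sep' hc
  have ht : Ind x t := ⟨h.l, fun e => by rw [e, map_zero] at h2; exact f10 h2.symm,
    fun e => by rw [← e, H.kl _ _ f h'' hf] at h2; exact f10 h2.symm⟩
  have k1 := H.ksw s h ht fun f hf => h1 f (Submodule.mem_sup_left hf)
  have k2 := H.ksw s h' ht fun f hf => h1 f (Submodule.mem_sup_right hf)
  exact f10 (h2.symm.trans (H.ksw s ht h'' (fun f hf => by rw [map_add, k1 f hf, k2 f hf, add_zero]) f hf))

end Fam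

theorem St.famC (s : St Γ) : Fam Γ s.C :=
  ⟨fun g _ _ _ h => St.C_smul g h,
    fun _ _ _ _ h => h.elim (fun e => by rw [e, map_zero]; rfl) fun a => a.flag.z,
    fun _ _ _ _ h => h.elim (fun e => by rw [e, map_zero]; rfl) fun a => a.hy⟩

theorem St.A.symm {s : St Γ} {x y : V} {h : V'} (H : s.A x y h) : s.A y x h :=
  St.A_of_C (by rw [s.famC.symm s H.ind]; exact H.memC) H.flag.r

end H98.CK
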