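import Cfsg.Agent.Lib.CK.Thm

/-! Cameron-Kantor for `q = 2`. -/

set_option autoImplicit false
set_option linter.unusedSectionVars false

namespace H98.CK

open Module

universe uG uV

section

variable {G V : Type*} [Group G] [AddCommGroup V] [Module F2 V] [DistribMulAction G V]

/-- The dual module. -/
def Du (_G V : Type*) [AddCommGroup V] [Module F2 V] := V →ₗ[F2] F2

instance : AddCommGroup (Du G V) := inferInstanceAs (AddCommGroup (V →ₗ[F2] F2))
instance : Module F2 (Du G V) := inferInstanceAs (Module F2 (V →ₗ[F2] F2))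
instance [Finite V] : Finite (Du G V) :=
  show Finite (V →ₗ[F2] F2) from Finite.of_injective _ DFunLike.coe_injective
instance : DistribMulAction G (Du G V) where
  smul g f := LinearMap.comp (f : V →ₗ[F2] F2) (lin g⁻¹).toLinearMap
  one_smul f := LinearMap.ext fun v => congrArg (show V →ₗ[F2] F2 from f) (by simp)
  mul_smul g k f := LinearMap.ext fun v => congrArg (show V →ₗ[F2] F2 from f) (by simp [mul_smul])
  smul_zero _ := rfl
  smul_add _ _ _ := rfl

variable (G V) in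
/-- The evaluation pairing. -/
def duPr [Finite V] : Pr G V (Du G V) where
  b := LinearMap.id
  ndl f h := LinearMap.ext h
  ndr v h := (Module.forall_dual_apply_eq_zero_iff F2 v).1 h
  inv g f v := congrArg (show V →ₗ[F2] F2 from f) (inv_smul_smul g v)

variable (G V) in
/-- Some element acts as a transvection. -/
def HasT : Prop := ∃ (u : V) (f : V →ₗ[F2] F2), u ≠ 0 ∧ f ≠ 0 ∧ f u = 0 ∧ ∃ g : G, ∀ v, g • v = v + f v • u

theorem lift_tr {h f : V →ₗ[F2] F2} {v0 u : V} (h0 : h v0 = 1) {g : G} {γ : F2}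
    (h1 : ∀ v, h v = 0 → g • v = v + f v • u) (h2 : g • v0 = v0 + γ • u) (v : V) :
    g • v = v + (f + (γ + f v0) • h) v • u := by
  rcases f01 (h v) with e | e
  · simp [h1 v e, e]
  · have := h1 (v + v0) (by rw [map_add, e, h0, f11])
    rw [smul_add, h2] at this
    rw [eq_add_of this]
    simp only [map_add, LinearMap.add_apply, LinearMap.smul_apply, e, smul_eq_mul, mul_one, add_smul]
    linear_combination (norm := abel) aa v0

theorem hasT_or {h : V →ₗ[F2] F2} {v0 : V} (h0 : h v0 = 1) {g : G} (h1 : ∀ v, h v = 0 → g • v = v) :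
    HasT G V ∨ ∀ v : V, g • v = v := by
  have h2 := lift_tr (f := 0) (u := g • v0 + v0) (γ := 1) h0 (g := g) (by simpa using h1)
    (by rw [one_smul, bab])
  by_cases e : g • v0 + v0 = 0
  · right; intro v; rw [h2, e, smul_zero, add_zero]
  · left
    refine ⟨_, _, e, fun q => ?_, ?_, g, h2⟩
    · have := LinearMap.congr_fun q v0
      simp [h0] at this
    · have : h (g • v0) = 1 := f_ne fun q => by
        have : g • v0 = v0 := MulAction.injective g (h1 _ q)
        rw [this, h0] at q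
        exact f10 q
      simp [this, h0, f11]

variable [Finite V] [Finite G]

theorem allT (hT : T2 G V) (hn : 2 ≤ finrank F2 V) (H : HasT G V) (u : V) (f : V →ₗ[F2] F2)
    (hf : f u = 0) : ∃ g : G, ∀ v, g • v = v + f v • u := by
  by_cases h0 : u = 0
  · exact ⟨1, by simp [h0]⟩
  by_cases h1 : f = 0
  · exact ⟨1, by simp [h1]⟩
  obtain ⟨u', f', a1, a2, a3, g, hg⟩ := H
  obtain ⟨k, e1, e2⟩ := (duPr G V).pair_trans hT hn a1 h0 (f := f') (f' := f) a2 h1 (a3.trans hf.symm)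
  refine ⟨k * g * k⁻¹, fun v => ?_⟩
  have : f v = f' (k⁻¹ • v) := by rw [← show _ = f from e2]; rfl
  rw [mul_smul, mul_smul, hg, smul_add, smul_inv_smul, this, ← e1]
  congr 1
  exact (lin k).map_smul _ _

theorem fr_inf_ker (T : Submodule F2 V) (φ : V →ₗ[F2] F2) :
    finrank F2 T ≤ finrank F2 (T ⊓ LinearMap.ker φ :) + 1 := by
  by_cases h : ∃ a ∈ T, φ a = 1
  · obtain ⟨a, h1, h2⟩ := h
    exact (half T φ h1 h2).2.ge
  · push Not at h
    rw [inf_of_le_left (fun a ha => f_ne1 (h a ha))]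
    omega

theorem cocycle (hn : 5 ≤ finrank F2 V) {h : V →ₗ[F2] F2} {v0 : V} (h0 : h v0 = 1)
    (H : ∀ (u : V) (f : V →ₗ[F2] F2), h u = 0 → f u = 0 → ∃ g : G, h (g • v0) = 1 ∧
      ∀ v, h v = 0 → g • v = v + f v • u) : HasT G V := by
  by_contra hc
  have Γ := duPr G V
  have d0 := (half ⊤ h (a := v0) trivial h0).2
  rw [top_inf_eq, finrank_top] at d0
  obtain ⟨u, hu, hu0⟩ := exists_notMem (T := ⊥) (T' := LinearMap.ker h) (by rw [finrank_bot]; omega)
  obtain ⟨w, hw, hw0⟩ := exists_notMem (T := pt u) (T' := LinearMap.ker h) (by rw [fr_pt hu0]; omega)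
  obtain ⟨f, f1, f2⟩ := (duPr G V).sep hw0
  change V →ₗ[F2] F2 at f
  have fu : f u = 0 := f1 u (self_pt u)
  obtain ⟨g, g1, g2⟩ := H u f hu fu
  have sm : ∀ (k : G) (a : F2) (v : V), k • a • v = a • k • v := fun k a v => (lin k).map_smul a v
  have key : g • v0 + v0 ∈ pt u := by
    by_contra e
    obtain ⟨f', p1, p2⟩ := (duPr G V).sep e
    change V →ₗ[F2] F2 at f'
    have p1 : f' u = 0 := p1 u (self_pt u)
    have p2 : f' (g • v0 + v0) = 1 := p2
    have d1 := fr_inf_ker (LinearMap.ker h) f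
    have d2 := fr_inf_ker (LinearMap.ker h ⊓ LinearMap.ker f) f'
    obtain ⟨u', ⟨⟨q1, q2⟩, q3⟩, q4⟩ := exists_notMem (T := pt u)
      (T' := LinearMap.ker h ⊓ LinearMap.ker f ⊓ LinearMap.ker f') (by rw [fr_pt hu0]; omega)
    obtain ⟨k, k1, k2⟩ := H u' f' q1 q3
    have t := (hasT_or h0 (g := (k * g)⁻¹ * (g * k)) (fun v hv => by
      rw [mul_smul, inv_smul_eq_iff, mul_smul, mul_smul, k2 v hv, g2 v hv, smul_add, smul_add, sm, sm,
        k2 v hv, g2 v hv, g2 u' q1, k2 u hu, show f u' = 0 from q2, p1]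
      simp only [zero_smul, add_zero]
      abel)).resolve_left hc v0
    rw [mul_smul, inv_smul_eq_iff, mul_smul, mul_smul] at t
    have c1 : h (g • v0 + v0) = 0 := by rw [map_add, g1, h0, f11]
    have c2 : h (k • v0 + v0) = 0 := by rw [map_add, k1, h0, f11]
    have t1 := g2 _ c2
    have t2 := k2 _ c1
    rw [p2, one_smul, smul_add, ← t] at t2
    rw [smul_add] at t1
    apply q4
    have : u' = f (k • v0 + v0) • u := by
      linear_combination (norm := abel) t1 - t2 - aa (g • v0) + aa (k • v0)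
    rw [this]
    exact Submodule.smul_mem _ _ (self_pt u)
  obtain ⟨γ, hγ⟩ := Submodule.mem_span_singleton.1 key
  refine hc ⟨u, f + (γ + f v0) • h, hu0, fun q => ?_, ?_, g, lift_tr h0 g2 (by rw [hγ, bab])⟩
  · have := LinearMap.congr_fun q w
    have f2 : f w = 1 := f2
    simp [f2, show h w = 0 from hw] at this
  · simp [fu, show h u = 0 from hu]

end

theorem hasT (n : ℕ) : ∀ {G : Type uG} {V : Type uV} [Group G] [Finite G] [AddCommGroup V] [Module F2 V]
    [Finite V] [DistribMulAction G V], finrank F2 V = n → T2 G V → 3 ≤ n → n ≠ 4 → HasT G V := by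
  induction n with
  | zero => intros; omega
  | succ n ih =>
  intro G V _ _ _ _ _ _ hn hT h3 h4
  obtain ⟨s⟩ := exists_st (duPr G V) hT (by omega)
  have d0 := (duPr G V).fr_kr s.hh.ind.l
  have hL : ln s.x0 s.y0 ≤ (duPr G V).kr s.h0 := s.kill_ln
  obtain ⟨v0, hv0⟩ := (duPr G V).exists_one s.hh.ind.l
  by_contra hc
  have triv : ∀ g : G, (∀ v ∈ (duPr G V).kr s.h0, g • v = v) → g • v0 = v0 := fun g hg =>
    (hasT_or hv0 hg).resolve_left hc v0
  have fixln : ∀ g : G, g • s.x0 = s.x0 → g • s.y0 = s.y0 → ∀ v ∈ ln s.x0 s.y0, g • v = v := by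
    intro g e1 e2 v hv
    rcases mem_ln.1 hv with rfl | rfl | rfl | rfl <;> simp [e1, e2]
  by_cases n2 : n = 2
  · have e := eq_of_le hL (by rw [s.hx.ind.fr_ln]; omega)
    obtain ⟨g, e1, e2, e3⟩ := s.f3 s.hx.ind (u := v0) (fun q => f10 (hv0.symm.trans (hL q))) (l_mem_ln _ _)
    rw [triv g (e ▸ fixln g e1 e2)] at e3
    exact s.hx.ind.l (left_eq_add.1 e3)
  let B := MulAction.stabilizer G s.h0
  let H := (duPr G V).kr s.h0
  letI : DistribMulAction B H :=
    { smul := fun g v => ⟨(g : G) • (v : V), ((duPr G V).inv_l g.2 v).trans v.2⟩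
      one_smul := fun v => Subtype.ext (one_smul G (v : V))
      mul_smul := fun g k v => Subtype.ext (mul_smul (g : G) (k : G) (v : V))
      smul_zero := fun g => Subtype.ext (smul_zero (g : G))
      smul_add := fun g v w => Subtype.ext (smul_add (g : G) (v : V) w) }
  have hB : T2 B H := by
    intro x y x' y' i i'
    have A : ∀ {x y : H}, Ind x y → s.A x y s.h0 := fun {x y} i => s.all_A (by omega)
      ⟨fun e => i.l (Subtype.ext e), fun e => i.r (Subtype.ext e), fun e => i.ne (Subtype.ext e)⟩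
      s.hh.ind.l x.2 y.2
    obtain ⟨g, e1, e2, e3⟩ := A i
    obtain ⟨k, f1, f2, f3⟩ := A i'
    exact ⟨⟨k * g⁻¹, by change (k * g⁻¹) • s.h0 = s.h0; rw [mul_smul, inv_fix e3, f3]⟩,
      Subtype.ext (by change (k * g⁻¹) • (x : V) = x'; rw [mul_smul, inv_fix e1, f1]),
      Subtype.ext (by change (k * g⁻¹) • (y : V) = y'; rw [mul_smul, inv_fix e2, f2])⟩
  have dH : finrank F2 H = n := by change finrank F2 ((duPr G V).kr s.h0) = n; omega
  have nB : ¬ HasT B H := fun hb => hc (cocycle (by omega) hv0 fun u f hu hf => by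
    obtain ⟨g, hg⟩ := allT hB (by omega) hb ⟨u, hu⟩ (f ∘ₗ H.subtype) hf
    exact ⟨g, ((duPr G V).inv_l g.2 v0).trans hv0, fun v hv => congrArg Subtype.val (hg ⟨v, hv⟩)⟩)
  by_cases n4 : n = 4
  swap
  · exact nB (ih dH hB (by omega) n4)
  obtain ⟨a, a1, a2⟩ := exists_notMem (T := ln s.x0 s.y0) (T' := H) (by rw [s.hx.ind.fr_ln]; omega)
  obtain ⟨z, z1, z2, z3⟩ := exists_fix s.hP s.ln_inv (T' := H)
    (fun g hg v hv => ((duPr G V).inv_l (s.hh.fx g hg) v).trans hv) a1 a2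
  have d3 := fr_sup_pt z2
  rw [s.hx.ind.fr_ln] at d3
  obtain ⟨w, w1, w2⟩ := exists_notMem (T := ln s.x0 s.y0 ⊔ pt z) (T' := H) (by omega)
  obtain ⟨k, k1, k2⟩ := (duPr G V).sep w2
  have d4 := (half H ((duPr G V).b k) w1 k2).2
  have e3 := eq_of_le (T := ln s.x0 s.y0 ⊔ pt z) (T' := H ⊓ LinearMap.ker ((duPr G V).b k))
    (le_inf (sup_le hL (pt_le z1)) k1) (by omega)
  have ch : ∀ v : V, ∃ g ∈ s.P, (duPr G V).b s.h0 v = 1 → g • v0 = v := fun v => by
    by_cases e : (duPr G V).b s.h0 v = 1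
    · obtain ⟨g, h1, h2⟩ := (duPr G V).flip.p_phi s.t2' s.odd s.hh hv0 e
      exact ⟨g, h1, fun _ => h2⟩
    · exact ⟨1, one_mem _, fun q => absurd q e⟩
  choose γ hγ hγ' using ch
  obtain ⟨v, hv, v', hv', hne, he⟩ := Set.exists_ne_map_eq_of_ncard_lt_of_maps_to
    (s := {v | v ∈ (⊤ : Submodule F2 V) ∧ (duPr G V).b s.h0 v = 1})
    (t := ({s.y0, s.y0 + s.x0} : Set V) ×ˢ {v | v + z ∈ ln s.x0 s.y0})
    (f := fun v => (γ v • s.y0, γ v • z))
    (by
      rw [(half ⊤ _ trivial hv0).1, Set.ncard_prod, ncard_coset, s.hx.ind.fr_ln, finrank_top, hn, n4]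
      have := Set.ncard_insert_le s.y0 {s.y0 + s.x0}
      rw [Set.ncard_singleton] at this
      omega)
    (fun v _ => ⟨s.hx.fy _ (hγ v), z3 _ (hγ v)⟩)
  have gP : (γ v')⁻¹ * γ v ∈ s.P := mul_mem (inv_mem (hγ v')) (hγ v)
  have g2 : ((γ v')⁻¹ * γ v) • s.y0 = s.y0 := by
    rw [mul_smul, inv_smul_eq_iff]; exact congrArg Prod.fst he
  have g3 : ((γ v')⁻¹ * γ v) • z = z := by
    rw [mul_smul, inv_smul_eq_iff]; exact congrArg Prod.snd he
  have t1 := (hasT_or (G := B) (h := (duPr G V).b k ∘ₗ H.subtype) (v0 := ⟨w, w1⟩) k2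
    (g := ⟨_, s.hh.fx _ gP⟩) (fun t ht => Subtype.ext (by
      have : (t : V) ∈ ln s.x0 s.y0 ⊔ pt z := e3 ▸ ⟨t.2, ht⟩
      change ((γ v')⁻¹ * γ v) • (t : V) = t
      rcases mem_sup_pt.1 this with q | q
      · exact fixln _ (s.hx.fx _ gP) g2 _ q
      · have := fixln _ (s.hx.fx _ gP) g2 _ q
        rwa [smul_add, g3, add_left_inj] at this))).resolve_left nB
  have t2 := triv _ fun t ht => congrArg Subtype.val (t1 ⟨t, ht⟩)
  change ((γ v')⁻¹ * γ v) • v0 = v0 at t2
  rw [mul_smul, inv_smul_eq_iff, hγ' v hv.2, hγ' v' hv'.2] at t2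
  exact hne t2

/-- Cameron-Kantor for q = 2. -/
theorem all_transvections {G V : Type*} [Group G] [Finite G] [AddCommGroup V] [Module (ZMod 2) V]
    [Finite V] [DistribMulAction G V]
    (h2 : ∀ x y x' y' : V, x ≠ 0 → y ≠ 0 → x ≠ y → x' ≠ 0 → y' ≠ 0 → x' ≠ y' →
      ∃ g : G, g • x = x' ∧ g • y = y')
    (h3 : 3 ≤ Module.finrank (ZMod 2) V) (h4 : Module.finrank (ZMod 2) V ≠ 4)
    (u : V) (f : V →ₗ[ZMod 2] ZMod 2) (hf : f u = 0) :
    ∃ g : G, ∀ v, g • v = v + f v • u := by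
  have hT : T2 G V := fun x y x' y' i i' => h2 x y x' y' i.l i.r i.ne i'.l i'.r i'.ne
  exact allT hT (le_trans (by norm_num) h3) (hasT _ rfl hT h3 h4) u f hf

end H98.CK
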