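import Cfsg.Agent.Lib.CK.Spr

/-! No invariant spreads on `V / x` and on hyperplanes. -/

set_option autoImplicit false
set_option linter.unusedSectionVars false

namespace H98.CK

open Module

variable {G V V' : Type*} [Group G] [AddCommGroup V] [Module F2 V] [DistribMulAction G V]
  [AddCommGroup V'] [Module F2 V'] [DistribMulAction G V'] [Finite V] [Finite V'] [Finite G]
  {Γ : Pr G V V'}

theorem Ind.fr_ln {x y : V} (h : Ind x y) : finrank F2 (ln x y) = 2 := CK.fr_ln h.l h.r h.ne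

namespace Sp1

variable {S : V → V → Submodule F2 V} (H : Sp1 G S)
include H

theorem count (s : St Γ) {x y u : V} (h : Ind x y) (hu : u ∉ S x y) {σ : ℕ}
    (hσ : finrank F2 (S x y) = σ) : (2 ^ σ - 1) * (2 ^ σ - 2) ≤ 2 ^ finrank F2 V := by
  have hu0 : u ≠ 0 := fun e => hu (e ▸ zero_mem _)
  have ia : ∀ a ∈ S x y, a ≠ 0 → Ind u a := fun a ha h0 => ⟨hu0, h0, fun e => hu (e ▸ ha)⟩
  have h1 := dcount {a | a ∈ S x y ∧ a ∉ (⊥ : Submodule F2 V)}
    {v | v ∉ pt u ∧ ∃ a ∈ S x y, a ≠ 0 ∧ v ∈ S u a} (fun a v => v ∈ S u a) (m := 2 ^ σ - 2) (n := 1)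
    (fun a ha => by
      have := ncard_punct (pt_le (H.l _ _ (ia a ha.1 ha.2)))
      rw [fr_pt hu0, pow_one, H.fr_eq s.t2 (ia a ha.1 ha.2) h, hσ] at this
      rw [← this, Nat.add_sub_cancel]
      congr 1; ext v
      exact ⟨fun c => ⟨c.2, c.1.1⟩, fun c => ⟨⟨c.2, a, ha.1, ha.2, c.1⟩, c.1⟩⟩)
    (fun v ⟨hv, a, ha, ha0, hva⟩ => by
      rw [Set.ncard_eq_one]
      refine ⟨a, Set.eq_singleton_iff_unique_mem.2 ⟨⟨⟨ha, ha0⟩, hva⟩, fun c ⟨⟨hc, hc0⟩, hvc⟩ => ?_⟩⟩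
      by_contra e
      have iv := (ind_iff hu0).2 hv
      have e1 := H.blk _ _ _ (ia a ha ha0) iv hva
      have e2 := H.blk _ _ _ (ia c hc hc0) iv hvc
      have e3 := H.steiner s h hc ha ⟨hc0, ha0, e⟩
      have e4 := H.steiner s iv (e2 ▸ H.r _ _ (ia c hc hc0)) (e1 ▸ H.r _ _ (ia a ha ha0)) ⟨hc0, ha0, e⟩
      exact hu (e3 ▸ e4 ▸ H.l _ _ iv))
  have h2 := ncard_punct (T0 := ⊥) (T := S x y) bot_le
  rw [finrank_bot, pow_zero, hσ] at h2
  rw [Nat.sub_eq_of_eq_add h2.symm, h1, mul_one, ← card_V, ← Set.ncard_univ]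
  exact Set.ncard_le_ncard (Set.subset_univ _)

theorem ns1 (s : St Γ) {x y z : V} (h : Ind x y) (hz : z ∈ S x y) (hz' : z ∉ ln x y) : S x y = ⊤ := by
  by_contra hne
  obtain ⟨σ, hσ⟩ : ∃ σ, finrank F2 (S x y) = σ := ⟨_, rfl⟩
  have hL : ∀ {a c}, Ind a c → ln a c ≤ S a c := fun h => ln_le (H.l _ _ h) (H.r _ _ h)
  have h3 : 3 ≤ σ := by
    have := Submodule.finrank_lt_finrank_of_lt (lt_of_le_of_ne (hL h) fun e => hz' (e ▸ hz))
    rw [h.fr_ln] at this; omega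
  have ex : ∀ {a c}, Ind a c → ∃ v ∈ S a c, v ∉ ln a c := fun h' =>
    exists_notMem (by rw [h'.fr_ln, H.fr_eq s.t2 h' h]; omega)
  obtain ⟨u0, hu0⟩ : ∃ u, u ∉ S x y := by
    by_contra hc
    push Not at hc
    exact hne (eq_top_iff.2 fun v _ => hc v)
  have h4 : ∀ w, w ≠ 0 → ∀ a c, Sx S w a ⊔ Sx S w c ≠ ⊤ := by
    intro w hw a c e
    have f1 : ∀ a, finrank F2 (Sx S w a) ≤ σ := fun a => by
      by_cases e : a ∈ pt w
      · rw [sx_pt e, fr_pt hw]; omega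
      · rw [sx_of ((ind_iff hw).2 e), H.fr_eq s.t2 ((ind_iff hw).2 e) h, hσ]
    have f2 := Submodule.finrank_sup_add_finrank_inf_eq (Sx S w a) (Sx S w c)
    have f3 := Submodule.finrank_mono (le_inf (H.pt_le_sx hw a) (H.pt_le_sx hw c))
    rw [e, finrank_top] at f2
    rw [fr_pt hw] at f3
    have f4 := H.count s h hu0 hσ
    have f5 : 2 ^ (finrank F2 V + 1) ≤ 2 ^ (σ + σ) :=
      Nat.pow_le_pow_right (by omega) (by have := f1 a; have := f1 c; omega)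
    have f6 : 2 ^ 3 ≤ 2 ^ σ := Nat.pow_le_pow_right (by omega) h3
    rw [pow_succ, pow_add] at f5
    obtain ⟨k, hk⟩ := Nat.exists_eq_add_of_le f6
    rw [hk] at f4 f5
    have e1 : 2 ^ 3 + k - 1 = k + 7 := by omega
    have e2 : 2 ^ 3 + k - 2 = k + 6 := by omega
    rw [e1, e2] at f4
    nlinarith
  have om : ∀ a : V, ∃ Ω : V →ₗ[F2] V, a ≠ 0 → Ω a = 0 ∧ (∀ u, Ω (Ω u) + (Ω u + u) ∈ pt a) ∧
      ∀ u v, v ∈ Sx S a u ↔ v ∈ pt a ∨ v + u ∈ pt a ∨ v + Ω u ∈ pt a ∨ v + (Ω u + u) ∈ pt a := by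
    intro a
    by_cases ha : a = 0
    · exact ⟨0, fun e => absurd ha e⟩
    obtain ⟨c, hc⟩ := exists_ind (by have := s.n3; omega) ha
    obtain ⟨v, hv, hv'⟩ := ex hc
    obtain ⟨Ω, hΩ⟩ := H.omega_lift s hc hv hv' (h4 a ha)
    exact ⟨Ω, fun _ => hΩ⟩
  choose Ω hΩ using om
  have o1 : ∀ {a u}, Ind a u → Ω a u ∈ S a u := fun {a u} h' => by
    rw [← sx_of (S := S) h', (hΩ a h'.l).2.2]
    exact Or.inr (Or.inr (Or.inl (by rw [aa]; exact zero_mem _)))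
  have o2 : ∀ {a u v}, Ind a u → v ∈ S a u → v ∉ ln a u → v + Ω a u ∈ ln a u := by
    intro a u v h' hv hv'
    have pl : pt a ≤ ln a u := le_sup_left
    rw [← sx_of (S := S) h', (hΩ a h'.l).2.2] at hv
    rcases hv with e | e | e | e
    · exact absurd (pl e) hv'
    · exact absurd ((mem_add' (r_mem_ln a u)).1 (pl e)) hv'
    · exact pl e
    · rw [← add_assoc] at e
      exact (mem_add' (r_mem_ln a u)).1 (pl e)
  have o3 : ∀ {a u}, Ind a u → Ω a u + Ω u a ∈ ln a u := by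
    intro a u h'
    obtain ⟨v, hv, hv'⟩ := ex h'
    have e1 := o2 h' hv hv'
    have e2 := o2 h'.symm (by rwa [H.symm s h']) (by rwa [ln_comm])
    rw [ln_comm] at e2
    have := add_mem e1 e2
    rwa [add_add_add_comm, aa, zero_add] at this
  have pres : ∀ a ∈ S x y, a ≠ 0 → S x y ≤ (S x y).comap (Ω a) := by
    intro a ha h0 u hu
    by_cases e : u ∈ pt a
    · rcases mem_pt.1 e with rfl | rfl
      · simp
      · simp [(hΩ u h0).1]
    · have i := (ind_iff h0).2 e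
      have := o1 i
      rwa [H.steiner s h ha hu i] at this
  let m := (S x y).mkQ
  have hm := (S x y).mkQ_surjective
  have m0 : ∀ v, m v = 0 ↔ v ∈ S x y := fun v => Submodule.Quotient.mk_eq_zero _
  have hE : ∀ a : V, ∃ e : Module.End F2 (V ⧸ S x y), a ∈ S x y → a ≠ 0 → ∀ u, e (m u) = m (Ω a u) := by
    intro a
    by_cases ha : a ∈ S x y ∧ a ≠ 0
    · exact ⟨(S x y).mapQ (S x y) (Ω a) (pres a ha.1 ha.2), fun _ _ u => rfl⟩
    · exact ⟨0, fun h1 h2 => absurd ⟨h1, h2⟩ ha⟩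
  choose e he using hE
  have q1 : ∀ a ∈ S x y, a ≠ 0 → e a * e a = e a + 1 := by
    intro a ha h0
    refine LinearMap.ext fun q => ?_
    obtain ⟨u, rfl⟩ := hm q
    change e a (e a (m u)) = e a (m u) + m u
    rw [he a ha h0, he a ha h0, ← map_add, ← add_eq_z, ← map_add, m0]
    exact pt_le ha ((hΩ a h0).2.1 u)
  have q2 : ∀ a ∈ S x y, ∀ c ∈ S x y, Ind a c → e (a + c) = e a + e c ∨ e (a + c) = e a + e c + 1 := by
    intro a ha c hc i
    have hac := add_mem ha hc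
    have := scalar_of (e a + e c + e (a + c)) (fun q => by
      obtain ⟨u, rfl⟩ := hm q
      change e a (m u) + e c (m u) + e (a + c) (m u) = 0 ∨ e a (m u) + e c (m u) + e (a + c) (m u) = m u
      by_cases hu : u ∈ S x y
      · left; rw [(m0 u).2 hu]; simp
      have iu : ∀ d ∈ S x y, d ≠ 0 → Ω d u + Ω u d ∈ S x y ⊔ pt u := fun d hd d0 =>
        ln_le (Submodule.mem_sup_left hd) (Submodule.mem_sup_right (self_pt u))
          (o3 ⟨d0, fun e => hu (e ▸ zero_mem _), fun e => hu (e ▸ hd)⟩)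
      have := add_mem (add_mem (iu a ha i.l) (iu c hc i.r)) (iu _ hac (add_ne_z i.ne))
      rw [map_add, add_add_add_comm (Ω a u), add_add_add_comm (Ω a u + Ω c u), aa, add_zero,
        mem_sup_pt] at this
      rw [he a ha i.l, he c hc i.r, he _ hac (add_ne_z i.ne), ← map_add, ← map_add, m0, ← add_eq_z,
        ← map_add, m0]
      exact this)
    rcases this with e1 | e1
    · exact Or.inl (add_eq_z.1 e1).symm
    · right; rw [← e1, aab]
  have q3 : ∀ a ∈ S x y, ∀ c ∈ S x y, Ind a c → e a * e c + e c * e a = 1 := fun a ha c hc i =>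
    alg1 (q1 a ha i.l) (q1 c hc i.r) (q1 _ (add_mem ha hc) (add_ne_z i.ne)) (q2 a ha c hc i)
  have hx := H.l _ _ h
  have hy := H.r _ _ h
  rw [mem_ln] at hz'
  push Not at hz'
  have := alg2 (q3 x hx z hz ⟨h.l, hz'.1, hz'.2.1.symm⟩) (q3 y hy z hz ⟨h.r, hz'.1, hz'.2.2.1.symm⟩)
    (q3 _ (add_mem hx hy) z hz ⟨add_ne_z h.ne, hz'.1, hz'.2.2.2.symm⟩) (q2 x hx y hy h)
  exact hu0 ((m0 u0).1 (LinearMap.congr_fun this (m u0)))

end Sp1

/-- An equivariant family of spreads of the hyperplanes. -/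
structure Sp2 (Γ : Pr G V V') (T : V' → V → Submodule F2 V) : Prop where
  eqv : ∀ (g : G) h x v, v ∈ T h x → g • v ∈ T (g • h) (g • x)
  self : ∀ h x, Flag Γ x h → x ∈ T h x
  le : ∀ h x, Flag Γ x h → T h x ≤ Γ.kr h
  blk : ∀ h x u, Flag Γ x h → u ≠ 0 → u ∈ T h x → T h u = T h x

theorem Sp2.ns2 {T : V' → V → Submodule F2 V} (H : Sp2 Γ T) (s : St Γ) {x u : V} {h : V'}
    (hf : Flag Γ x h) (hu : u ∈ T h x) (hu' : Ind x u) : T h x = Γ.kr h := by
  have fr : ∀ {x h}, Flag Γ x h → finrank F2 (T h x) = finrank F2 (T s.h0 s.x0) := fun hf => by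
    obtain ⟨g, e1, e2⟩ := s.to_flag hf
    exact le_antisymm (fr_mono g⁻¹ fun v hv => inv_fix e1 ▸ inv_fix e2 ▸ H.eqv g⁻¹ _ _ _ hv)
      (fr_mono g fun v hv => e1 ▸ e2 ▸ H.eqv g _ _ _ hv)
  obtain ⟨τ, hτ⟩ : ∃ τ, finrank F2 (T s.h0 s.x0) = τ := ⟨_, rfl⟩
  let Ks : V' → V' → Set V := fun h k => {u | Γ.b h u = 0 ∧ (u = 0 ∨ ∀ v ∈ T h u, Γ.b k v = 0)}
  have ksm : ∀ (g : G) h k u, u ∈ Ks h k → g • u ∈ Ks (g • h) (g • k) := fun g h k u hu =>
    ⟨by rw [Γ.inv, hu.1], hu.2.imp (fun e => by rw [e, smul_zero]) fun e v hv => by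
      have := H.eqv g⁻¹ _ _ _ hv
      rw [inv_smul_smul, inv_smul_smul] at this
      rw [← e _ this, ← Γ.inv g k, smul_inv_smul]⟩
  have exK : ∀ {h k}, Ind h k → ∃ K : Submodule F2 V, finrank F2 K + τ + 1 = finrank F2 V ∧
      ∀ u, u ∈ K ↔ u ∈ Ks h k := by
    intro h k i
    obtain ⟨u0, c1, c2⟩ := Γ.sep' ((ind_iff s.hh.ind.l).1 s.hh.ind)
    obtain ⟨K, k1, k2⟩ := kernel_sub s.hP (T0 := ⊥) (T1 := Γ.kr s.h0) (by simp)
      (fun g hg v hv => (Γ.inv_l (s.hh.fx g hg) v).trans hv) (Γ.b s.k0) (by simp) (u0 := u0)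
      (c1 _ (self_pt _)) c2 (fun u h1 h2 => by
        obtain ⟨g, e1, -, e2⟩ := Γ.flip.q_trans s.t2' s.odd s.hh (f := u0) (f' := u)
          ((c1 _ (self_pt _)).trans h1.symm) (c2.trans h2.symm) (Or.inr c2)
        exact ⟨g, e1, e2⟩) (T s.h0) (σ := τ)
      (fun u h1 h2 => by
        have f : Flag Γ u s.h0 := ⟨h2, s.hh.ind.l, h1⟩
        exact ⟨bot_le, H.le _ _ f, H.self _ _ f, (fr f).trans hτ, fun v hv hv' => H.blk _ _ _ f hv' hv⟩)
      (fun g hg u v hv => by simpa [s.hh.fx g hg] using H.eqv g _ _ _ hv)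
    obtain ⟨g, e1, e2⟩ := s.t2' _ _ _ _ s.hh.ind i
    refine ⟨K.map (lin g).toLinearMap, ?_, fun u => ⟨?_, fun hu => ?_⟩⟩
    · rw [LinearEquiv.finrank_map_eq, k1, finrank_bot, add_zero, Γ.fr_kr s.hh.ind.l]
    · rintro ⟨v, hv, rfl⟩
      exact e1 ▸ e2 ▸ ksm g _ _ _ ((k2 v).1 hv)
    · refine ⟨g⁻¹ • u, (k2 _).2 ?_, smul_inv_smul g u⟩
      have := ksm g⁻¹ _ _ _ hu
      rwa [inv_fix e1, inv_fix e2] at this
  let S : V' → V' → Submodule F2 V' := fun h k => sub {l | ∀ u ∈ Ks h k, Γ.b l u = 0}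
    (fun u _ => by rw [map_zero]; rfl)
    (fun a c ha hc u hu => by rw [map_add, LinearMap.add_apply, ha u hu, hc u hu, add_zero])
  have kself : ∀ {h k u}, h ≠ 0 → u ∈ Ks h k → Γ.b k u = 0 := fun {h k u} h0 hu => by
    by_cases e : u = 0
    · rw [e, map_zero]
    · exact hu.2.resolve_left e u (H.self _ _ ⟨e, h0, hu.1⟩)
  have HS : Sp1 G S := ⟨fun g h k l hl u hu => by
      have := ksm g⁻¹ _ _ _ hu
      rw [inv_smul_smul, inv_smul_smul] at this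
      rw [← hl _ this, ← Γ.inv g l, smul_inv_smul],
    fun h k _ u hu => hu.1, fun h k i u hu => kself i.l hu,
    fun h k l i i' hl => by
      obtain ⟨K, k1, k2⟩ := exK i
      obtain ⟨K', k1', k2'⟩ := exK i'
      have : K = K' := eq_of_le (fun u hu => (k2' u).2 (by
        have hu' := (k2 u).1 hu
        refine ⟨hu'.1, ?_⟩
        by_cases e : u = 0
        · exact Or.inl e
        refine Or.inr fun v hv => hl v ⟨H.le _ _ ⟨e, i.l, hu'.1⟩ hv, ?_⟩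
        by_cases e' : v = 0
        · exact Or.inl e'
        · rw [H.blk _ _ _ ⟨e, i.l, hu'.1⟩ e' hv]; exact Or.inr (hu'.2.resolve_left e))) (by omega)
      ext f
      exact forall_congr' fun u => by rw [← k2, ← k2', this]⟩
  obtain ⟨K, k1, k2⟩ := exK s.hh.ind
  have hS : S s.h0 s.k0 = Γ.flip.ann K := by
    ext f
    exact forall_congr' fun u => by rw [← k2]; rfl
  have a1 := Γ.flip.fr_ann K
  have a2 : 2 ≤ τ := by
    have := Submodule.finrank_mono (ln_le (H.self _ _ hf) hu)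
    rwa [hu'.fr_ln, fr hf, hτ] at this
  rw [Γ.fr_eq] at a1
  obtain ⟨l, hl, hl'⟩ := exists_notMem (T := ln s.h0 s.k0) (T' := S s.h0 s.k0) (by
    rw [hS, s.hh.ind.fr_ln]; omega)
  have a3 := HS.ns1 s.flip s.hh.ind hl hl'
  rw [← hS, a3, finrank_top, Γ.fr_eq] at a1
  have a4 := Γ.fr_kr hf.r
  exact eq_of_le (H.le _ _ hf) (by rw [fr hf]; omega)

theorem Fam.eq1 {M : V → V → Submodule F2 V'} (H : Fam Γ M) (s : St Γ) {x y u : V} (h : Ind x y)
    (hu : u ∉ ln x y) (e : M x u = M x y) : M x y = ⊥ := by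
  let S : V → V → Submodule F2 V := fun x y => sub {u | u ∈ pt x ∨ (x ≠ 0 ∧ M x u = M x y)}
    (Or.inl (zero_mem _)) (by
      have key : ∀ a c, x ≠ 0 → a ∉ pt x → M x a = M x y → (c ∈ pt x ∨ (x ≠ 0 ∧ M x c = M x y)) →
          (c + a ∈ pt x ∨ (x ≠ 0 ∧ M x (c + a) = M x y)) := by
        intro a c hx ha e hc
        have ia := (ind_iff hx).2 ha
        by_cases h1 : c + a ∈ pt x
        · exact Or.inl h1
        refine Or.inr ⟨hx, ?_⟩
        by_cases h2 : c ∈ ln x a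
        · rw [H.of_ln s ia ((ind_iff hx).2 h1) (add_mem h2 (r_mem_ln _ _)), e]
        · obtain ⟨g, e1, e2, e3⟩ := s.f3 ia h2 (r_mem_ln _ _)
          have e4 := (hc.resolve_left fun h => h2 (Submodule.mem_sup_left h)).2
          rw [H.tr e1 e3 e2 (e4.trans e.symm), e]
      intro a c ha hc
      by_cases h1 : c ∈ pt x
      · by_cases h2 : a ∈ pt x
        · exact Or.inl (add_mem h2 h1)
        · obtain ⟨hx, e⟩ := ha.resolve_left h2
          rw [add_comm]; exact key a c hx h2 e hc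
      · obtain ⟨hx, e⟩ := hc.resolve_left h1
        exact key c a hx h1 e ha)
  have HS : Sp1 G S := ⟨fun g x y v hv => hv.imp (fun e => by
      rcases mem_pt.1 e with rfl | rfl
      · simp
      · exact self_pt _) fun e => ⟨sm_ne e.1, H.tr rfl rfl rfl e.2⟩,
    fun x y _ => Or.inl (self_pt x), fun x y i => Or.inr ⟨i.l, rfl⟩,
    fun x y u i i' hu => by
      have e := (hu.resolve_left ((ind_iff i.l).1 i')).2
      ext v
      change (_ ∨ _ ∧ _) ↔ (_ ∨ _ ∧ _)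
      rw [e]⟩
  have := HS.ns1 s h (z := u) (Or.inr ⟨h.l, e⟩) hu
  rw [eq_bot_iff]
  intro f hf
  refine Γ.ndl f fun v => ?_
  have hv : v ∈ S x y := this ▸ trivial
  by_cases e' : v ∈ pt x
  · exact H.kln h hf (Submodule.mem_sup_left e')
  · exact H.kr x v f ((ind_iff h.l).2 e') (by rw [(hv.resolve_left e').2]; exact hf)

theorem St.eq2 (s : St Γ) {β : Type*} (Φ : V → V' → β)
    (hΦ : ∀ (g : G) x y h, Φ x h = Φ y h → Φ (g • x) (g • h) = Φ (g • y) (g • h)) {x y : V} {h : V'}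
    (hx : Flag Γ x h) (hy : Flag Γ y h) (hne : x ≠ y) (e : Φ y h = Φ x h) {u : V} (hu : Flag Γ u h) :
    Φ u h = Φ x h := by
  let T : V' → V → Submodule F2 V := fun h x => sub {u | u = 0 ∨ (Flag Γ u h ∧ Φ u h = Φ x h)}
    (Or.inl rfl) (by
      rintro a c (rfl | ha) hc
      · rwa [zero_add]
      rcases hc with rfl | hc
      · rw [add_zero]; exact Or.inr ha
      by_cases e : c = a
      · left; rw [e, aa]
      obtain ⟨g, e1, e2, e3⟩ := s.fcone hc.1 (u := a) ⟨hc.1.l, ha.1.l, e⟩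
      have := hΦ g _ _ _ (ha.2.trans hc.2.symm)
      rw [e1, e2, e3] at this
      exact Or.inr ⟨e2 ▸ e3 ▸ ha.1.smul g, this.trans hc.2⟩)
  have HT : Sp2 Γ T := ⟨fun g h x v hv => hv.imp (fun e => by rw [e, smul_zero])
      fun e => ⟨e.1.smul g, hΦ g _ _ _ e.2⟩,
    fun h x f => Or.inr ⟨f, rfl⟩,
    fun h x _ v hv => hv.elim (fun e => e ▸ zero_mem _) fun e => e.1.z,
    fun h x u _ h0 hu => by
      have e := (hu.resolve_left h0).2
      ext v
      change (_ ∨ _ ∧ _) ↔ (_ ∨ _ ∧ _)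
      rw [e]⟩
  have := HT.ns2 s hx (u := y) (Or.inr ⟨hy, e⟩) ⟨hx.l, hy.l, hne⟩
  have hv : u ∈ T h x := this ▸ hu.z
  exact (hv.resolve_left hu.l).2

end H98.CK
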