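import Cfsg.Agent.Lib.CK.Base

/-! Invariant perfect pairings over `F2` and the Fourier (cone) lemma. -/

set_option autoImplicit false
set_option linter.unusedSectionVars false

namespace H98.CK

open Module

/-- An invariant perfect pairing. -/
structure Pr (G V V' : Type*) [Group G] [AddCommGroup V] [Module F2 V] [DistribMulAction G V]
    [AddCommGroup V'] [Module F2 V'] [DistribMulAction G V'] where
  b : V' →ₗ[F2] V →ₗ[F2] F2
  ndl : ∀ f, (∀ v, b f v = 0) → f = 0
  ndr : ∀ v, (∀ f, b f v = 0) → v = 0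
  inv : ∀ (g : G) f v, b (g • f) (g • v) = b f v

variable {G V V' : Type*} [Group G] [AddCommGroup V] [Module F2 V] [DistribMulAction G V]
  [AddCommGroup V'] [Module F2 V'] [DistribMulAction G V']

namespace Pr

variable (Γ : Pr G V V')

/-- The dual pairing. -/
def flip : Pr G V' V := ⟨Γ.b.flip, Γ.ndr, Γ.ndl, fun g v f => Γ.inv g f v⟩

@[simp] theorem flip_b (v : V) (f : V') : Γ.flip.b v f = Γ.b f v := rfl

theorem inv_l {g : G} {f f' : V'} (h : g • f = f') (v : V) : Γ.b f' (g • v) = Γ.b f v := by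
  rw [← h, Γ.inv]

theorem inv_r {g : G} {v v' : V} (h : g • v = v') (f : V') : Γ.b (g • f) v' = Γ.b f v := by
  rw [← h, Γ.inv]

theorem inv2 {g : G} {f f' : V'} {v v' : V} (h : g • f = f') (h' : g • v = v') :
    Γ.b f' v' = Γ.b f v := by rw [← h, ← h', Γ.inv]

/-- Annihilator. -/
def ann (T : Submodule F2 V') : Submodule F2 V :=
  sub {v | ∀ f ∈ T, Γ.b f v = 0} (fun f _ => map_zero _)
    (fun a c ha hc f hf => by rw [map_add, ha f hf, hc f hf, add_zero])

theorem mem_ann {T : Submodule F2 V'} {v : V} : v ∈ Γ.ann T ↔ ∀ f ∈ T, Γ.b f v = 0 := Iff.rfl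

/-- Kernel of a functional. -/
abbrev kr (f : V') : Submodule F2 V := LinearMap.ker (Γ.b f)

variable [Finite V] [Finite V']

theorem b_inj : Function.Injective Γ.b :=
  (injective_iff_map_eq_zero _).2 fun f hf => Γ.ndl f fun v => by rw [hf]; rfl

include Γ in
theorem fr_le' : finrank F2 V' ≤ finrank F2 V := by
  have := LinearMap.finrank_le_finrank_of_injective Γ.b_inj
  rwa [Subspace.dual_finrank_eq] at this

include Γ in
theorem fr_eq : finrank F2 V' = finrank F2 V := le_antisymm Γ.fr_le' Γ.flip.fr_le'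

theorem b_surj (φ : V →ₗ[F2] F2) : ∃ f, Γ.b f = φ :=
  (LinearMap.injective_iff_surjective_of_finrank_eq_finrank
    (Γ.fr_eq.trans (Subspace.dual_finrank_eq).symm)).1 Γ.b_inj φ

theorem sep {T : Submodule F2 V} {u : V} (hu : u ∉ T) : ∃ f, (∀ t ∈ T, Γ.b f t = 0) ∧ Γ.b f u = 1 := by
  obtain ⟨φ, h1, h2⟩ := Submodule.exists_le_ker_of_notMem hu
  obtain ⟨f, rfl⟩ := Γ.b_surj φ
  exact ⟨f, fun t ht => h2 ht, f_ne h1⟩

theorem sep' {T : Submodule F2 V'} {f : V'} (hf : f ∉ T) : ∃ v, (∀ t ∈ T, Γ.b t v = 0) ∧ Γ.b f v = 1 :=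
  Γ.flip.sep hf

theorem fr_ann (T : Submodule F2 V') : finrank F2 T + finrank F2 (Γ.ann T) = finrank F2 V := by
  have h := Subspace.finrank_add_finrank_dualCoannihilator_eq (K := F2) (V := V) (T.map Γ.b)
  have h1 : (T.map Γ.b).dualCoannihilator = Γ.ann T := by
    ext v
    rw [Submodule.mem_dualCoannihilator, mem_ann]
    exact ⟨fun h f hf => h _ ⟨f, hf, rfl⟩, by rintro h _ ⟨f, hf, rfl⟩; exact h f hf⟩
  rw [h1, ← (Submodule.equivMapOfInjective _ Γ.b_inj T).finrank_eq] at h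
  exact h

theorem exists_one {f : V'} (hf : f ≠ 0) : ∃ v, Γ.b f v = 1 := by
  by_contra h
  push Not at h
  exact hf (Γ.ndl f fun v => f_ne1 (h v))

theorem fr_kr {f : V'} (hf : f ≠ 0) : finrank F2 (Γ.kr f) + 1 = finrank F2 V := by
  obtain ⟨v, hv⟩ := Γ.exists_one hf
  have := (half ⊤ (Γ.b f) (a := v) trivial hv).2
  rwa [top_inf_eq, finrank_top] at this

/-- sign character -/
def sg (a : F2) : ℤ := if a = 0 then 1 else -1

theorem sg_add (a c : F2) : sg (a + c) = sg a * sg c := by revert a c; decide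

theorem sum_flip [Fintype V'] (E : V' → ℤ) (f0 : V') (h : ∀ f, E (f + f0) = -E f) : ∑ f, E f = 0 := by
  have h1 : ∑ f, E (f + f0) = ∑ f, E f := Fintype.sum_equiv (Equiv.addRight f0) _ _ fun _ => rfl
  simp only [h, Finset.sum_neg_distrib] at h1
  omega

/-- The Fourier lemma. -/
theorem four (Y : Subgroup G) {t : V} {f0 : V'} (h0 : Γ.b f0 t = 0)
    (h : ∀ f, Γ.b f t = 1 → ∃ g ∈ Y, g • f = f + f0) {u : V} (hu : Γ.b f0 u = 1) :
    ∃ g ∈ Y, g • u = u + t := by
  classical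
  letI := Fintype.ofFinite V
  letI := Fintype.ofFinite V'
  let O : Finset V := Finset.univ.filter fun v => ∃ g ∈ Y, g • u = v
  have hO : ∀ v, v ∈ O ↔ ∃ g ∈ Y, g • u = v := fun v => by simp [O]
  let Φ : V' → ℤ := fun f => ∑ v ∈ O, sg (Γ.b f v)
  have hΦ : ∀ g ∈ Y, ∀ f, Φ (g • f) = Φ f := by
    intro g hg f
    symm
    refine Finset.sum_bij (fun v _ => g • v) ?_ ?_ ?_ ?_
    · intro v hv
      obtain ⟨k, hk, rfl⟩ := (hO v).1 hv
      exact (hO _).2 ⟨g * k, mul_mem hg hk, mul_smul _ _ _⟩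
    · intro v _ w _ h
      exact MulAction.injective g h
    · intro v hv
      obtain ⟨k, hk, rfl⟩ := (hO v).1 hv
      exact ⟨(g⁻¹ * k) • u, (hO _).2 ⟨_, mul_mem (inv_mem hg) hk, rfl⟩, by rw [mul_smul, smul_inv_smul]⟩
    · intro v _
      rw [Γ.inv]
  have horth : ∀ v : V, ∑ f, sg (Γ.b f v) = if v = 0 then (Fintype.card V' : ℤ) else 0 := by
    intro v
    split_ifs with hv
    · simp [hv, sg]
    · obtain ⟨f1, hf1⟩ := Γ.flip.exists_one hv
      apply sum_flip _ f1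
      intro f
      rw [map_add, LinearMap.add_apply, sg_add, show Γ.b f1 v = 1 from hf1]
      simp [sg]
  have hA : ∀ w, ∑ f, Φ f * sg (Γ.b f w) = if w ∈ O then (Fintype.card V' : ℤ) else 0 := by
    intro w
    simp only [Φ, Finset.sum_mul]
    rw [Finset.sum_comm]
    simp only [← sg_add, ← map_add, horth, add_eq_z]
    rw [Finset.sum_ite_eq' O w]
  have hE : ∑ f, Φ f * sg (Γ.b f u) * (1 - sg (Γ.b f t)) = 0 := by
    apply sum_flip _ f0
    intro f
    simp only [map_add, LinearMap.add_apply, h0, hu, add_zero, sg_add]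
    rcases f01 (Γ.b f t) with h1 | h1
    · simp [h1, sg]
    · obtain ⟨g, hg, hg'⟩ := h f h1
      rw [← hg', hΦ g hg]
      simp [sg]
  have h2 : ∑ f, Φ f * sg (Γ.b f u) * (1 - sg (Γ.b f t)) =
      ∑ f, Φ f * sg (Γ.b f u) - ∑ f, Φ f * sg (Γ.b f (u + t)) := by
    rw [← Finset.sum_sub_distrib]
    refine Finset.sum_congr rfl fun f _ => ?_
    rw [map_add, sg_add]; ring
  rw [h2, hA, hA, if_pos ((hO u).2 ⟨1, one_mem _, one_smul _ _⟩)] at hE
  by_contra hc
  rw [if_neg (fun h => hc ((hO _).1 h))] at hE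
  have : 0 < Fintype.card V' := Fintype.card_pos
  omega

end Pr

end H98.CK
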