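import Cfsg.Agent.Lib.CK.Nsp
import Cfsg.Agent.Lib.Perm.PrimeDegree

/-! The parameters of the geometry of good triples; prime degree. -/

set_option autoImplicit false
set_option linter.unusedSectionVars false

namespace H98.CK

open Module

/-- Burnside: an action of prime degree is `2`-transitive or two-point stabilisers are trivial. -/
theorem prime_deg {G β : Type*} [Group G] [MulAction G β] [Finite β] (Y : Subgroup G) (Ω : Set β)
    (hp : (Ω.ncard).Prime) (hinv : ∀ g ∈ Y, ∀ a ∈ Ω, g • a ∈ Ω)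
    (htr : ∀ a ∈ Ω, ∀ c ∈ Ω, ∃ g ∈ Y, g • a = c) :
    (∀ a ∈ Ω, ∀ c ∈ Ω, ∀ a' ∈ Ω, ∀ c' ∈ Ω, a ≠ c → a' ≠ c' → ∃ g ∈ Y, g • a = a' ∧ g • c = c') ∨
      ∀ g ∈ Y, ∀ a ∈ Ω, ∀ c ∈ Ω, a ≠ c → g • a = a → g • c = c → ∀ d ∈ Ω, g • d = d := by
  haveI := Fact.mk hp
  let Z : Subgroup (Equiv.Perm Ω) :=
    { carrier := {σ | ∃ g ∈ Y, ∀ a, (σ a).1 = g • a.1}
      one_mem' := ⟨1, one_mem _, fun a => (one_smul _ _).symm⟩
      mul_mem' := by
        rintro σ τ ⟨g, hg, h1⟩ ⟨k, hk, h2⟩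
        exact ⟨g * k, mul_mem hg hk, fun a => by rw [Equiv.Perm.mul_apply, h1, h2, mul_smul]⟩
      inv_mem' := by
        rintro σ ⟨g, hg, h1⟩
        exact ⟨g⁻¹, inv_mem hg, fun a => by rw [eq_inv_smul_iff, ← h1]; simp⟩ }
  have mk : ∀ g ∈ Y, ∃ σ : Z, ∀ a, ((σ • a : Ω) : β) = g • a.1 := fun g hg =>
    ⟨⟨(MulAction.toPerm g).subtypePerm (p := (· ∈ Ω)) fun a =>
      ⟨fun h => by simpa using hinv _ (inv_mem hg) _ h, hinv g hg a⟩, g, hg, fun _ => rfl⟩, fun _ => rfl⟩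
  haveI : MulAction.IsPretransitive Z Ω := ⟨fun a c => by
    obtain ⟨g, hg, e⟩ := htr a a.2 c c.2
    obtain ⟨σ, hσ⟩ := mk g hg
    exact ⟨σ, Subtype.ext ((hσ a).trans e)⟩⟩
  obtain ⟨P⟩ : Nonempty (Sylow Ω.ncard Z) := inferInstance
  obtain ⟨c, e, -, hc⟩ := H26.exists_frame_sylow (α := Ω) (Nat.card_coe_set_eq Ω) P
  rcases H26.affine_or_two_trans hc with h | h
  · right
    intro g hg a ha b hb hab e1 e2 d hd
    obtain ⟨σ, hσ⟩ := mk g hg
    obtain ⟨m, t, h⟩ := h σ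
    obtain ⟨i, hi⟩ := e.surjective ⟨a, ha⟩
    obtain ⟨j, hj⟩ := e.surjective ⟨b, hb⟩
    obtain ⟨k, hk⟩ := e.surjective ⟨d, hd⟩
    have f1 : m * i + t = i := e.injective (by rw [← h, hi]; exact Subtype.ext ((hσ _).trans e1))
    have f2 : m * j + t = j := e.injective (by rw [← h, hj]; exact Subtype.ext ((hσ _).trans e2))
    have hij : i - j ≠ 0 := sub_ne_zero.2 fun q => hab (congrArg Subtype.val (hi.symm.trans (q ▸ hj)))
    have f3 : m = 1 := mul_right_cancel₀ hij (by linear_combination f1 - f2)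
    have f4 : t = 0 := by rw [f3] at f1; linear_combination f1
    have := h k
    rw [f3, f4, one_mul, add_zero, hk] at this
    exact (hσ ⟨d, hd⟩).symm.trans (congrArg Subtype.val this)
  · left
    intro a ha b hb a' ha' b' hb' h1 h2
    rw [MulAction.is_two_pretransitive_iff] at h
    obtain ⟨σ, e1, e2⟩ := @h ⟨a, ha⟩ ⟨b, hb⟩ ⟨a', ha'⟩ ⟨b', hb'⟩ (fun q => h1 (congrArg Subtype.val q))
      (fun q => h2 (congrArg Subtype.val q))
    obtain ⟨g, hg, hσ⟩ := σ.2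
    exact ⟨g, hg, (hσ ⟨a, ha⟩).symm.trans (congrArg Subtype.val e1),
      (hσ ⟨b, hb⟩).symm.trans (congrArg Subtype.val e2)⟩

variable {G V V' : Type*} [Group G] [AddCommGroup V] [Module F2 V] [DistribMulAction G V]
  [AddCommGroup V'] [Module F2 V'] [DistribMulAction G V'] [Finite V] [Finite V'] [Finite G]
  {Γ : Pr G V V'}

namespace St

variable (s : St Γ)

theorem D_tr (g : G) {x x' : V} {h h' : V'} (e : s.D x h = s.D x' h') :
    s.D (g • x) (g • h) = s.D (g • x') (g • h') := by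
  have key : ∀ {x x' : V} {h h' : V'}, s.D x h = s.D x' h' →
      s.D (g • x) (g • h) ≤ s.D (g • x') (g • h') := by
    intro x x' h h' e v hv
    have := D_smul g⁻¹ hv
    rw [inv_smul_smul, inv_smul_smul, e] at this
    simpa using D_smul g this
  exact le_antisymm (key e) (key e.symm)

theorem ln_cmp {T : Submodule F2 V} (hT : ∀ g ∈ s.P, ∀ v ∈ T, g • v ∈ T) (h2 : 2 ≤ finrank F2 T) :
    ln s.x0 s.y0 ≤ T := by
  rcases comparable s.hP s.odd le_rfl s.ln_inv (fun m hm l hl => by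
    obtain ⟨g, h1, -, h3⟩ := Γ.cone2 s.t2 s.odd s.hx hm hl
    exact ⟨g, h1, h3⟩) hT with h | h
  · exact (eq_of_le h (by rwa [s.hx.ind.fr_ln])).ge
  · exact h

theorem ln_le_D {x y : V} {h : V'} (H : s.A x y h) : ln x y ≤ s.D x h := ln_le (s.self_D _ _) H.memD

theorem C_lt_D : s.flip.C s.h0 s.k0 < s.D s.x0 s.h0 := by
  have key : ¬ s.D s.x0 s.h0 ≤ s.flip.C s.h0 s.k0 := by
    intro hle
    have fy : Flag Γ s.y0 s.h0 := s.A0.symm.flag
    have e : s.flip.D s.h0 s.x0 = s.flip.D s.h0 s.y0 := eq_of_le (by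
      rintro k (rfl | rfl | ⟨g, e1, e2, e3⟩)
      · exact zero_mem _
      · exact s.flip.self_D _ _
      · have h1 := D_smul g⁻¹ s.A0.memD
        rw [inv_fix (show g • s.x0 = s.x0 from e3), inv_fix (show g • s.h0 = s.h0 from e1)] at h1
        exact ((A_of_C (hle h1) (sm_ne fy.l)).tr e1 e2 (smul_inv_smul _ _)).memD)
      (by rw [s.flip.fr_D fy.flip, s.flip.fr_D s.flag0.flip])
    obtain ⟨u, c1, c2⟩ := Γ.sep' ((ind_iff s.hh.ind.l).1 s.hh.ind)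
    have fu : Flag Γ u s.h0 := ⟨fun e => by rw [e, map_zero] at c2; exact f10 c2.symm, s.hh.ind.l,
      c1 _ (self_pt _)⟩
    have := s.eq2 (fun x h => s.flip.D h x) (fun g x y h e => s.flip.D_tr g e) s.flag0 fy s.hx.ind.ne
      e.symm fu
    have h2 : s.k0 ∈ s.flip.D s.h0 u := this ▸ s.flip.A0.memD
    exact f10 (c2.symm.trans (D_le_kr fu.flip h2))
  exact lt_of_le_of_ne ((s.D_cmp s.flip.C_inv).resolve_right key) fun e => key e.ge

theorem fr_CC : finrank F2 (s.flip.C s.h0 s.k0) = finrank F2 (s.C s.x0 s.y0) := by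
  have h1 := Submodule.finrank_lt_finrank_of_lt s.C_lt_D
  have h2 : finrank F2 (s.C s.x0 s.y0) < finrank F2 (s.flip.D s.h0 s.x0) :=
    Submodule.finrank_lt_finrank_of_lt s.flip.C_lt_D
  have h3 := s.fr_DC
  have h4 : finrank F2 (s.flip.D s.h0 s.x0) = finrank F2 (s.flip.C s.h0 s.k0) + 1 := s.flip.fr_DC
  omega

theorem fr_DD : finrank F2 (s.flip.D s.h0 s.x0) = finrank F2 (s.D s.x0 s.h0) := by
  have h4 : finrank F2 (s.flip.D s.h0 s.x0) = finrank F2 (s.flip.C s.h0 s.k0) + 1 := s.flip.fr_DC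
  rw [h4, s.fr_CC, s.fr_DC]

theorem CD {h k : V'} {y : V} (H : s.flip.A h k y) : s.flip.C h k ≤ s.D y h := by
  obtain ⟨g, e1, e2, e3⟩ := H
  intro v hv
  have h1 := C_smul g⁻¹ hv
  rw [inv_fix e1, inv_fix e2] at h1
  have h2 := D_smul g (s.C_lt_D.le h1)
  rwa [smul_inv_smul, show g • s.x0 = y from e3, show g • s.h0 = h from e1] at h2

theorem D_ne (hlt : finrank F2 (s.D s.x0 s.h0) + 1 < finrank F2 V) {x y : V} {h : V'} (hx : Flag Γ x h)
    (hy : Flag Γ y h) (hne : x ≠ y) : s.D y h ≠ s.D x h := by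
  intro e
  have h1 : Γ.kr h ≤ s.D x h := fun u hu => by
    by_cases h0 : u = 0
    · exact h0 ▸ zero_mem _
    · rw [← s.eq2 s.D (fun g x y h e => s.D_tr g e) hx hy hne e ⟨h0, hx.r, hu⟩]
      exact s.self_D _ _
  have h2 := Submodule.finrank_mono h1
  have h3 := Γ.fr_kr hx.r
  rw [s.fr_D hx] at h2
  omega

theorem three_le (hn : 4 ≤ finrank F2 V) : 3 ≤ finrank F2 (s.D s.x0 s.h0) := by
  by_contra hc
  have fy : Flag Γ s.y0 s.h0 := s.A0.symm.flag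
  have e1 := eq_of_le (s.ln_le_D s.A0) (by rw [s.hx.ind.fr_ln]; omega)
  have e2 := eq_of_le (s.ln_le_D s.A0.symm) (by rw [s.hx.ind.symm.fr_ln, s.fr_D fy]; omega)
  exact s.D_ne (by omega) s.flag0 fy s.hx.ind.ne (by rw [← e1, ← e2, ln_comm])

theorem eq_three (hn : 4 ≤ finrank F2 V) (hlt : finrank F2 (s.D s.x0 s.h0) + 1 < finrank F2 V) :
    finrank F2 (s.D s.x0 s.h0) = 3 := by
  have h3 := s.three_le hn
  by_contra hc
  have c1 := s.fr_CC
  have c2 := s.fr_DC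
  have hL := s.ln_cmp (T := s.flip.C s.h0 s.k0) s.flip.C_inv (by omega)
  obtain ⟨y1, h1, h2⟩ := SetLike.exists_of_lt s.C_lt_D
  obtain ⟨g, e1, e2, e3⟩ := A_of_D h1 (ind_of_notMem s.hx.ind fun h => h2 (hL h))
  have i1 : Ind s.h0 (g • s.k0) := e3 ▸ s.hh.ind.smul g
  have m1 : ∀ v ∈ s.flip.C s.h0 s.k0, g • v ∈ s.flip.C s.h0 (g • s.k0) := fun v hv => by
    simpa [e3] using C_smul g hv
  have a1 : s.flip.C s.h0 (g • s.k0) ≤ s.D s.x0 s.h0 :=
    s.CD (A_of_C (e1 ▸ m1 _ (hL (l_mem_ln _ _))) s.hx.ind.l)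
  have a2 := Submodule.finrank_sup_add_finrank_inf_eq (s.flip.C s.h0 s.k0) (s.flip.C s.h0 (g • s.k0))
  have a3 := Submodule.finrank_mono (sup_le s.C_lt_D.le a1)
  have a4 : finrank F2 (s.flip.C s.h0 (g • s.k0)) = finrank F2 (s.flip.C s.h0 s.k0) := s.flip.fr_C i1
  obtain ⟨y, ⟨b1, b2⟩, b3⟩ := exists_notMem (T := pt s.x0)
    (T' := s.flip.C s.h0 s.k0 ⊓ s.flip.C s.h0 (g • s.k0)) (by rw [fr_pt s.hx.ind.l]; omega)
  have iy := (ind_iff s.hx.ind.l).2 b3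
  have fy : Flag Γ y s.h0 := (A_of_C b1 iy.r).flag.flip
  refine s.D_ne hlt s.flag0 fy iy.ne (eq_of_le (T' := s.D y s.h0) ?_ (s.fr_D fy).le).symm
  intro v hv
  have d1 := s.CD (A_of_C b1 iy.r)
  have d2 := s.CD (A_of_C b2 iy.r) (e2 ▸ m1 _ (hL (r_mem_ln _ _)))
  rcases ext2 s.C_lt_D.le (by omega) h1 h2 hv with e | e
  · exact d1 e
  · exact (mem_add' d2).1 (d1 e)

end St

end H98.CK
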