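import Mathlib

set_option autoImplicit false

namespace H98.CK.W2

section
variable {U : Type*} [AddCommGroup U] [Module (ZMod 2) U]

theorem aa (u : U) : u + u = 0 := by
  have : (2 : ZMod 2) • u = 0 := by
    have h : (2 : ZMod 2) = 0 := by decide
    rw [h, zero_smul]
  rw [← this, two_smul]

theorem aa' (u v : U) : u + (u + v) = v := by rw [← add_assoc, aa, zero_add]

theorem aa'' (u v : U) : v + u + u = v := by rw [add_assoc, aa, add_zero]

theorem eq_of_add {u v : U} (h : u + v = 0) : u = v := by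
  rw [← aa'' v u, h, zero_add]

/-- The hypotheses of a normal spread. -/
structure Spr (S : U → Submodule (ZMod 2) U) : Prop where
  h0 : S 0 = ⊥
  h1 : ∀ u, u ∈ S u
  h2 : ∀ u v, v ∈ S u → v ≠ 0 → S v = S u
  h3 : ∀ a b u, u ∈ S a ⊔ S b → S u ≤ S a ⊔ S b
  h4 : ∀ a b, S a ⊔ S b ≠ ⊤

variable {S : U → Submodule (ZMod 2) U}

theorem Spr.le (h : Spr S) {u v : U} (hv : v ∈ S u) : S v ≤ S u := by
  by_cases h0 : v = 0
  · rw [h0, h.h0]; exact bot_le
  · exact (h.h2 u v hv h0).le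

theorem Spr.ex (h : Spr S) (a b : U) : ∃ v, v ∉ S a ⊔ S b := by
  by_contra hc
  push Not at hc
  exact h.h4 a b (eq_top_iff.mpr fun v _ => hc v)

/-- two different blocks through `u` and `u + y` meet trivially -/
theorem Spr.meet (h : Spr S) {y u v : U} (hy : y ≠ 0) (hu : u ∉ S y) (h1 : v ∈ S u)
    (h2 : v ∈ S (u + y)) : v = 0 := by
  by_contra hv
  have e : S u = S (u + y) := (h.h2 u v h1 hv).symm.trans (h.h2 _ v h2 hv)
  have h3 : u + y ∈ S u := e ▸ h.h1 (u + y)
  have h4 : y ∈ S u := by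
    have := (S u).add_mem (h.h1 u) h3
    rwa [aa'] at this
  apply hu
  rw [h.h2 u y h4 hy]
  exact h.h1 u

theorem Spr.indep (h : Spr S) {y u u' v : U} (hu' : u' ∉ S y ⊔ S u) (h1 : v ∈ S y ⊔ S u)
    (h2 : v ∈ S u') : v = 0 := by
  by_contra hv
  apply hu'
  apply h.h3 y u v h1
  rw [h.h2 u' v h2 hv]
  exact h.h1 u'

theorem Spr.symm (h : Spr S) {y u u' : U} (hu : u ∉ S y) (hu' : u' ∉ S y ⊔ S u) :
    u ∉ S y ⊔ S u' := by
  intro hc
  obtain ⟨w, hw, s, hs, e⟩ := Submodule.mem_sup.mp hc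
  have hs' : s ∈ S y ⊔ S u := by
    have : s = w + u := by rw [← e, aa']
    rw [this]
    exact Submodule.add_mem_sup hw (h.h1 u)
  have := h.indep hu' hs' hs
  apply hu
  rw [← e, this, add_zero]
  exact hw

theorem Spr.exA (h : Spr S) {y t : U} (ht : t ∈ S y) (u : U) :
    ∃ a, a ∈ S u ∧ t + a ∈ S (u + y) := by
  have hy : y ∈ S (u + y) ⊔ S u := by
    have : y = (u + y) + u := by rw [add_comm u y, aa'']
    exact (congrArg (· ∈ S (u + y) ⊔ S u) this).mpr (Submodule.add_mem_sup (h.h1 _) (h.h1 _))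
  obtain ⟨b, hb, a, ha, e⟩ := Submodule.mem_sup.mp (h.h3 _ _ y hy ht)
  refine ⟨a, ha, ?_⟩
  rw [← e, aa'']
  exact hb

theorem Spr.uniqA (h : Spr S) {y t u a a' : U} (hy : y ≠ 0) (hu : u ∉ S y) (ha : a ∈ S u)
    (ha2 : t + a ∈ S (u + y)) (ha' : a' ∈ S u) (ha2' : t + a' ∈ S (u + y)) : a = a' := by
  apply eq_of_add
  apply h.meet hy hu ((S u).add_mem ha ha')
  have := (S (u + y)).add_mem ha2 ha2'
  have e : t + a + (t + a') = a + a' := by
    rw [add_add_add_comm, aa, zero_add]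
  rwa [e] at this

theorem Spr.half (h : Spr S) {y t u u' p p' : U} (ht : t ∈ S y)
    (hu' : u' ∉ S y ⊔ S u) (hp : p ∈ S u) (hp' : p' ∈ S u')
    (hs : t + (p + p') ∈ S (u + u' + y)) : t + p ∈ S (u + y) := by
  have h1 : u + u' + y ∈ S (u + y) ⊔ S u' := by
    have : u + u' + y = (u + y) + u' := by abel
    rw [this]
    exact Submodule.add_mem_sup (h.h1 _) (h.h1 _)
  obtain ⟨β, hβ, q, hq, e⟩ := Submodule.mem_sup.mp (h.h3 _ _ _ h1 hs)
  have h2 : S (u + y) ≤ S y ⊔ S u := by
    apply h.h3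
    rw [add_comm]
    exact Submodule.add_mem_sup (h.h1 _) (h.h1 _)
  have e2 : t + p + β = p' + q := by
    have : t + p + β = (t + (p + p')) + β + p' := by
      rw [add_right_comm _ β p', ← add_assoc t p p', aa'']
    rw [this, ← e, add_right_comm β q β, aa, zero_add, add_comm]
  have h3 : t + p + β = 0 := by
    apply h.indep hu'
    · exact (S y ⊔ S u).add_mem (Submodule.add_mem_sup ht hp) (h2 hβ)
    · rw [e2]; exact (S u').add_mem hp' hq
  rw [eq_of_add h3]
  exact hβ

theorem Spr.exT (h : Spr S) {y t : U} (hy : y ≠ 0) (ht : t ∈ S y) :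
    ∃ T : U →ₗ[ZMod 2] U, (∀ u, T u ∈ S u) ∧ T y = t := by
  classical
  choose α hα1 hα2 using h.exA ht
  have I : ∀ u u', u ∉ S y → u' ∉ S y ⊔ S u → α (u + u') = α u + α u' := by
    intro u u' hu hu'
    have hle : S (u + u') ≤ S u ⊔ S u' :=
      h.h3 _ _ _ (Submodule.add_mem_sup (h.h1 _) (h.h1 _))
    obtain ⟨p, hp, p', hp', e⟩ := Submodule.mem_sup.mp (hle (hα1 _))
    have hs : t + (p + p') ∈ S (u + u' + y) := by rw [e]; exact hα2 _
    have hu'y : u' ∉ S y := fun hc => hu' (Submodule.mem_sup_left hc)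
    have e1 : p = α u := h.uniqA hy hu hp (h.half ht hu' hp hp' hs) (hα1 u) (hα2 u)
    have e2 : p' = α u' := by
      refine h.uniqA hy hu'y hp' (h.half ht (h.symm hu hu') hp' hp ?_) (hα1 u') (hα2 u')
      rw [add_comm p' p, add_comm u' u]
      exact hs
    rw [← e, e1, e2]
  have II : ∀ u u', u ∉ S y → u' ∉ S y → u + u' ∉ S y → α (u + u') = α u + α u' := by
    intro u u' hu hu' huu
    by_cases hc : u' ∈ S y ⊔ S u
    swap
    · exact I u u' hu hc
    obtain ⟨v, hv⟩ := h.ex y u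
    have l1 : S y ⊔ S u' ≤ S y ⊔ S u := sup_le le_sup_left (h.h3 _ _ _ hc)
    have l2 : S y ⊔ S (u + u') ≤ S y ⊔ S u :=
      sup_le le_sup_left (h.h3 _ _ _ ((S y ⊔ S u).add_mem (Submodule.mem_sup_right (h.h1 u)) hc))
    have e1 := I u v hu hv
    have e2 := I u' v hu' (fun hh => hv (l1 hh))
    have e3 := I (u + u') (u' + v) huu (fun hh => hv (by
      have := (S y ⊔ S u).add_mem hc (l2 hh)
      rwa [aa'] at this))
    have e4 : u + u' + (u' + v) = u + v := by rw [add_assoc, aa']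
    rw [e4, e1, e2] at e3
    have e5 : α (u + u') = (α (u + u') + (α u' + α v)) + (α u' + α v) := by rw [aa'']
    rw [e5, ← e3, add_add_add_comm, aa, add_zero]
  have hadd : ∀ a u, a ∈ S y → u ∉ S y → a + u ∉ S y := fun a u ha hu hc => hu (by
    have := (S y).add_mem ha hc
    rwa [aa'] at this)
  have III : ∀ a u u', a ∈ S y → u ∉ S y → u' ∉ S y → u + u' ∉ S y →
      α (a + u) + α u = α (a + u') + α u' := by
    intro a u u' ha hu hu' huu
    have e1 := II (a + u) u' (hadd a u ha hu) hu' (by rw [add_assoc]; exact hadd _ _ ha huu)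
    have e2 := II (a + u') u (hadd a u' ha hu') hu
      (by rw [add_assoc, add_comm u' u]; exact hadd _ _ ha huu)
    have e3 : a + u' + u = a + u + u' := by abel
    rw [e3, e1] at e2
    have : α (a + u) + α u = (α (a + u) + α u') + α u + α u' := by
      rw [add_right_comm _ (α u) (α u'), aa'']
    rw [this, e2, aa'']
  have IV : ∀ a u u', a ∈ S y → u ∉ S y → u' ∉ S y →
      α (a + u) + α u = α (a + u') + α u' := by
    intro a u u' ha hu hu'
    by_cases huu : u + u' ∈ S y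
    swap
    · exact III a u u' ha hu hu' huu
    obtain ⟨v, hv⟩ := h.ex y u
    have hv0 : v ∉ S y := fun hc => hv (Submodule.mem_sup_left hc)
    have huv : u + v ∉ S y := fun hc => hv (by
      have := Submodule.add_mem_sup hc (h.h1 u)
      rwa [add_comm u v, aa''] at this)
    have huv' : u' + v ∉ S y := fun hc => huv (by
      have := (S y).add_mem huu hc
      rwa [add_assoc, aa'] at this)
    exact (III a u v ha hu hv0 huv).trans (III a u' v ha hu' hv0 huv').symm
  obtain ⟨u0, hu0'⟩ := h.ex y y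
  have hu0 : u0 ∉ S y := fun hc => hu0' (Submodule.mem_sup_left hc)
  let T : U → U := fun v => if v ∈ S y then α (v + u0) + α u0 else α v
  have T1 : ∀ a u, a ∈ S y → u ∉ S y → T a = α (a + u) + α u := by
    intro a u ha hu
    simp only [T, if_pos ha]
    exact IV a u0 u ha hu0 hu
  have T2 : ∀ v, v ∉ S y → T v = α v := fun v hv => by simp only [T, if_neg hv]
  have T3 : ∀ a v, a ∈ S y → v ∉ S y → T (a + v) = T a + T v := by
    intro a v ha hv
    rw [T1 a v ha hv, T2 v hv, T2 _ (hadd a v ha hv), aa'']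
  have Tadd : ∀ v v', T (v + v') = T v + T v' := by
    intro v v'
    by_cases hv : v ∈ S y <;> by_cases hv' : v' ∈ S y
    · rw [T1 _ u0 ((S y).add_mem hv hv') hu0, T1 v (v' + u0) hv (hadd _ _ hv' hu0),
        T1 v' u0 hv' hu0, add_assoc v v' u0, add_assoc (α _) (α _), aa']
    · exact T3 v v' hv hv'
    · rw [add_comm v v', T3 v' v hv' hv, add_comm]
    · by_cases hvv : v + v' ∈ S y
      · rw [T1 _ v' hvv hv', T2 v hv, T2 v' hv', aa'']
      · rw [T2 _ hvv, T2 v hv, T2 v' hv']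
        exact II v v' hv hv' hvv
  let T' : U →+ U := AddMonoidHom.mk' T Tadd
  refine ⟨T'.toZModLinearMap 2, fun v => ?_, ?_⟩
  · show T v ∈ S v
    by_cases hv : v ∈ S y
    swap
    · rw [T2 v hv]; exact hα1 v
    by_cases hv0 : v = 0
    · have : T v = 0 := by rw [hv0]; exact T'.map_zero
      rw [this]; exact (S v).zero_mem
    rw [h.h2 y v hv hv0]
    have key : ∀ u, u ∉ S y → T v ∈ S y ⊔ S u := by
      intro u hu
      rw [T1 v u hv hu]
      exact (S y ⊔ S u).add_mem (h.h3 _ _ _ (Submodule.add_mem_sup hv (h.h1 u)) (hα1 _))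
        (Submodule.mem_sup_right (hα1 u))
    obtain ⟨u', hu'⟩ := h.ex y u0
    obtain ⟨w, hw, s, hs, e⟩ :=
      Submodule.mem_sup.mp (key u' (fun hc => hu' (Submodule.mem_sup_left hc)))
    have hs0 : s = 0 := by
      apply h.indep hu' _ hs
      have : s = w + T v := by rw [← e, aa']
      rw [this]
      exact (S y ⊔ S u0).add_mem (Submodule.mem_sup_left hw) (key u0 hu0)
    rw [← e, hs0, add_zero]
    exact hw
  · show T y = t
    rw [T1 y u0 (h.h1 y) hu0]
    have e : α (y + u0) = t + α u0 := by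
      refine h.uniqA hy (hadd y u0 (h.h1 y) hu0) (hα1 _) (hα2 _) ?_ ?_
      · rw [add_comm y u0]; exact hα2 u0
      · rw [aa', add_comm y u0, aa'']; exact hα1 u0
    rw [e, aa'']

/-- The algebra of block-preserving endomorphisms. -/
def Spr.D (h : Spr S) : Subalgebra (ZMod 2) (Module.End (ZMod 2) U) where
  carrier := {T | ∀ u, T u ∈ S u}
  mul_mem' := fun {a b} ha hb u => h.le (hb u) (ha (b u))
  add_mem' := fun {a b} ha hb u => (S u).add_mem (ha u) (hb u)
  algebraMap_mem' := fun r u => (S u).smul_mem r (h.h1 u)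

theorem Spr.mem_D (h : Spr S) {T : Module.End (ZMod 2) U} : T ∈ h.D ↔ ∀ u, T u ∈ S u := Iff.rfl

theorem Spr.zero_of (h : Spr S) {T : Module.End (ZMod 2) U} (hT : ∀ u, T u ∈ S u) {y : U}
    (hy : y ≠ 0) (h0 : T y = 0) : T = 0 := by
  have k : ∀ v, v ∉ S y → T v = 0 := by
    intro v hv
    apply h.meet hy hv (hT v)
    have := hT (v + y)
    rwa [map_add, h0, add_zero] at this
  ext v
  show T v = 0
  by_cases hv : v ∈ S y
  swap
  · exact k v hv
  obtain ⟨u, hu'⟩ := h.ex y y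
  have hu : u ∉ S y := fun hc => hu' (Submodule.mem_sup_left hc)
  have huv : v + u ∉ S y := fun hc => hu (by
    have := (S y).add_mem hv hc
    rwa [aa'] at this)
  rw [← aa'' u v, map_add, k _ huv, k _ hu, add_zero]

end

theorem rank_le_two {D : Type*} [Ring D] [IsDomain D] [Finite D] [Algebra (ZMod 2) D]
    (h : ∀ φ ψ : D →ₗ[ZMod 2] ZMod 2, φ 1 = 1 → ψ 1 = 1 →
      ∃ σ : D →ₐ[ZMod 2] D, ∀ x, ψ (σ x) = φ x) :
    Module.finrank (ZMod 2) D ≤ 2 := by
  classical
  have hc : Nat.card (D →ₐ[ZMod 2] D) ≤ Module.finrank (ZMod 2) D := by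
    letI : CommRing D := { ‹Ring D› with mul_comm := (Finite.isDomain_to_isField D).mul_comm }
    exact card_algHom_le_finrank (ZMod 2) D D
  obtain ⟨ψ, hψ⟩ := Module.Projective.exists_dual_eq_one (ZMod 2) (one_ne_zero : (1 : D) ≠ 0)
  let ev : Module.Dual (ZMod 2) D →ₗ[ZMod 2] ZMod 2 := Module.Dual.eval (ZMod 2) D 1
  have hev : ∀ f, ev f = f 1 := fun f => rfl
  have hr := LinearMap.finrank_range_add_finrank_ker ev
  have hr1 : Module.finrank (ZMod 2) (LinearMap.range ev) ≤ 1 := by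
    have := Submodule.finrank_le (LinearMap.range ev)
    rwa [Module.finrank_self] at this
  rw [Subspace.dual_finrank_eq] at hr
  have hx : ∀ κ : LinearMap.ker ev, ∃ σ : D →ₐ[ZMod 2] D, ∀ x, ψ (σ x) = (κ.1 + ψ) x := by
    intro κ
    apply h _ _ _ hψ
    have : κ.1 1 = 0 := κ.2
    rw [LinearMap.add_apply, this, hψ, zero_add]
  choose F hF using hx
  have hinj : Function.Injective F := by
    intro κ κ' e
    apply Subtype.ext
    ext x
    have e1 := hF κ x
    rw [e, hF κ' x, LinearMap.add_apply, LinearMap.add_apply] at e1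
    exact (add_right_cancel e1).symm
  haveI : Finite (D →ₐ[ZMod 2] D) :=
    Finite.of_injective (fun (f : D →ₐ[ZMod 2] D) => (f : D → D)) DFunLike.coe_injective
  have hle := Nat.card_le_card_of_injective F hinj
  rw [Module.natCard_eq_pow_finrank (K := ZMod 2), Nat.card_zmod] at hle
  generalize Module.finrank (ZMod 2) (LinearMap.ker ev) = k at hle hr
  by_contra hlt
  have hk : 2 ≤ k := by omega
  obtain ⟨j, rfl⟩ := Nat.exists_eq_add_of_le hk
  have := Nat.lt_two_pow_self (n := j)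
  rw [pow_add] at hle
  omega

theorem eqns_W2 : True := by
  have := @Spr.D.eq_1.{0}
  trivial

end H98.CK.W2

namespace H98.CK

theorem spread_four {U : Type*} [AddCommGroup U] [Module (ZMod 2) U] [Finite U]
    (S : U → Submodule (ZMod 2) U)
    (h0 : S 0 = ⊥) (h1 : ∀ u, u ∈ S u) (h2 : ∀ u v, v ∈ S u → v ≠ 0 → S v = S u)
    (h3 : ∀ a b u, u ∈ S a ⊔ S b → S u ≤ S a ⊔ S b)
    (h4 : ∀ a b, S a ⊔ S b ≠ ⊤)
    (y z : U) (hy : y ≠ 0) (hz : z ∈ S y) (hz0 : z ≠ 0) (hzy : z ≠ y)
    (h6 : ∀ φ ψ : U →ₗ[ZMod 2] ZMod 2, φ y = 1 → ψ y = 1 → ∃ g : U ≃ₗ[ZMod 2] U,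
      g y = y ∧ (∀ u v, v ∈ S u → g v ∈ S (g u)) ∧ (∀ u v, v ∈ S u → g.symm v ∈ S (g.symm u)) ∧
        ∀ u, ψ (g u) = φ u) :
    ∃ ω : U →ₗ[ZMod 2] U, (∀ u, ω (ω u) = ω u + u) ∧
      ∀ u v, v ∈ S u ↔ v = 0 ∨ v = u ∨ v = ω u ∨ v = ω u + u := by
  classical
  have h : W2.Spr S := ⟨h0, h1, h2, h3, h4⟩
  haveI : Finite (Module.End (ZMod 2) U) :=
    Finite.of_injective (fun (f : U →ₗ[ZMod 2] U) => (f : U → U)) DFunLike.coe_injective
  haveI : Nontrivial h.D := ⟨⟨1, 0, fun e => hy (by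
    have := congrArg (fun T : h.D => T.1 y) e
    simpa using this)⟩⟩
  haveI : NoZeroDivisors h.D := ⟨fun {a b} e => by
    by_cases hb : b = 0
    · exact Or.inr hb
    left
    have hby : b.1 y ≠ 0 := fun hc => hb (Subtype.ext (h.zero_of b.2 hy hc))
    exact Subtype.ext (h.zero_of a.2 hby (congrArg (fun T : h.D => T.1 y) e))⟩
  haveI : IsDomain h.D := NoZeroDivisors.to_isDomain _
  let ev : h.D →ₗ[ZMod 2] U := (LinearMap.applyₗ y).comp h.D.val.toLinearMap
  have hev : ∀ T : h.D, ev T = T.1 y := fun T => rfl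
  have hker : LinearMap.ker ev = ⊥ := by
    rw [LinearMap.ker_eq_bot']
    intro T hT
    exact Subtype.ext (h.zero_of T.2 hy hT)
  obtain ⟨π, hπ⟩ := LinearMap.exists_leftInverse_of_injective ev hker
  have hπ' : ∀ T : h.D, π (T.1 y) = T := fun T => LinearMap.congr_fun hπ T
  have hrk : Module.finrank (ZMod 2) h.D ≤ 2 := by
    apply W2.rank_le_two
    intro φ ψ hφ hψ
    obtain ⟨g, hg1, hg2, -, hg4⟩ := h6 (φ.comp π) (ψ.comp π)
      (by rw [LinearMap.comp_apply]; exact (congrArg φ (hπ' 1)).trans hφ)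
      (by rw [LinearMap.comp_apply]; exact (congrArg ψ (hπ' 1)).trans hψ)
    have hmem : ∀ T : h.D,
        ((g.conjAlgEquiv (ZMod 2)).toAlgHom.comp h.D.val) T ∈ h.D := by
      intro T u
      have := hg2 _ _ (T.2 (g.symm u))
      rw [g.apply_symm_apply] at this
      exact this
    refine ⟨((g.conjAlgEquiv (ZMod 2)).toAlgHom.comp h.D.val).codRestrict h.D hmem, fun T => ?_⟩
    have e := hg4 (T.1 y)
    rw [LinearMap.comp_apply, LinearMap.comp_apply, hπ'] at e
    rw [← e, ← hπ' (AlgHom.codRestrict _ _ _ T)]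
    congr 2
    show g (T.1 (g.symm y)) = g (T.1 y)
    have : g.symm y = y := by rw [LinearEquiv.symm_apply_eq, hg1]
    rw [this]
  obtain ⟨ω, hω, hωy⟩ := h.exT hy hz
  let w : h.D := ⟨ω, hω⟩
  have hcard : Nat.card h.D ≤ 4 := by
    rw [Module.natCard_eq_pow_finrank (K := ZMod 2), Nat.card_zmod]
    exact Nat.pow_le_pow_right (by norm_num) hrk
  have w0 : w ≠ 0 := fun e => hz0 (by
    rw [← hωy]; exact congrArg (fun T : h.D => T.1 y) e)
  have w1 : w ≠ 1 := fun e => hzy (by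
    rw [← hωy]; exact congrArg (fun T : h.D => T.1 y) e)
  have w2 : w + 1 ≠ 0 := fun e => w1 (W2.eq_of_add e)
  have w3 : w + 1 ≠ 1 := fun e => w0 (by simpa using e)
  have w4 : w + 1 ≠ w := fun e => by simp at e
  have hall : ∀ T : h.D, T = 0 ∨ T = 1 ∨ T = w ∨ T = w + 1 := by
    intro T
    by_contra hc
    push Not at hc
    obtain ⟨c0, c1, c2, c3⟩ := hc
    letI := Fintype.ofFinite h.D
    have hle := Finset.card_le_univ ({T, w + 1, w, 1, 0} : Finset h.D)
    rw [Finset.card_insert_of_notMem (by simp [c0, c1, c2, c3]),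
      Finset.card_insert_of_notMem (by simp [w2, w3, w0]),
      Finset.card_insert_of_notMem (by simp [w0, w1]),
      Finset.card_insert_of_notMem (by simp), Finset.card_singleton,
      ← Nat.card_eq_fintype_card] at hle
    omega
  have hww : w * w = w + 1 := by
    rcases hall (w * w) with e | e | e | e
    · exact absurd (mul_self_eq_zero.mp e) w0
    · exfalso
      apply w2
      apply mul_self_eq_zero.mp
      rw [add_mul, mul_add, mul_add, e, mul_one, one_mul, one_mul, add_comm w 1, W2.aa]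
    · exfalso
      have : w * (w + 1) = 0 := by rw [mul_add, e, mul_one, W2.aa]
      rcases mul_eq_zero.mp this with e' | e'
      · exact w0 e'
      · exact w2 e'
    · exact e
  refine ⟨ω, fun u => congrArg (fun T : h.D => T.1 u) hww, fun u v => ⟨fun hv => ?_, ?_⟩⟩
  · by_cases hu : u = 0
    · left
      rw [hu, h0] at hv
      exact hv
    obtain ⟨T, hT, hTu⟩ := h.exT hu hv
    rcases hall ⟨T, hT⟩ with e | e | e | e
    · exact Or.inl (hTu.symm.trans (congrArg (fun T : h.D => T.1 u) e))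
    · exact Or.inr (Or.inl (hTu.symm.trans (congrArg (fun T : h.D => T.1 u) e)))
    · exact Or.inr (Or.inr (Or.inl (hTu.symm.trans (congrArg (fun T : h.D => T.1 u) e))))
    · exact Or.inr (Or.inr (Or.inr (hTu.symm.trans (congrArg (fun T : h.D => T.1 u) e))))
  · rintro (e | e | e | e) <;> rw [e]
    · exact (S u).zero_mem
    · exact h1 u
    · exact hω u
    · exact (S u).add_mem (hω u) (h1 u)

end H98.CK
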