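import Cfsg.Agent.Lib.CK.Ker
import Cfsg.Agent.Lib.CK.W2

/-! No invariant spreads on `V / x`. -/

set_option autoImplicit false
set_option linter.unusedSectionVars false

namespace H98.CK

open Module

theorem alg1 {E : Type*} [Ring E] [Module F2 E] {a c d : E} (ha : a * a = a + 1) (hc : c * c = c + 1)
    (hd : d * d = d + 1) (h : d = a + c ∨ d = a + c + 1) : a * c + c * a = 1 := by
  rcases h with rfl | rfl
  · linear_combination (norm := noncomm_ring) hd - ha - hc - aa (1 : E)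
  · linear_combination (norm := noncomm_ring) hd - ha - hc - aa (1 : E) - aa a - aa c

theorem alg2 {E : Type*} [Ring E] [Module F2 E] {a c d e : E} (h1 : a * e + e * a = 1)
    (h2 : c * e + e * c = 1) (h3 : d * e + e * d = 1) (h : d = a + c ∨ d = a + c + 1) : (1 : E) = 0 := by
  rcases h with rfl | rfl
  · linear_combination (norm := noncomm_ring) h1 + h2 - h3 + aa (1 : E)
  · linear_combination (norm := noncomm_ring) h1 + h2 - h3 + aa (1 : E) + aa e

theorem scalar_of {W : Type*} [AddCommGroup W] [Module F2 W] (N : W →ₗ[F2] W)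
    (h : ∀ q, N q = 0 ∨ N q = q) : N = 0 ∨ N = 1 := by
  by_cases h0 : N = 0
  · exact Or.inl h0
  right
  obtain ⟨p, hp⟩ : ∃ p, N p ≠ 0 := by
    by_contra hc
    push Not at hc
    exact h0 (LinearMap.ext hc)
  have hp' := (h p).resolve_left hp
  ext q
  rcases h q with e | e
  · rcases h (q + p) with e' | e'
    · rw [map_add, e, zero_add] at e'; exact absurd e' hp
    · rw [map_add, e, hp', zero_add] at e'
      have : q = 0 := by simpa using e'
      simp [this]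
  · exact e

variable {G V V' : Type*} [Group G] [AddCommGroup V] [Module F2 V] [DistribMulAction G V]
  [AddCommGroup V'] [Module F2 V'] [DistribMulAction G V'] [Finite V] [Finite V'] [Finite G]
  {Γ : Pr G V V'}

theorem ind_iff {x u : V} (hx : x ≠ 0) : Ind x u ↔ u ∉ pt x := by
  rw [mem_pt]; push Not
  exact ⟨fun h => ⟨h.r, h.ne.symm⟩, fun h => ⟨hx, h.1, h.2.symm⟩⟩

theorem self_pt (x : V) : x ∈ pt x := mem_pt.2 (Or.inr rfl)
theorem pt_le {x : V} {T : Submodule F2 V} (h : x ∈ T) : pt x ≤ T :=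
  (Submodule.span_singleton_le_iff_mem _ _).2 h

variable (G) in
/-- An equivariant family of spreads of the quotients `V / x`. -/
structure Sp1 (S : V → V → Submodule F2 V) : Prop where
  eqv : ∀ (g : G) x y v, v ∈ S x y → g • v ∈ S (g • x) (g • y)
  l : ∀ x y, Ind x y → x ∈ S x y
  r : ∀ x y, Ind x y → y ∈ S x y
  blk : ∀ x y u, Ind x y → Ind x u → u ∈ S x y → S x u = S x y

open Classical in
/-- The block through `x` and `u`. -/
noncomputable def Sx (S : V → V → Submodule F2 V) (x u : V) : Submodule F2 V :=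
  if u ∈ pt x then pt x else S x u

namespace Sp1

variable {S : V → V → Submodule F2 V} (H : Sp1 G S)
include H

theorem fr_eq (hT : T2 G V) {x y x' y' : V} (h : Ind x y) (h' : Ind x' y') :
    finrank F2 (S x y) = finrank F2 (S x' y') := by
  obtain ⟨g, e1, e2⟩ := hT _ _ _ _ h h'
  exact le_antisymm (fr_mono g fun v hv => e1 ▸ e2 ▸ H.eqv g _ _ _ hv)
    (fr_mono g⁻¹ fun v hv => inv_fix e1 ▸ inv_fix e2 ▸ H.eqv g⁻¹ _ _ _ hv)

theorem symm (s : St Γ) {x y : V} (h : Ind x y) : S y x = S x y := by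
  have key : ∀ x y, Ind x y → S x y ≤ S y x := by
    intro x y h u hu
    by_cases e : u ∈ ln x y
    · exact ln_le (H.r _ _ h.symm) (H.l _ _ h.symm) e
    · obtain ⟨g, e1, e2, e3⟩ := s.sw2 h e
      have := H.eqv g _ _ _ hu
      rwa [e1, e2, e3] at this
  exact le_antisymm (key _ _ h.symm) (key _ _ h)

theorem steiner (s : St Γ) {x y a c : V} (h : Ind x y) (ha : a ∈ S x y) (hc : c ∈ S x y) (h' : Ind a c) :
    S a c = S x y := by
  by_cases e : x = a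
  · subst e; exact H.blk _ _ _ h h' hc
  · have h1 : Ind x a := ⟨h.l, h'.l, e⟩
    rw [← H.blk _ _ _ h h1 ha, ← H.symm s h1] at hc ⊢
    exact H.blk _ _ _ h1.symm h' hc

omit H in
theorem sx_of {x u : V} (h : Ind x u) : Sx S x u = S x u := if_neg ((ind_iff h.l).1 h)
omit H in
theorem sx_pt {x u : V} (h : u ∈ pt x) : Sx S x u = pt x := if_pos h

theorem pt_le_sx {x : V} (hx : x ≠ 0) (u : V) : pt x ≤ Sx S x u := by
  by_cases h : u ∈ pt x
  · rw [sx_pt h]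
  · rw [sx_of ((ind_iff hx).2 h)]; exact pt_le (H.l _ _ ((ind_iff hx).2 h))

theorem self_sx {x : V} (hx : x ≠ 0) (u : V) : u ∈ Sx S x u := by
  by_cases h : u ∈ pt x
  · rwa [sx_pt h]
  · rw [sx_of ((ind_iff hx).2 h)]; exact H.r _ _ ((ind_iff hx).2 h)

theorem sx_eq {x u v : V} (hx : x ≠ 0) (hv : v ∈ Sx S x u) (hv' : v ∉ pt x) : Sx S x v = Sx S x u := by
  by_cases h : u ∈ pt x
  · rw [sx_pt h] at hv; exact absurd hv hv'
  · rw [sx_of ((ind_iff hx).2 h)] at hv ⊢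
    rw [sx_of ((ind_iff hx).2 hv')]
    exact H.blk _ _ _ ((ind_iff hx).2 h) ((ind_iff hx).2 hv') hv

theorem sx_le {x u v : V} (hx : x ≠ 0) (hv : v ∈ Sx S x u) : Sx S x v ≤ Sx S x u := by
  by_cases h : v ∈ pt x
  · rw [sx_pt h]; exact H.pt_le_sx hx u
  · exact (H.sx_eq hx hv h).le

theorem sx_smul (g : G) {x u v : V} (hx : x ≠ 0) (hv : v ∈ Sx S x u) : g • v ∈ Sx S (g • x) (g • u) := by
  by_cases h : u ∈ pt x
  · rw [sx_pt h] at hv
    apply H.pt_le_sx (sm_ne hx)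
    rcases mem_pt.1 hv with rfl | rfl
    · simp
    · exact self_pt _
  · rw [sx_of ((ind_iff hx).2 h)] at hv
    rw [sx_of (((ind_iff hx).2 h).smul g)]
    exact H.eqv g _ _ _ hv

theorem kadd (s : St Γ) {x : V} {h : V'} (hf : Flag Γ x h) {p q : V} (hp : ∀ v ∈ Sx S x p, Γ.b h v = 0)
    (hq : ∀ v ∈ Sx S x q, Γ.b h v = 0) : ∀ v ∈ Sx S x (p + q), Γ.b h v = 0 := by
  have hx := s.hx.ind.l
  obtain ⟨u0, hu0⟩ := Γ.exists_one s.flag0.r
  have kp : ∀ v ∈ pt s.x0, Γ.b s.h0 v = 0 := fun v hv => pt_le (T := Γ.kr s.h0) s.flag0.z hv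
  obtain ⟨K, -, hK⟩ := kernel_sub s.hP (T0 := pt s.x0) (T1 := ⊤) (fun g hg v hv => by
      rcases mem_pt.1 hv with rfl | rfl
      · simp
      · rw [s.hx.fx g hg]; exact hv) (by simp) (Γ.b s.h0) kp (u0 := u0) trivial hu0
    (fun u _ hu => Γ.flip.p_phi s.t2' s.odd s.hh hu0 hu) (Sx S s.x0)
    (σ := finrank F2 (S s.x0 s.y0))
    (fun u _ hu => ⟨H.pt_le_sx hx u, le_top, H.self_sx hx u, by
      rw [sx_of ((ind_iff hx).2 hu)]; exact H.fr_eq s.t2 ((ind_iff hx).2 hu) s.hx.ind,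
      fun v hv hv' => H.sx_eq hx hv hv'⟩)
    (fun g hg u v hv => by simpa [s.hx.fx g hg] using H.sx_smul g hx hv)
  obtain ⟨g, e1, e2⟩ := s.to_flag hf
  have tr : ∀ p, (∀ v ∈ Sx S x p, Γ.b h v = 0) → g⁻¹ • p ∈ K := fun p hp =>
    (hK _).2 ⟨trivial, Or.inr fun v hv => by
      have := H.sx_smul g hx hv
      rw [e1, smul_inv_smul] at this
      rw [← hp _ this, Γ.inv_l e2]⟩
  have h1 := ((hK _).1 (add_mem (tr p hp) (tr q hq))).2
  have h2 : ∀ v ∈ Sx S s.x0 (g⁻¹ • p + g⁻¹ • q), Γ.b s.h0 v = 0 := by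
    rcases h1 with h1 | h1
    · rw [sx_pt h1]; exact kp
    · exact h1
  intro v hv
  have := H.sx_smul g⁻¹ hf.l hv
  rw [inv_fix e1, smul_add] at this
  rw [← h2 _ this, Γ.inv_l (inv_fix e2)]

theorem normal (s : St Γ) {x : V} (hx : x ≠ 0) {a c u : V} (hu : u ∈ Sx S x a ⊔ Sx S x c) :
    Sx S x u ≤ Sx S x a ⊔ Sx S x c := by
  intro v hv
  by_contra hc
  obtain ⟨h, h1, h2⟩ := Γ.sep hc
  obtain ⟨p, hp, q, hq, rfl⟩ := Submodule.mem_sup.1 hu
  have hf : Flag Γ x h := ⟨hx, fun e => by rw [e, map_zero] at h2; exact f10 h2.symm,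
    h1 _ (Submodule.mem_sup_left (H.pt_le_sx hx a (self_pt x)))⟩
  exact f10 (h2.symm.trans (H.kadd s hf (fun w hw => h1 w (Submodule.mem_sup_left (H.sx_le hx hp hw)))
    (fun w hw => h1 w (Submodule.mem_sup_right (H.sx_le hx hq hw))) v hv))

theorem omega_lift (s : St Γ) {x y z : V} (h : Ind x y) (hz : z ∈ S x y) (hz' : z ∉ ln x y)
    (h4 : ∀ a c, Sx S x a ⊔ Sx S x c ≠ ⊤) : ∃ Ω : V →ₗ[F2] V, Ω x = 0 ∧
      (∀ u, Ω (Ω u) + (Ω u + u) ∈ pt x) ∧
      ∀ u v, v ∈ Sx S x u ↔ v ∈ pt x ∨ v + u ∈ pt x ∨ v + Ω u ∈ pt x ∨ v + (Ω u + u) ∈ pt x := by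
  have hx := h.l
  let m := (pt x).mkQ
  have hm := (pt x).mkQ_surjective
  haveI : Finite (V ⧸ pt x) := Finite.of_surjective _ hm
  have m0 : ∀ v, m v = 0 ↔ v ∈ pt x := fun v => Submodule.Quotient.mk_eq_zero _
  have meq : ∀ v w, m v = m w ↔ v + w ∈ pt x := fun v w => by rw [← m0, map_add, add_eq_z]
  obtain ⟨r, hr⟩ := m.exists_rightInverse_of_surjective (LinearMap.range_eq_top.2 hm)
  have hr' : ∀ q, m (r q) = q := fun q => LinearMap.congr_fun hr q
  let T : V ⧸ pt x → Submodule F2 (V ⧸ pt x) := fun q => (Sx S x (r q)).map m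
  have mmap : ∀ (Z : Submodule F2 V) v, pt x ≤ Z → (m v ∈ Z.map m ↔ v ∈ Z) := fun Z v hZ =>
    ⟨fun ⟨w, hw, e⟩ => (mem_add hw).1 (hZ ((meq _ _).1 e)), fun hv => ⟨v, hv, rfl⟩⟩
  have hT : ∀ u, T (m u) = (Sx S x u).map m := by
    intro u
    have h1 := (meq _ _).1 (hr' (m u))
    change (Sx S x (r (m u))).map m = _
    congr 1
    by_cases e : u ∈ pt x
    · rw [sx_pt e, sx_pt ((mem_add' e).1 h1)]
    · exact H.sx_eq hx ((mem_add' (H.self_sx hx u)).1 (H.pt_le_sx hx u h1))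
        fun e' => e ((mem_add e').1 h1)
  have hT' : ∀ u v, m v ∈ T (m u) ↔ v ∈ Sx S x u := fun u v => by
    rw [hT, mmap _ _ (H.pt_le_sx hx u)]
  have hT2 : ∀ a c v, m v ∈ T (m a) ⊔ T (m c) ↔ v ∈ Sx S x a ⊔ Sx S x c := fun a c v => by
    rw [hT, hT, ← Submodule.map_sup, mmap _ _ ((H.pt_le_sx hx a).trans le_sup_left)]
  obtain ⟨ω, w1, w2⟩ := spread_four T
    (by rw [← map_zero m, hT, sx_pt (zero_mem _)]; exact (pt x).mkQ_map_self)
    (fun q => by obtain ⟨u, rfl⟩ := hm q; exact (hT' u u).2 (H.self_sx hx u))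
    (fun q p hp hp0 => by
      obtain ⟨u, rfl⟩ := hm q
      obtain ⟨v, rfl⟩ := hm p
      exact (hT v).trans ((congrArg _ (H.sx_eq hx ((hT' u v).1 hp) fun e => hp0 ((m0 v).2 e))).trans
        (hT u).symm))
    (fun a c q hq p hp => by
      obtain ⟨a, rfl⟩ := hm a
      obtain ⟨c, rfl⟩ := hm c
      obtain ⟨u, rfl⟩ := hm q
      obtain ⟨v, rfl⟩ := hm p
      exact (hT2 a c v).2 (H.normal s hx ((hT2 a c u).1 hq) ((hT' u v).1 hp)))
    (fun a c e => by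
      obtain ⟨a, rfl⟩ := hm a
      obtain ⟨c, rfl⟩ := hm c
      exact h4 a c (eq_top_iff.2 fun v _ => (hT2 a c v).1 (e ▸ trivial)))
    (m y) (m z) (fun e => (ind_iff hx).1 h ((m0 y).1 e)) ((hT' y z).2 (by rwa [sx_of h]))
    (fun e => hz' (Submodule.mem_sup_left ((m0 z).1 e)))
    (fun e => hz' (mem_sup_pt.2 (Or.inr ((meq _ _).1 e))))
    (fun φ ψ h1 h2 => by
      obtain ⟨f, hf⟩ := Γ.b_surj (φ ∘ₗ m)
      obtain ⟨f', hf'⟩ := Γ.b_surj (ψ ∘ₗ m)
      have mx : m x = 0 := (m0 x).2 (self_pt x)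
      obtain ⟨g, e1, e2, e3⟩ := s.f2 h (f := f) (f' := f') (by simp [hf, hf', mx])
        (by simp [hf, hf', h1, h2]) (Or.inr (by simp [hf, h1]))
      let ĝ : (V ⧸ pt x) ≃ₗ[F2] (V ⧸ pt x) := Submodule.Quotient.equiv (pt x) (pt x) (lin g) (by
        rw [Submodule.map_span, Set.image_singleton]; exact congrArg (fun t => pt t) e1)
      have g1 : ∀ v, ĝ (m v) = m (g • v) := fun v => rfl
      have g2 : ∀ v, ĝ.symm (m v) = m (g⁻¹ • v) := fun v => rfl
      refine ⟨ĝ, by rw [g1, e2], fun q p hp => ?_, fun q p hp => ?_, fun q => ?_⟩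
      · obtain ⟨u, rfl⟩ := hm q
        obtain ⟨v, rfl⟩ := hm p
        rw [g1, g1, hT']
        simpa [e1] using H.sx_smul g hx ((hT' u v).1 hp)
      · obtain ⟨u, rfl⟩ := hm q
        obtain ⟨v, rfl⟩ := hm p
        rw [g2, g2, hT']
        simpa [inv_fix e1] using H.sx_smul g⁻¹ hx ((hT' u v).1 hp)
      · obtain ⟨u, rfl⟩ := hm q
        have := Γ.inv_l e3 u
        rw [hf, hf'] at this
        exact this)
  have hΩ : ∀ u, m ((r ∘ₗ ω ∘ₗ m) u) = ω (m u) := fun u => hr' _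
  refine ⟨r ∘ₗ ω ∘ₗ m, by simp [(m0 x).2 (self_pt x)], fun u => ?_, fun u v => ?_⟩
  · rw [← meq, map_add, hΩ, hΩ, w1]
  · rw [← hT', w2, ← meq, ← meq, ← meq, ← m0, map_add, hΩ]

end Sp1

end H98.CK
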