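import Cfsg.Agent.Lib.CK.Two

/-! The standard configuration, the good triples `A x y h`, the subspaces `C x y`, `D x h`. -/

set_option autoImplicit false
set_option linter.unusedSectionVars false

namespace H98.CK

open Module

variable {G V V' : Type*} [Group G] [AddCommGroup V] [Module F2 V] [DistribMulAction G V]
  [AddCommGroup V'] [Module F2 V'] [DistribMulAction G V']

theorem cj {α : Type*} [MulAction G α] {k g : G} {a a' c c' : α} (h1 : k • a = c) (h2 : g • a = a')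
    (h3 : k • a' = c') : (k * g * k⁻¹) • c = c' := by
  rw [mul_smul, mul_smul, inv_fix h1, h2, h3]

theorem dcount {α β : Type*} [Finite α] [Finite β] (s : Set α) (t : Set β) (r : α → β → Prop) {m n : ℕ}
    (hm : ∀ a ∈ s, {c | c ∈ t ∧ r a c}.ncard = m) (hn : ∀ c ∈ t, {a | a ∈ s ∧ r a c}.ncard = n) :
    s.ncard * m = t.ncard * n := by
  classical
  letI := Fintype.ofFinite α
  letI := Fintype.ofFinite β
  rw [Set.ncard_eq_toFinset_card' s, Set.ncard_eq_toFinset_card' t]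
  refine Finset.card_mul_eq_card_mul r (fun a ha => ?_) (fun c hc => ?_)
  · rw [← hm a (by simpa using ha), ← Set.ncard_coe_finset]
    congr 1; ext; simp
  · rw [← hn c (by simpa using hc), ← Set.ncard_coe_finset]
    congr 1; ext; simp

theorem ncard_punct [Finite V] {T0 T : Submodule F2 V} (h : T0 ≤ T) :
    {v | v ∈ T ∧ v ∉ T0}.ncard + 2 ^ finrank F2 T0 = 2 ^ finrank F2 T := by
  rw [← card_sub, ← card_sub]
  exact Set.ncard_diff_add_ncard_of_subset h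

/-- Standard data. -/
structure St (Γ : Pr G V V') where
  P : Subgroup G
  hP : IsPGroup 2 P
  odd : Odd P.index
  x0 : V
  y0 : V
  h0 : V'
  k0 : V'
  hx : Half P x0 y0
  hh : Half P h0 k0
  t2 : T2 G V
  t2' : T2 G V'
  n3 : 3 ≤ finrank F2 V

variable [Finite V] [Finite V'] [Finite G] {Γ : Pr G V V'}

theorem exists_st (Γ : Pr G V V') (hT : T2 G V) (hn : 3 ≤ finrank F2 V) : Nonempty (St Γ) := by
  haveI : Fact (Nat.Prime 2) := ⟨Nat.prime_two⟩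
  obtain ⟨P⟩ : Nonempty (Sylow 2 G) := inferInstance
  obtain ⟨x, y, h1⟩ := exists_half (V := V) (by omega) P.isPGroup'
  obtain ⟨h, k, h2⟩ := exists_half (V := V') (by rw [Γ.fr_eq]; omega) P.isPGroup'
  exact ⟨⟨P, P.isPGroup', Nat.not_even_iff_odd.1 fun h => P.not_dvd_index h.two_dvd, x, y, h, k, h1, h2,
    hT, Γ.t2_dual hT (by omega), hn⟩⟩

/-- A flag. -/
structure Flag (Γ : Pr G V V') (x : V) (h : V') : Prop where
  l : x ≠ 0
  r : h ≠ 0
  z : Γ.b h x = 0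

theorem Flag.flip {x : V} {h : V'} (H : Flag Γ x h) : Flag Γ.flip h x := ⟨H.r, H.l, H.z⟩
theorem Flag.smul {x : V} {h : V'} (H : Flag Γ x h) (g : G) : Flag Γ (g • x) (g • h) :=
  ⟨sm_ne H.l, sm_ne H.r, by rw [Γ.inv, H.z]⟩

namespace St

variable (s : St Γ)

/-- The dual data. -/
def flip : St Γ.flip :=
  ⟨s.P, s.hP, s.odd, s.h0, s.k0, s.x0, s.y0, s.hh, s.hx, s.t2', s.t2, by rw [Γ.fr_eq]; exact s.n3⟩

theorem kill {T : Submodule F2 V} (hT : ∀ g ∈ s.P, ∀ v ∈ T, g • v ∈ T) (hne : T ≠ ⊤) :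
    ∀ v ∈ T, Γ.b s.h0 v = 0 :=
  Γ.flip.proper_le s.t2' s.odd s.hh hT hne

theorem ln_inv : ∀ g ∈ s.P, ∀ v ∈ ln s.x0 s.y0, g • v ∈ ln s.x0 s.y0 := by
  intro g hg v hv
  have := sm_mem_ln (g := g) hv
  rw [s.hx.fx g hg] at this
  rcases s.hx.fy g hg with e | e <;> rw [e] at this
  · exact this
  · rwa [ln_add] at this

theorem kill_ln : ∀ v ∈ ln s.x0 s.y0, Γ.b s.h0 v = 0 :=
  s.kill s.ln_inv fun e => by
    have := fr_ln s.hx.ind.l s.hx.ind.r s.hx.ind.ne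
    rw [e, finrank_top] at this
    have := s.n3
    omega

theorem flag0 : Flag Γ s.x0 s.h0 := ⟨s.hx.ind.l, s.hh.ind.l, s.kill_ln _ (l_mem_ln _ _)⟩

theorem to_flag {x : V} {h : V'} (H : Flag Γ x h) : ∃ g : G, g • s.x0 = x ∧ g • s.h0 = h :=
  Γ.pair_trans s.t2 (by have := s.n3; omega) s.flag0.l H.l s.flag0.r H.r (by rw [s.flag0.z, H.z])

/-- Good triples. -/
def A (x y : V) (h : V') : Prop := ∃ g : G, g • s.x0 = x ∧ g • s.y0 = y ∧ g • s.h0 = h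

theorem A0 : s.A s.x0 s.y0 s.h0 := ⟨1, one_smul _ _, one_smul _ _, one_smul _ _⟩

theorem exA_h {x y : V} (h : Ind x y) : ∃ f, s.A x y f := by
  obtain ⟨g, h1, h2⟩ := s.t2 _ _ _ _ s.hx.ind h
  exact ⟨_, g, h1, h2, rfl⟩

theorem exA_y {x : V} {h : V'} (H : Flag Γ x h) : ∃ y, s.A x y h := by
  obtain ⟨g, h1, h2⟩ := s.to_flag H
  exact ⟨_, g, h1, rfl, h2⟩

include s in
theorem fcone {x u : V} {h : V'} (H : Flag Γ x h) (hu : Ind x u) :
    ∃ g : G, g • x = x ∧ g • h = h ∧ g • u = u + x := by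
  obtain ⟨k, h1, h2⟩ := s.to_flag H
  obtain ⟨g, hg, hg'⟩ := Γ.cone1 s.t2 s.odd s.hx (u := k⁻¹ • u) (inv_fix h1 ▸ hu.smul k⁻¹)
  exact ⟨_, cj h1 (s.hx.fx g hg) h1, cj h2 (s.hh.fx g hg) h2,
    cj (smul_inv_smul k u) hg' (by rw [smul_add, smul_inv_smul, h1])⟩

variable {s}

namespace A

variable {x y : V} {h : V'} (H : s.A x y h)
include H

theorem ind : Ind x y := by obtain ⟨g, rfl, rfl, rfl⟩ := H; exact s.hx.ind.smul g
theorem flag : Flag Γ x h := by obtain ⟨g, rfl, rfl, rfl⟩ := H; exact s.flag0.smul g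
theorem hy : Γ.b h y = 0 := by
  obtain ⟨g, rfl, rfl, rfl⟩ := H; rw [Γ.inv]; exact s.kill_ln _ (r_mem_ln _ _)
theorem smul (g : G) : s.A (g • x) (g • y) (g • h) := by
  obtain ⟨k, rfl, rfl, rfl⟩ := H
  exact ⟨g * k, mul_smul _ _ _, mul_smul _ _ _, mul_smul _ _ _⟩
theorem tr {g : G} {x' y' : V} {h' : V'} (h1 : g • x = x') (h2 : g • y = y') (h3 : g • h = h') :
    s.A x' y' h' := h1 ▸ h2 ▸ h3 ▸ H.smul g

theorem add : s.A x (y + x) h := by
  obtain ⟨g, h1, h2, h3⟩ := s.fcone H.flag H.ind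
  exact H.tr h1 h3 h2

theorem cone2 {u l : V} (hu : u ∉ ln x y) (hl : l ∈ ln x y) :
    ∃ g : G, g • x = x ∧ g • y = y ∧ g • h = h ∧ g • u = u + l := by
  obtain ⟨k, h1, h2, h3⟩ := H
  obtain ⟨g, hg, e1, e2⟩ := Γ.cone2 s.t2 s.odd s.hx (u := k⁻¹ • u) (l := k⁻¹ • l)
    (inv_fix h1 ▸ inv_fix h2 ▸ sm_notMem_ln hu) (inv_fix h1 ▸ inv_fix h2 ▸ sm_mem_ln hl)
  exact ⟨_, cj h1 (s.hx.fx g hg) h1, cj h2 e1 h2, cj h3 (s.hh.fx g hg) h3,
    cj (smul_inv_smul k u) e2 (by rw [smul_add, smul_inv_smul, smul_inv_smul])⟩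

theorem cone1' {f : V'} (hf : Ind h f) :
    ∃ g : G, g • x = x ∧ (g • y = y ∨ g • y = y + x) ∧ g • h = h ∧ g • f = f + h := by
  obtain ⟨k, h1, h2, h3⟩ := H
  obtain ⟨g, hg, e⟩ := Γ.flip.cone1 s.t2' s.odd s.hh (u := k⁻¹ • f) (inv_fix h3 ▸ hf.smul k⁻¹)
  exact ⟨_, cj h1 (s.hx.fx g hg) h1, (s.hx.fy g hg).imp (fun e => cj h2 e h2)
    (fun e => cj h2 e (by rw [smul_add, h1, h2])), cj h3 (s.hh.fx g hg) h3,
    cj (smul_inv_smul k f) e (by rw [smul_add, smul_inv_smul, h3])⟩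

theorem tr' {g : G} {h' : V'} (h1 : g • x = x) (h2 : g • y = y ∨ g • y = y + x) (h3 : g • h = h') :
    s.A x y h' := by
  rcases h2 with e | e
  · exact H.tr h1 e h3
  · simpa [abb] using (H.tr h1 e h3).add

end A

variable (s)

include s in
theorem f3 {x y u l : V} (h : Ind x y) (hu : u ∉ ln x y) (hl : l ∈ ln x y) :
    ∃ g : G, g • x = x ∧ g • y = y ∧ g • u = u + l := by
  obtain ⟨f, hf⟩ := s.exA_h h
  obtain ⟨g, h1, h2, -, h3⟩ := hf.cone2 hu hl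
  exact ⟨g, h1, h2, h3⟩

include s in
theorem f2 {x y : V} (h : Ind x y) {f f' : V'} (hx : Γ.b f x = Γ.b f' x) (hy : Γ.b f y = Γ.b f' y)
    (h1 : Γ.b f x = 1 ∨ Γ.b f y = 1) : ∃ g : G, g • x = x ∧ g • y = y ∧ g • f = f' := by
  obtain ⟨k, e1, e2⟩ := s.t2 _ _ _ _ s.hx.ind h
  obtain ⟨g, hg, e3, e4⟩ := Γ.q_trans s.t2 s.odd s.hx (f := k⁻¹ • f) (f' := k⁻¹ • f')
    (by rw [Γ.inv_r (inv_fix e1), Γ.inv_r (inv_fix e1), hx])
    (by rw [Γ.inv_r (inv_fix e2), Γ.inv_r (inv_fix e2), hy])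
    (by rw [Γ.inv_r (inv_fix e1), Γ.inv_r (inv_fix e2)]; exact h1)
  exact ⟨_, cj e1 (s.hx.fx g hg) e1, cj e2 e3 e2, cj (smul_inv_smul k f) e4 (smul_inv_smul k f')⟩

/-- `C x y`. -/
def C (x y : V) : Submodule F2 V' :=
  sub {h | h = 0 ∨ s.A x y h} (Or.inl rfl) (by
    rintro a c (rfl | ha) hc
    · rwa [zero_add]
    rcases hc with rfl | hc
    · rw [add_zero]; exact Or.inr ha
    by_cases e : a = c
    · left; rw [e, aa]
    obtain ⟨g, h1, h2, -, h4⟩ := ha.cone1' (f := c) ⟨ha.flag.r, hc.flag.r, e⟩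
    right
    rw [add_comm]
    exact hc.tr' h1 h2 h4)

theorem mem_C {x y : V} {h : V'} : h ∈ s.C x y ↔ h = 0 ∨ s.A x y h := Iff.rfl

/-- `D x h`. -/
def D (x : V) (h : V') : Submodule F2 V :=
  sub {y | y = 0 ∨ y = x ∨ s.A x y h} (Or.inl rfl) (by
    have key : ∀ a c, s.A x a h → (c = 0 ∨ c = x ∨ s.A x c h) →
        (c + a = 0 ∨ c + a = x ∨ s.A x (c + a) h) := by
      intro a c ha hc
      by_cases e : c ∈ ln x a
      · rcases mem_ln.1 e with rfl | rfl | rfl | rfl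
        · rw [zero_add]; exact Or.inr (Or.inr ha)
        · rw [add_comm]; exact Or.inr (Or.inr ha.add)
        · exact Or.inl (aa _)
        · exact Or.inr (Or.inl (abb _ _))
      · obtain ⟨g, h1, -, h3, h4⟩ := ha.cone2 e (r_mem_ln _ _)
        rcases hc with rfl | rfl | hc
        · exact absurd (zero_mem _) e
        · exact absurd (l_mem_ln _ _) e
        · exact Or.inr (Or.inr (hc.tr h1 h4 h3))
    rintro a c ha (rfl | rfl | hc)
    · rwa [add_zero]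
    · rcases ha with rfl | rfl | ha
      · rw [zero_add]; exact Or.inr (Or.inl rfl)
      · exact Or.inl (aa _)
      · exact Or.inr (Or.inr ha.add)
    · exact key c a hc ha)

theorem mem_D {x y : V} {h : V'} : y ∈ s.D x h ↔ y = 0 ∨ y = x ∨ s.A x y h := Iff.rfl

theorem self_D (x : V) (h : V') : x ∈ s.D x h := Or.inr (Or.inl rfl)

variable {s}

theorem A.memC {x y : V} {h : V'} (H : s.A x y h) : h ∈ s.C x y := Or.inr H
theorem A.memD {x y : V} {h : V'} (H : s.A x y h) : y ∈ s.D x h := Or.inr (Or.inr H)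
theorem A_of_C {x y : V} {h : V'} (H : h ∈ s.C x y) (h0 : h ≠ 0) : s.A x y h := H.resolve_left h0
theorem A_of_D {x y : V} {h : V'} (H : y ∈ s.D x h) (h0 : Ind x y) : s.A x y h :=
  (H.resolve_left h0.r).resolve_left h0.ne.symm

theorem C_smul (g : G) {x y : V} {h : V'} (H : h ∈ s.C x y) : g • h ∈ s.C (g • x) (g • y) :=
  H.imp (fun e => by rw [e, smul_zero]) fun a => a.smul g

theorem D_smul (g : G) {x y : V} {h : V'} (H : y ∈ s.D x h) : g • y ∈ s.D (g • x) (g • h) :=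
  H.imp (fun e => by rw [e, smul_zero]) fun a => a.imp (fun e => by rw [e]) fun a => a.smul g

theorem D_le_kr {x : V} {h : V'} (H : Flag Γ x h) : s.D x h ≤ Γ.kr h := by
  rintro y (rfl | rfl | a)
  · exact zero_mem _
  · exact H.z
  · exact a.hy

variable (s)

theorem fr_C {x y : V} (h : Ind x y) : finrank F2 (s.C x y) = finrank F2 (s.C s.x0 s.y0) := by
  obtain ⟨g, e1, e2⟩ := s.t2 _ _ _ _ s.hx.ind h
  exact le_antisymm (fr_mono g⁻¹ fun v hv => inv_fix e1 ▸ inv_fix e2 ▸ C_smul g⁻¹ hv)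
    (fr_mono g fun v hv => e1 ▸ e2 ▸ C_smul g hv)

theorem fr_D {x : V} {h : V'} (H : Flag Γ x h) : finrank F2 (s.D x h) = finrank F2 (s.D s.x0 s.h0) := by
  obtain ⟨g, e1, e2⟩ := s.to_flag H
  exact le_antisymm (fr_mono g⁻¹ fun v hv => inv_fix e1 ▸ inv_fix e2 ▸ D_smul g⁻¹ hv)
    (fr_mono g fun v hv => e1 ▸ e2 ▸ D_smul g hv)

theorem fr_DC : finrank F2 (s.D s.x0 s.h0) = finrank F2 (s.C s.x0 s.y0) + 1 := by
  have hx := s.hx.ind.l
  have h1 := ncard_punct (T0 := pt s.x0) (T := ⊤) le_top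
  have h2 := ncard_punct (T0 := ⊥) (T := Γ.flip.kr s.x0) bot_le
  have h3 := Γ.flip.fr_kr hx
  have h4 := dcount {v | v ∈ (⊤ : Submodule F2 V) ∧ v ∉ pt s.x0}
    {v | v ∈ Γ.flip.kr s.x0 ∧ v ∉ (⊥ : Submodule F2 V')} (fun y h => s.A s.x0 y h)
    (m := 2 ^ finrank F2 (s.C s.x0 s.y0) - 1) (n := 2 ^ finrank F2 (s.D s.x0 s.h0) - 2)
    (fun y hy => by
      have hy' : Ind s.x0 y := by
        have := hy.2; rw [mem_pt] at this; push Not at this; exact ⟨hx, this.1, this.2.symm⟩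
      have := ncard_punct (T0 := ⊥) (T := s.C s.x0 y) bot_le
      rw [finrank_bot, pow_zero, s.fr_C hy'] at this
      rw [← this, Nat.add_sub_cancel]
      congr 1; ext f
      exact ⟨fun a => ⟨a.2.memC, a.1.2⟩, fun a => by
        have := A_of_C a.1 a.2
        exact ⟨⟨this.flag.z, a.2⟩, this⟩⟩)
    (fun f hf => by
      have hf' : Flag Γ s.x0 f := ⟨hx, hf.2, hf.1⟩
      have := ncard_punct (T0 := pt s.x0) (T := s.D s.x0 f)
        ((Submodule.span_singleton_le_iff_mem _ _).2 (s.self_D _ _))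
      rw [fr_pt hx, pow_one, s.fr_D hf'] at this
      rw [← this, Nat.add_sub_cancel]
      congr 1; ext y
      exact ⟨fun a => ⟨a.2.memD, a.1.2⟩, fun a => ⟨⟨trivial, a.2⟩, by
        have := a.2; rw [mem_pt] at this; push Not at this
        exact A_of_D a.1 ⟨hx, this.1, this.2.symm⟩⟩⟩)
  rw [fr_pt hx, finrank_top, pow_one] at h1
  rw [finrank_bot, pow_zero] at h2
  rw [Γ.fr_eq] at h3
  rw [← h3, pow_succ, ← h2] at h1
  have h5 : 4 ≤ 2 ^ finrank F2 (Γ.flip.kr s.x0) := by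
    have := s.n3
    calc 4 = 2 ^ 2 := rfl
      _ ≤ _ := Nat.pow_le_pow_right (by omega) (by omega)
  have h6 : 1 ≤ 2 ^ finrank F2 (s.C s.x0 s.y0) := Nat.one_le_two_pow
  have h7 : 2 ≤ 2 ^ finrank F2 (s.D s.x0 s.h0) := by
    have := Submodule.finrank_mono ((Submodule.span_singleton_le_iff_mem _ _).2 (s.self_D s.x0 s.h0))
    rw [fr_pt hx] at this
    calc 2 = 2 ^ 1 := rfl
      _ ≤ _ := Nat.pow_le_pow_right (by omega) this
  generalize {v | v ∈ (⊤ : Submodule F2 V) ∧ v ∉ pt s.x0}.ncard = a at h1 h4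
  generalize {v | v ∈ Γ.flip.kr s.x0 ∧ v ∉ (⊥ : Submodule F2 V')}.ncard = c at h1 h2 h4
  have h8 : a = c * 2 := by omega
  rw [h8, mul_assoc] at h4
  have h9 := Nat.eq_of_mul_eq_mul_left (by omega) h4
  apply Nat.pow_right_injective (le_refl 2)
  simp only [pow_succ]
  omega

theorem C_cone {x y : V} {m l : V'} (hm : m ∉ s.C x y) (hl : l ∈ s.C x y) (hi : Ind x y) :
    ∃ g : G, g • x = x ∧ (g • y = y ∨ g • y = y + x) ∧ g • m = m + l := by
  rcases hl with rfl | hl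
  · exact ⟨1, one_smul _ _, Or.inl (one_smul _ _), by simp⟩
  · obtain ⟨g, h1, h2, -, h3⟩ := hl.cone1' (f := m)
      ⟨hl.flag.r, fun e => hm (e ▸ zero_mem _), fun e => hm (e ▸ hl.memC)⟩
    exact ⟨g, h1, h2, h3⟩

theorem D_cone {x m l : V} {h : V'} (H : Flag Γ x h) (hm : m ∉ s.D x h) (hl : l ∈ s.D x h) :
    ∃ g : G, g • x = x ∧ g • h = h ∧ g • m = m + l := by
  rcases hl with rfl | rfl | hl
  · exact ⟨1, one_smul _ _, one_smul _ _, by simp⟩
  · exact s.fcone H ⟨H.l, fun e => hm (e ▸ zero_mem _), fun e => hm (e ▸ s.self_D _ _)⟩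
  · obtain ⟨g, h1, -, h2, h3⟩ := hl.cone2 (u := m) (fun e => hm (ln_le (s.self_D _ _) hl.memD e))
      (r_mem_ln _ _)
    exact ⟨g, h1, h2, h3⟩

theorem D_inv : ∀ g ∈ s.P, ∀ v ∈ s.D s.x0 s.h0, g • v ∈ s.D s.x0 s.h0 := fun g hg v hv => by
  have := D_smul g hv
  rwa [s.hx.fx g hg, s.hh.fx g hg] at this

theorem C_inv : ∀ g ∈ s.P, ∀ v ∈ s.C s.x0 s.y0, g • v ∈ s.C s.x0 s.y0 := by
  rintro g hg v (rfl | hv)
  · simp
  · exact (hv.tr' (s.hx.fx g hg) (s.hx.fy g hg) rfl).memC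

theorem D_cmp {T : Submodule F2 V} (hT : ∀ g ∈ s.P, ∀ v ∈ T, g • v ∈ T) :
    T ≤ s.D s.x0 s.h0 ∨ s.D s.x0 s.h0 ≤ T :=
  comparable (Y := MulAction.stabilizer G s.x0 ⊓ MulAction.stabilizer G s.h0) s.hP s.odd
    (fun g hg => ⟨s.hx.fx g hg, s.hh.fx g hg⟩)
    (fun g hg v hv => by
      have := D_smul g hv
      rwa [show g • s.x0 = s.x0 from hg.1, show g • s.h0 = s.h0 from hg.2] at this)
    (fun m hm l hl => by
      obtain ⟨g, h1, h2, h3⟩ := s.D_cone s.flag0 hm hl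
      exact ⟨g, ⟨h1, h2⟩, h3⟩) hT

end St

end H98.CK
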