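import Cfsg.Agent.Lib.CK.Par

/-! The residue of a `2`-transitive group is `2`-transitive (dimension at least five). -/

set_option autoImplicit false
set_option linter.unusedSectionVars false

namespace H98.CK

open Module

variable {G V V' : Type*} [Group G] [AddCommGroup V] [Module F2 V] [DistribMulAction G V]
  [AddCommGroup V'] [Module F2 V'] [DistribMulAction G V'] [Finite V] [Finite V'] [Finite G]
  {Γ : Pr G V V'}

theorem fr_sup_gt {A B : Submodule F2 V} (h : finrank F2 A = finrank F2 B) (hne : A ≠ B) :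
    finrank F2 A < finrank F2 (A ⊔ B :) :=
  Submodule.finrank_lt_finrank_of_lt (lt_of_le_of_ne le_sup_left fun e =>
    hne (eq_of_le (e ▸ le_sup_right) h.le).symm)

theorem fr_sup_le {A B E : Submodule F2 V} (hA : E ≤ A) (hB : E ≤ B) :
    finrank F2 (A ⊔ B :) + finrank F2 E ≤ finrank F2 A + finrank F2 B := by
  rw [← Submodule.finrank_sup_add_finrank_inf_eq A B]
  exact Nat.add_le_add_left (Submodule.finrank_mono (le_inf hA hB)) _

theorem lin3 {E A B C D : Submodule F2 V} {k : ℕ} (hE : finrank F2 E = k) (eA : E ≤ A) (eB : E ≤ B)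
    (eC : E ≤ C) (eD : E ≤ D) (hA : finrank F2 A = k + 1) (hB : finrank F2 B = k + 1)
    (hC : finrank F2 C = k + 1) (hD : finrank F2 D = k + 1) (c1 : C ≤ A ⊔ B) (d1 : D ≤ A ⊔ B)
    (ca : C ≠ A) (cb : C ≠ B) (da : D ≠ A) (db : D ≠ B) : C = D := by
  have gen : ∀ {X Y : Submodule F2 V} {φ}, E ≤ X → E ≤ Y → finrank F2 X = k + 1 → finrank F2 Y = k + 1 →
      φ ∈ X → φ ∉ E → φ ∈ Y → X = Y := by
    intro X Y φ e1 e2 h1 h2 h3 h4 h5
    refine eq_of_le (fun v hv => ?_) (by omega)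
    rcases ext2 e1 (by omega) h3 h4 hv with e | e
    · exact e2 e
    · exact (mem_add' h5).1 (e2 e)
  have dec : ∀ {X : Submodule F2 V}, E ≤ X → finrank F2 X = k + 1 → X ≤ A ⊔ B → X ≠ A → X ≠ B →
      ∃ a ∈ A, ∃ b ∈ B, a ∉ E ∧ b ∉ E ∧ a + b ∈ X ∧ a + b ∉ E := by
    intro X e1 h1 h2 h3 h4
    obtain ⟨φ, p1, p2⟩ := exists_notMem (T := E) (T' := X) (by omega)
    obtain ⟨a, ha, b, hb, rfl⟩ := Submodule.mem_sup.1 (h2 p1)
    exact ⟨a, ha, b, hb, fun e => h4 (gen e1 eB h1 hB p1 p2 (add_mem (eB e) hb)),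
      fun e => h3 (gen e1 eA h1 hA p1 p2 (add_mem ha (eA e))), p1, p2⟩
  obtain ⟨a, ha, b, hb, a1, b1, p1, p2⟩ := dec eC hC c1 ca cb
  obtain ⟨a', ha', b', hb', a1', b1', p1', p2'⟩ := dec eD hD d1 da db
  have q1 := (ext2 eA (by omega) ha' a1' ha).resolve_left a1
  have q2 := (ext2 eB (by omega) hb' b1' hb).resolve_left b1
  refine gen eC eD hC hD p1 p2 ?_
  have := add_mem (eD (add_mem q1 q2)) p1'
  rwa [add_add_add_comm a a' b b', abb] at this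

theorem Fam.le_sup {M : V → V → Submodule F2 V'} (H : Fam Γ M) (s : St Γ) {x y w u : V} (h : Ind x y)
    (hw : w ∉ ln x y) (hu : u + w ∈ ln x y) : M x u ≤ M x y ⊔ M x w := by
  have iw := ind_of_notMem h hw
  have iu : Ind x u := ind_of_notMem h fun e => hw ((mem_add e).1 hu)
  by_cases e : u + w ∈ pt x
  · rw [H.of_ln s iw iu (mem_sup_pt.2 (Or.inr e))]; exact le_sup_right
  · have il := (ind_iff h.l).2 e
    have := H.s2 s il iw (by rwa [abb])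
    rwa [abb, H.of_ln s h il hu] at this

/-- The case `c = 2`. -/
structure Two (s : St Γ) : Prop where
  d : finrank F2 (s.D s.x0 s.h0) = 3
  n : 5 ≤ finrank F2 V

namespace Two

variable {s : St Γ} (W : Two s)
include W

theorem frD {x : V} {h : V'} (H : Flag Γ x h) : finrank F2 (s.D x h) = 3 := (s.fr_D H).trans W.d
theorem frE {x : V} {h : V'} (H : Flag Γ x h) : finrank F2 (s.flip.D h x) = 3 :=
  (s.flip.fr_D H.flip).trans (s.fr_DD.trans W.d)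
theorem frC {x y : V} (H : Ind x y) : finrank F2 (s.C x y) = 2 := by
  have := s.fr_DC; have := W.d; rw [s.fr_C H]; omega

theorem Dne {x y : V} {h : V'} (hx : Flag Γ x h) (hy : Flag Γ y h) (hne : x ≠ y) : s.D y h ≠ s.D x h :=
  s.D_ne (by have := W.d; have := W.n; omega) hx hy hne

theorem Ene {x : V} {h k : V'} (hx : Flag Γ x h) (hy : Flag Γ x k) (hne : h ≠ k) :
    s.flip.D k x ≠ s.flip.D h x :=
  s.flip.D_ne (by
    have : finrank F2 (s.flip.D s.flip.x0 s.flip.h0) = 3 := W.frE s.flag0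
    have := W.n; rw [Γ.fr_eq]; omega) hx.flip hy.flip hne

theorem Cne {x y u : V} (h : Ind x y) (hu : u ∉ ln x y) : s.C x u ≠ s.C x y := fun e => by
  have := W.frC h
  rw [s.famC.eq1 s h hu e, finrank_bot] at this
  omega

omit W in
theorem CE {x y : V} {h : V'} (H : s.A x y h) : s.C x y ≤ s.flip.D h x := s.flip.CD (Γ := Γ.flip) H

theorem Cgen {x y : V} {h k : V'} (H : s.A x y h) (H' : s.A x y k) (hne : h ≠ k) : s.C x y = ln h k :=
  (eq_of_le (ln_le H.memC H'.memC) (by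
    rw [W.frC H.ind, Ind.fr_ln ⟨H.flag.r, H'.flag.r, hne⟩])).symm

theorem uniq {x y u : V} {h k : V'} (a1 : s.A x y h) (a2 : s.A x u h) (a3 : s.A x y k) (a4 : s.A x u k)
    (hu : u ∉ ln x y) : h = k := by
  by_contra e
  exact W.Cne a1.ind hu (by rw [W.Cgen a1 a3 e, W.Cgen a2 a4 e])

theorem Esup {x y u : V} {h : V'} (a1 : s.A x y h) (a2 : s.A x u h) (hu : u ∉ ln x y) :
    s.flip.D h x = s.C x y ⊔ s.C x u := by
  have := fr_sup_gt ((W.frC a1.ind).trans (W.frC a2.ind).symm) (W.Cne a1.ind hu).symm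
  exact (eq_of_le (sup_le (CE a1) (CE a2)) (by rw [W.frE a1.flag]; rw [W.frC a1.ind] at this; omega)).symm

theorem exu {x y : V} {h : V'} (a1 : s.A x y h) : ∃ u, s.A x u h ∧ u ∉ ln x y := by
  obtain ⟨u, h1, h2⟩ := exists_notMem (T := ln x y) (T' := s.D x h) (by
    rw [a1.ind.fr_ln, W.frD a1.flag]; omega)
  exact ⟨u, St.A_of_D h1 (ind_of_notMem a1.ind h2), h2⟩

theorem memD {x y u v : V} {h : V'} (a1 : s.A x y h) (a2 : s.A x u h) (hu : u ∉ ln x y)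
    (hv : v ∈ s.D x h) : v ∈ ln x y ∨ v + u ∈ ln x y :=
  ext2 (s.ln_le_D a1) (by rw [a1.ind.fr_ln, W.frD a1.flag]) a2.memD hu hv

theorem move1 {x a : V} {h : V'} (H : Flag Γ x h) (ha : a ∈ s.D x h) (h0 : a ≠ 0) :
    ∃ k, Flag Γ a k ∧ s.D a k = s.D x h ∧ k ∈ s.flip.D h x := by
  by_cases e : x = a
  · subst e; exact ⟨h, H, rfl, s.flip.self_D _ _⟩
  have a1 := St.A_of_D ha ⟨H.l, h0, e⟩
  obtain ⟨u, a2, hu⟩ := W.exu a1
  obtain ⟨g, e1, e2, e3⟩ := s.sw2 a1.ind hu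
  have b1 := a1.tr e1 e2 rfl
  have b2 := a2.tr e1 e3 rfl
  refine ⟨_, b1.flag, (eq_of_le (fun v hv => ?_) (by rw [W.frD H, W.frD b1.flag])).symm,
    CE a1 b1.symm.memC⟩
  have hl : ln x a ≤ s.D a (g • h) := ln_comm x a ▸ s.ln_le_D b1
  rcases W.memD a1 a2 hu hv with e | e
  · exact hl e
  · exact (mem_add' b2.memD).1 (hl e)

theorem CleE {x a c : V} {h : V'} (H : Flag Γ x h) (ha : a ∈ s.D x h) (hc : c ∈ s.D x h) (i : Ind a c) :
    s.C a c ≤ s.flip.D h x ∧ ∀ f ∈ s.C a c, ∀ v ∈ s.D x h, Γ.b f v = 0 := by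
  obtain ⟨k, k1, k2, k3⟩ := W.move1 H ha i.l
  obtain ⟨l, l1, l2, l3⟩ := W.move1 H hc i.r
  have hne : k ≠ l := fun e => W.Dne k1 (e ▸ l1) i.ne (by rw [k2, e, l2])
  rw [W.Cgen (St.A_of_D (k2 ▸ hc) i) (St.A_of_D (l2 ▸ ha) i.symm).symm hne]
  exact ⟨ln_le k3 l3, fun f hf v hv => ln_le (T := Γ.flip.kr v) (St.D_le_kr k1 (k2 ▸ hv))
    (St.D_le_kr l1 (l2 ▸ hv)) hf⟩

theorem EkD {x : V} {h : V'} (H : Flag Γ x h) : ∀ f ∈ s.flip.D h x, ∀ v ∈ s.D x h, Γ.b f v = 0 := by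
  obtain ⟨y, a1⟩ := s.exA_y H
  obtain ⟨u, a2, hu⟩ := W.exu a1
  rw [W.Esup a1 a2 hu]
  intro f hf v hv
  exact sup_le (c := Γ.flip.kr v) (fun f hf => (W.CleE H (s.self_D _ _) a1.memD a1.ind).2 f hf v hv)
    (fun f hf => (W.CleE H (s.self_D _ _) a2.memD a2.ind).2 f hf v hv) hf

theorem move {x a : V} {h : V'} (H : Flag Γ x h) (ha : a ∈ s.D x h) (h0 : a ≠ 0) :
    ∃ k, Flag Γ a k ∧ s.D a k = s.D x h ∧ s.flip.D k a = s.flip.D h x := by
  obtain ⟨k, k1, k2, -⟩ := W.move1 H ha h0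
  refine ⟨k, k1, k2, eq_of_le ?_ (by rw [W.frE H, W.frE k1])⟩
  obtain ⟨y, a1⟩ := s.exA_y k1
  obtain ⟨u, a2, hu⟩ := W.exu a1
  rw [W.Esup a1 a2 hu]
  exact sup_le (W.CleE H ha (k2 ▸ a1.memD) a1.ind).1 (W.CleE H ha (k2 ▸ a2.memD) a2.ind).1

theorem six_le : 6 ≤ finrank F2 V := by
  have h1 : s.D s.x0 s.h0 ≤ Γ.ann (s.flip.D s.h0 s.x0) := fun v hv f hf => W.EkD s.flag0 f hf v hv
  have h2 := Submodule.finrank_mono h1
  have h3 := Γ.fr_ann (s.flip.D s.h0 s.x0)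
  rw [W.frE s.flag0] at h3
  rw [W.d] at h2
  omega

theorem ne_six : finrank F2 V ≠ 6 := by
  intro h6
  have hx := s.hx.ind.l
  have f1 := Γ.flip.fr_kr hx
  rw [Γ.fr_eq, h6] at f1
  have f2 := ncard_punct (T0 := ⊥) (T := Γ.flip.kr s.x0) bot_le
  rw [finrank_bot, show finrank F2 (Γ.flip.kr s.x0) = 5 by omega] at f2
  have m0 : ∀ k ∈ ln s.h0 s.k0, Γ.b k s.x0 = 0 := s.flip.kill_ln
  rcases prime_deg (MulAction.stabilizer G s.x0)
    {v | v ∈ Γ.flip.kr s.x0 ∧ v ∉ (⊥ : Submodule F2 V')}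
    (by rw [show {v | v ∈ Γ.flip.kr s.x0 ∧ v ∉ (⊥ : Submodule F2 V')}.ncard = 31 by omega]; norm_num)
    (fun g hg a ha => ⟨(Γ.inv_r hg a).trans ha.1, sm_ne ha.2⟩)
    (fun a ha c hc => by
      obtain ⟨g, e1, e2⟩ := Γ.stab_dual s.t2 hx ha.2 hc.2 (ha.1.trans hc.1.symm)
      exact ⟨g, e1, e2⟩) with h | h
  · obtain ⟨k, k1, k2⟩ := exists_notMem (T := s.flip.D s.h0 s.x0) (T' := Γ.flip.kr s.x0) (by
      rw [W.frE s.flag0]; omega)
    obtain ⟨g, e1, e2, e3⟩ := h s.h0 ⟨m0 _ (l_mem_ln _ _), s.hh.ind.l⟩ s.k0 ⟨m0 _ (r_mem_ln _ _), s.hh.ind.r⟩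
      s.h0 ⟨m0 _ (l_mem_ln _ _), s.hh.ind.l⟩ k ⟨k1, fun e => k2 (e ▸ zero_mem _)⟩ s.hh.ind.ne
      (fun e => k2 (e ▸ s.flip.self_D _ _))
    exact k2 (St.A.memD ⟨g, e2, e3, e1⟩)
  · obtain ⟨k, k1, k2⟩ := exists_notMem (T := ln s.h0 s.k0) (T' := Γ.flip.kr s.x0) (by
      rw [s.hh.ind.fr_ln]; omega)
    obtain ⟨g, e1, e2, e3⟩ := Γ.flip.cone2 s.t2' s.odd s.hh k2 (l_mem_ln _ _)
    have := h g (s.hx.fx g e1) s.h0 ⟨m0 _ (l_mem_ln _ _), s.hh.ind.l⟩ s.k0 ⟨m0 _ (r_mem_ln _ _), s.hh.ind.r⟩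
      s.hh.ind.ne (s.hh.fx g e1) e2 k ⟨k1, fun e => k2 (e ▸ zero_mem _)⟩
    rw [e3] at this
    exact s.hh.ind.l (add_eq_left.1 this)

theorem tri {x y u1 u2 : V} {h1 h2 : V'} (a1 : s.A x y h1) (a2 : s.A x y h2) (hne : h1 ≠ h2)
    (b1 : s.A x u1 h1) (b2 : s.A x u2 h2) (c1 : u1 ∉ ln x y) (c2 : u2 ∉ ln x y) :
    s.A x (u1 + u2) (h1 + h2) := by
  have i := a1.ind
  have out : ∀ {v}, v ∈ s.D x h1 → v ∈ s.D x h2 → v ∈ ln x y := fun {v} p q => by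
    by_contra e
    have iv := ind_of_notMem i e
    exact hne (W.uniq a1 (St.A_of_D p iv) a2 (St.A_of_D q iv) e)
  have mC : ∀ {k}, s.A x y k → k = h1 ∨ k = h2 ∨ k = h1 + h2 := fun {k} p => by
    have := p.memC
    rw [W.Cgen a1 a2 hne, mem_ln] at this
    exact this.resolve_left p.flag.r
  obtain ⟨g, e1, e2, e3⟩ := s.D_cone a2.flag (m := u1) (fun e => c1 (out b1.memD e)) b2.memD
  have d1 := b1.tr e1 e3 rfl
  have d2 := a1.tr e1 rfl rfl
  have d3 := a2.tr e1 rfl e2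
  have n2 : g • h1 ≠ h2 := e2 ▸ sm_ne' hne
  by_cases e : g • y ∈ ln x y
  · have d4 : s.A x y (g • h1) :=
      St.A_of_C (by rw [← s.famC.of_ln s i d2.ind e]; exact d2.memC) d2.flag.r
    rcases mC d4 with q | q | q
    · rw [q] at d1
      exact absurd (out ((mem_add b1.memD).1 d1.memD) b2.memD) c2
    · exact absurd q n2
    · rwa [q] at d1
  exfalso
  have p1 := (W.memD a2 b2 c2 d3.memD).resolve_left e
  have q1 : u1 + u2 + g • y ∉ ln x y := by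
    rwa [add_assoc, add_comm u2, mem_add' p1]
  have ia := ind_of_notMem i q1
  have r1 : s.A x (u1 + u2 + g • y) h1 := St.A_of_D (by
    rw [add_assoc, add_comm u2]; exact add_mem b1.memD (s.ln_le_D a1 p1)) ia
  have r2 : s.A x (u1 + u2 + g • y) (g • h1) := St.A_of_D (add_mem d1.memD d2.memD) ia
  have n1 : h1 ≠ g • h1 := fun q => e (out (q ▸ d2.memD) d3.memD)
  have n3 : g • h1 ∉ s.C x y := fun q =>
    n1 (W.uniq a1 r1 (St.A_of_C q d2.flag.r) r2 q1)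
  have gen : ∀ {k}, s.A x y k → g • h1 ∈ s.flip.D k x → s.flip.D k x = s.C x y ⊔ pt (g • h1) :=
    fun {k} p q => (eq_of_le (sup_le (CE p) (pt_le q)) (by rw [fr_sup_pt n3, W.frC i, W.frE p.flag])).symm
  exact W.Ene a1.flag a2.flag hne (by rw [gen a1 (CE r1 r2.memC), gen a2 (CE d3 d2.memC)])

end Two

/-- The family `F`. -/
def St.F (s : St Γ) (x y : V) : Submodule F2 V' := ⨆ (h : V') (_ : s.A x y h), s.flip.D h x

/-- The family `F3`. -/
def St.F3 (s : St Γ) (x y : V) : Submodule F2 V' :=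
  ⨆ (u : V) (_ : ∃ h, s.A x y h ∧ s.A x u h), s.F x u

theorem St.E_le_F {s : St Γ} {x y : V} {h : V'} (a : s.A x y h) : s.flip.D h x ≤ s.F x y :=
  le_iSup₂_of_le h a le_rfl

theorem St.F_le_F3 {s : St Γ} {x y u : V} {h : V'} (a : s.A x y h) (c : s.A x u h) : s.F x u ≤ s.F3 x y :=
  le_iSup₂_of_le u ⟨h, a, c⟩ le_rfl

theorem St.F_le {s : St Γ} {x y : V} (T : Submodule F2 V') (H : ∀ h, s.A x y h → ∀ f ∈ s.flip.D h x, f ∈ T) :
    ∀ f ∈ s.F x y, f ∈ T :=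
  iSup₂_le (f := fun (h : V') (_ : s.A x y h) => s.flip.D h x) H

theorem St.F3_le {s : St Γ} {x y : V} (T : Submodule F2 V')
    (H : ∀ u h, s.A x y h → s.A x u h → ∀ f ∈ s.F x u, f ∈ T) : ∀ f ∈ s.F3 x y, f ∈ T :=
  iSup₂_le (f := fun (u : V) (_ : ∃ h, s.A x y h ∧ s.A x u h) => s.F x u) fun u ⟨h, a, c⟩ => H u h a c

namespace Two

variable {s : St Γ} (W : Two s)
include W

theorem famF : Fam Γ s.F :=
  ⟨fun g x y => St.F_le ((s.F (g • x) (g • y)).comap (lin g).toLinearMap)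
      fun _ a _ hv => St.E_le_F (a.smul g) (St.D_smul g hv),
    fun x _ f _ => St.F_le (Γ.flip.kr x) (fun _ a f hf => W.EkD a.flag f hf _ (s.self_D _ _)) f,
    fun _ y f _ => St.F_le (Γ.flip.kr y) (fun _ a f hf => W.EkD a.flag f hf _ a.memD) f⟩

theorem ex2 {x y : V} {h : V'} (a : s.A x y h) : ∃ k, s.A x y k ∧ h ≠ k ∧
    ∀ l, s.A x y l → l = h ∨ l = k ∨ l = h + k := by
  obtain ⟨k, k1, k2⟩ := exists_notMem (T := pt h) (T' := s.C x y) (by rw [fr_pt a.flag.r, W.frC a.ind]; omega)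
  have i := (ind_iff a.flag.r).2 k2
  have a' := St.A_of_C k1 i.r
  refine ⟨k, a', i.ne, fun l p => ?_⟩
  have := p.memC
  rw [W.Cgen a a' i.ne, mem_ln] at this
  exact this.resolve_left p.flag.r

theorem tri' {x y u1 u2 : V} {h1 h2 : V'} (a1 : s.A x y h1) (a2 : s.A x y h2) (hne : h1 ≠ h2)
    (b1 : s.A x u1 h1) (b2 : s.A x u2 h2) (c1 : u1 ∉ ln x y) (c2 : u2 ∉ ln x y) : u1 + u2 ∉ ln x y :=
  fun e => hne (W.uniq a1 (St.A_of_D ((mem_add b1.memD).1 (s.ln_le_D a1 e)) b2.ind) a2 b2 c2)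

theorem frF {x y : V} (i : Ind x y) : finrank F2 (s.F x y) = 4 := by
  obtain ⟨h1, a1⟩ := s.exA_h i
  obtain ⟨h2, a2, hne, all⟩ := W.ex2 a1
  obtain ⟨u1, b1, c1⟩ := W.exu a1
  obtain ⟨u2, b2, c2⟩ := W.exu a2
  have e : s.F x y = s.flip.D h1 x ⊔ s.flip.D h2 x := by
    refine le_antisymm (iSup₂_le fun l p => ?_) (sup_le (St.E_le_F a1) (St.E_le_F a2))
    rcases all l p with rfl | rfl | rfl
    · exact le_sup_left
    · exact le_sup_right
    · have t := W.tri a1 a2 hne b1 b2 c1 c2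
      rw [W.Esup p t (W.tri' a1 a2 hne b1 b2 c1 c2)]
      exact sup_le ((CE a1).trans le_sup_left)
        ((s.famC.s2 s b1.ind b2.ind t.ind).trans (sup_le_sup (CE b1) (CE b2)))
  have f1 := fr_sup_gt ((W.frE a1.flag).trans (W.frE a2.flag).symm) (W.Ene a1.flag a2.flag hne).symm
  have f2 := fr_sup_le (CE a1) (CE a2)
  rw [W.frC i, W.frE a1.flag, W.frE a2.flag] at f2
  rw [W.frE a1.flag] at f1
  rw [e]; omega

theorem Fne {x y u : V} (h : Ind x y) (hu : u ∉ ln x y) : s.F x u ≠ s.F x y := fun e => by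
  have := W.frF h
  rw [W.famF.eq1 s h hu e, finrank_bot] at this
  omega

theorem FkD (h7 : 7 ≤ finrank F2 V) {x y : V} {h : V'} (a : s.A x y h) :
    ∀ f ∈ s.F x y, ∀ v ∈ s.D x h, Γ.b f v = 0 := by
  have f1 := Γ.fr_ann (s.F s.x0 s.y0)
  rw [W.frF s.hx.ind] at f1
  have h0 : s.D s.x0 s.h0 ≤ Γ.ann (s.F s.x0 s.y0) := by
    rcases s.D_cmp (T := Γ.ann (s.F s.x0 s.y0)) (fun g hg v hv => by
      rcases s.hx.fy g hg with e | e
      · exact W.famF.ktr (s.hx.fx g hg) e rfl hv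
      · have := W.famF.ktr (s.hx.fx g hg) e rfl hv
        rwa [W.famF.add s s.hx.ind] at this) with e | e
    · exact (eq_of_le e (by rw [W.d]; omega)).ge
    · exact e
  obtain ⟨g, e1, e2, e3⟩ := a
  intro f hf v hv
  have := St.D_smul g⁻¹ hv
  rw [inv_fix e1, inv_fix e3] at this
  exact W.famF.ktr e1 e2 (smul_inv_smul g v) (h0 this) f hf

theorem famF3 (h7 : 7 ≤ finrank F2 V) : Fam Γ s.F3 :=
  ⟨fun g x y => St.F3_le ((s.F3 (g • x) (g • y)).comap (lin g).toLinearMap)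
      fun _ _ a c _ hv => St.F_le_F3 (a.smul g) (c.smul g) (W.famF.eqv g _ _ _ hv),
    fun x _ f _ => St.F3_le (Γ.flip.kr x) (fun _ _ _ c f hf => W.famF.kl _ _ f c.ind hf) f,
    fun _ y f _ => St.F3_le (Γ.flip.kr y) (fun _ _ a c f hf => W.FkD h7 c f hf _ a.memD) f⟩

theorem frF3 {x y : V} (i : Ind x y) : finrank F2 (s.F3 x y) ≤ 6 := by
  obtain ⟨h1, a1⟩ := s.exA_h i
  obtain ⟨h2, a2, hne, all⟩ := W.ex2 a1
  obtain ⟨u1, b1, c1⟩ := W.exu a1
  obtain ⟨u2, b2, c2⟩ := W.exu a2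
  have gen : ∀ {l u w}, s.A x y l → s.A x u l → s.A x w l → w ∉ ln x y → s.F x u ≤ s.F x y ⊔ s.F x w := by
    intro l u w p q r hw
    rcases W.memD p r hw q.memD with e | e
    · rw [W.famF.of_ln s i q.ind e]; exact le_sup_left
    · exact W.famF.le_sup s i hw e
  have e : s.F3 x y ≤ (s.F x y ⊔ s.F x u1) ⊔ s.F x u2 := by
    refine iSup₂_le ?_
    rintro u ⟨l, p, q⟩
    rcases all l p with rfl | rfl | rfl
    · exact (gen p q b1 c1).trans le_sup_left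
    · exact (gen p q b2 c2).trans (sup_le_sup le_sup_left le_rfl)
    · have t := W.tri a1 a2 hne b1 b2 c1 c2
      refine (gen p q t (W.tri' a1 a2 hne b1 b2 c1 c2)).trans ?_
      rw [sup_assoc]
      exact sup_le_sup le_rfl (W.famF.s2 s b1.ind b2.ind t.ind)
  have f0 := Submodule.finrank_mono e
  have f1 := fr_sup_le (St.E_le_F a1) (St.E_le_F b1)
  have f2 := fr_sup_le ((St.E_le_F a2).trans (le_sup_left (b := s.F x u1))) (St.E_le_F b2)
  rw [W.frE a1.flag, W.frF i, W.frF b1.ind] at f1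
  rw [W.frE a2.flag, W.frF b2.ind] at f2
  omega

theorem F3eq (h7 : 7 ≤ finrank F2 V) {x y u : V} {h : V'} (a : s.A x y h) (c : s.A x u h)
    (hu : u ∉ ln x y) : s.F3 x y = (s.F x y ⊔ s.F x u) ⊔ s.F y u := by
  have i := a.ind
  obtain ⟨k, k1, k2, k3⟩ := W.move a.flag a.memD i.r
  have hu' : u ∉ ln y x := by rwa [ln_comm]
  have iyu := ind_of_notMem i.symm hu'
  have a' : s.A y x k := St.A_of_D (k2 ▸ s.self_D _ _) i.symm
  have c' : s.A y u k := St.A_of_D (k2 ▸ c.memD) iyu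
  have hyu : y + u ∉ ln x y := by rwa [mem_add (r_mem_ln _ _)]
  have d : s.A x (y + u) h := St.A_of_D (add_mem a.memD c.memD) (ind_of_notMem i hyu)
  refine (eq_of_le (sup_le (sup_le (St.F_le_F3 a a) (St.F_le_F3 a c)) ?_) ((W.frF3 i).trans ?_)).symm
  · rw [← (W.famF3 h7).symm s i]; exact St.F_le_F3 a' c'
  have f1 := fr_sup_gt ((W.frF i).trans (W.frF c.ind).symm) (W.Fne i hu).symm
  have f2 : s.F x y ⊔ s.F x u ≠ (s.F x y ⊔ s.F x u) ⊔ s.F y u := by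
    intro e
    have hy : y ∉ ln x u := notMem_swap i hu
    have hyu' : y + u ∉ ln x u := by rwa [mem_add' (r_mem_ln _ _)]
    have j1 : Ind (y + u) x := d.ind.symm
    have j2 : y ∉ ln (y + u) x := by rw [ln_comm]; exact notMem_swap i hyu
    refine W.Fne j1 j2 ?_
    have := lin3 (W.frE a.flag) (St.E_le_F a) (St.E_le_F c) (St.E_le_F d) (k3 ▸ St.E_le_F c') (W.frF i)
      (W.frF c.ind) (W.frF d.ind) (W.frF iyu) (W.famF.s2 s i c.ind d.ind) (e ▸ le_sup_right)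
      (W.Fne i hyu) (W.Fne c.ind hyu') (by rw [← W.famF.symm s i]; exact W.Fne i.symm hu')
      (by
        rw [← W.famF.symm s c.ind, ← W.famF.symm s iyu]
        exact W.Fne c.ind.symm (by rwa [ln_comm]))
    rw [W.famF.symm s d.ind, this, ← W.famF.symm s (ind_of_notMem j1 j2), add_comm y u, W.famF.add s iyu]
  have f3 := Submodule.finrank_lt_finrank_of_lt (lt_of_le_of_ne le_sup_left f2)
  rw [W.frF i] at f1
  omega

theorem false : False := by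
  have h6 := W.six_le
  have h7 : 7 ≤ finrank F2 V := by have := W.ne_six; omega
  obtain ⟨u, c, hu⟩ := W.exu s.A0
  have i := s.hx.ind
  have e1 := W.F3eq h7 s.A0 c hu
  have e2 := W.F3eq h7 c s.A0 (notMem_swap i hu)
  have e3 := (W.famF3 h7).eq1 s i hu (by
    rw [e1, e2, sup_comm (s.F s.x0 u), W.famF.symm s (x := s.y0) (y := u) (ind_of_notMem i.symm (by rwa [ln_comm]))])
  have := St.F_le_F3 s.A0 s.A0 (St.E_le_F s.A0 (s.flip.self_D _ _))
  rw [e3] at this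
  exact s.hh.ind.l this

end Two

/-- Theorem R. -/
theorem St.all_A (s : St Γ) (hn : 5 ≤ finrank F2 V) {x y : V} {h : V'} (i : Ind x y) (h0 : h ≠ 0)
    (hx : Γ.b h x = 0) (hy : Γ.b h y = 0) : s.A x y h := by
  have f : Flag Γ x h := ⟨i.l, h0, hx⟩
  have h1 := Γ.fr_kr h0
  have h2 : ¬ finrank F2 (s.D s.x0 s.h0) + 1 < finrank F2 V := fun hlt =>
    Two.false ⟨s.eq_three (by omega) hlt, hn⟩
  have h3 := eq_of_le (St.D_le_kr (s := s) f) (by rw [s.fr_D f]; omega)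
  exact St.A_of_D (h3 ▸ hy) i

end H98.CK
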