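import Mathlib
import Cfsg.Agent.Lib.Perm.PrimeDegree
import Cfsg.Agent.Lib.CK.Main

/-! Transitive linear groups over the field with two elements when the number of non-zero vectors
is prime. -/

set_option autoImplicit false
set_option linter.unusedSectionVars false
set_option linter.style.haveILetI false

namespace H98.CK.Top

open Subgroup MulAction

variable {V : Type*} [AddCommGroup V] [Module (ZMod 2) V]

theorem two (c : ZMod 2) : c = 0 ∨ c = 1 := by revert c; decide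

theorem add_self (v : V) : v + v = 0 := by
  rw [← two_smul (ZMod 2) v, show (2 : ZMod 2) = 0 from rfl, zero_smul]

/-- a functional vanishing on `W` with value one at two given vectors outside `W` -/
theorem sep (W : Submodule (ZMod 2) V) {v v' : V} (hv : v ∉ W) (hv' : v' ∉ W) :
    ∃ f : V →ₗ[ZMod 2] ZMod 2, (∀ w ∈ W, f w = 0) ∧ f v = 1 ∧ f v' = 1 := by
  have h1 : v' ∉ W ⊔ (ZMod 2) ∙ (v + v') := fun h => by
    obtain ⟨w, hw, z, hz, e⟩ := Submodule.mem_sup.1 h
    obtain ⟨c, rfl⟩ := Submodule.mem_span_singleton.1 hz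
    rcases two c with rfl | rfl
    · exact hv' (by rw [← e]; simpa using hw)
    · have : w + v = 0 := by
        rw [one_smul, ← add_assoc] at e
        exact add_eq_right.1 e
      exact hv (by rw [eq_neg_of_add_eq_zero_right this]; exact W.neg_mem hw)
  obtain ⟨f, hf, hf0⟩ := Submodule.exists_dual_map_eq_bot_of_notMem h1 inferInstance
  have h2 : ∀ w ∈ W ⊔ (ZMod 2) ∙ (v + v'), f w = 0 := fun w hw =>
    (Submodule.mem_bot _).1 (hf0 ▸ Submodule.mem_map_of_mem hw)
  have h3 : f v' = 1 := (two _).resolve_left hf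
  have h4 := h2 _ (Submodule.mem_sup_right (Submodule.mem_span_singleton_self _))
  rw [map_add, h3] at h4
  refine ⟨f, fun w hw => h2 w (Submodule.mem_sup_left hw), ?_, h3⟩
  rcases two (f v) with e | e
  · rw [e] at h4; exact absurd h4 (by decide)
  · exact e

/-- a transvection fixing `W` and moving `v'` to `v` -/
theorem exists_transv (W : Submodule (ZMod 2) V) {v v' : V} (hv : v ∉ W) (hv' : v' ∉ W) :
    ∃ (f : V →ₗ[ZMod 2] ZMod 2) (u : V) (h : f u = 0),
      (∀ w ∈ W, LinearEquiv.transvection h w = w) ∧ LinearEquiv.transvection h v' = v := by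
  obtain ⟨f, h0, h1, h2⟩ := sep W hv hv'
  refine ⟨f, v + v', by rw [map_add, h1, h2]; rfl, fun w hw => ?_, ?_⟩
  · rw [LinearEquiv.transvection.apply, h0 w hw, zero_smul, add_zero]
  · rw [LinearEquiv.transvection.apply, h2, one_smul, add_left_comm, add_self, add_zero]

theorem eq_top_of_transv [Finite V] (H : Subgroup (V ≃ₗ[ZMod 2] V))
    (h : ∀ (f : V →ₗ[ZMod 2] ZMod 2) (u : V) (hf : f u = 0), LinearEquiv.transvection hf ∈ H) :
    H = ⊤ := by
  have key : ∀ W : Submodule (ZMod 2) V, ∀ g : V ≃ₗ[ZMod 2] V, (∀ w ∈ W, g w = w) → g ∈ H := by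
    intro W
    induction W using WellFoundedGT.induction with | _ W ih =>
    intro g hg
    by_cases hW : W = ⊤
    · rw [show g = 1 from LinearEquiv.ext fun v => hg v (hW ▸ Submodule.mem_top)]
      exact one_mem _
    obtain ⟨v, hv⟩ : ∃ v, v ∉ W := by
      by_contra e
      exact hW (eq_top_iff.2 fun v _ => by_contra fun hv => e ⟨v, hv⟩)
    have hv' : g v ∉ W := fun e => hv (g.injective (hg _ e) ▸ e)
    obtain ⟨f, u, hf, h1, h2⟩ := exists_transv W hv hv'
    have h3 := ih (W ⊔ (ZMod 2) ∙ v) (lt_of_le_of_ne le_sup_left fun e => hv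
      (e ▸ Submodule.mem_sup_right (Submodule.mem_span_singleton_self v)))
      (LinearEquiv.transvection hf * g) fun x hx => by
        obtain ⟨w, hw, z, hz, rfl⟩ := Submodule.mem_sup.1 hx
        obtain ⟨c, rfl⟩ := Submodule.mem_span_singleton.1 hz
        rw [map_add, map_smul, LinearEquiv.mul_apply, LinearEquiv.mul_apply, hg w hw, h1 w hw, h2]
    exact (mul_mem_cancel_left (h f u hf)).1 h3
  exact eq_top_iff.2 fun g _ => key ⊥ g fun w hw => by rw [(Submodule.mem_bot _).1 hw, map_zero]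

/-- the non-zero vectors -/
def NZ (V : Type*) [AddCommGroup V] : Type _ := {v : V // v ≠ 0}

instance : MulAction (V ≃ₗ[ZMod 2] V) (NZ V) where
  smul g v := ⟨g v.1, fun e => v.2 (g.map_eq_zero_iff.1 e)⟩
  one_smul _ := rfl
  mul_smul _ _ _ := rfl

theorem smul_val (g : V ≃ₗ[ZMod 2] V) (v : NZ V) : (g • v).1 = g v.1 := rfl

instance : FaithfulSMul (V ≃ₗ[ZMod 2] V) (NZ V) where
  eq_of_smul_eq_smul {g k} h := LinearEquiv.ext fun v => by
    by_cases hv : v = 0
    · rw [hv, map_zero, map_zero]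
    · exact congrArg Subtype.val (h ⟨v, hv⟩)

instance [Finite V] : Finite (NZ V) := Subtype.finite

theorem card_NZ [Finite V] {n : ℕ} (hn : Module.finrank (ZMod 2) V = n) :
    Nat.card (NZ V) = 2 ^ n - 1 := by
  classical
  letI := Fintype.ofFinite V
  have h1 : Nat.card V = 2 ^ n := by
    rw [Module.natCard_eq_pow_finrank (K := ZMod 2), Nat.card_zmod, hn]
  rw [← h1, Nat.card_eq_fintype_card (α := V)]
  change Nat.card {v : V // v ≠ 0} = _
  rw [Nat.card_eq_fintype_card, Fintype.card_subtype_compl, Fintype.card_subtype_eq]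

variable [Finite V] {p : ℕ} [hp : Fact p.Prime]

theorem trans_of_cyclic (hα : Nat.card (NZ V) = p) (C : Subgroup (V ≃ₗ[ZMod 2] V))
    (hC : Nat.card C = p) (v w : V) (hv : v ≠ 0) (hw : w ≠ 0) : ∃ h ∈ C, h v = w := by
  haveI : Finite C := Nat.finite_of_card_ne_zero (hC ▸ hp.out.ne_zero)
  haveI : Nontrivial C := Finite.one_lt_card_iff_nontrivial.1 (hC ▸ hp.out.one_lt)
  obtain ⟨c, hc⟩ := exists_ne (1 : C)
  obtain ⟨a, ha⟩ : ∃ a : NZ V, c • a ≠ a := by
    by_contra e
    exact hc (eq_of_smul_eq_smul (α := NZ V) fun a => by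
      rw [one_smul]; exact by_contra fun h => e ⟨a, h⟩)
  obtain ⟨e, -, he⟩ := H26.exists_frame hα (hC ▸ pow_card_eq_one') ha
  obtain ⟨g, hg⟩ := (H26.frame_isPretransitive he).exists_smul_eq ⟨v, hv⟩ ⟨w, hw⟩
  exact ⟨g, g.2, congrArg Subtype.val hg⟩

theorem trans_top (v w : V) (hv : v ≠ 0) (hw : w ≠ 0) : ∃ h : V ≃ₗ[ZMod 2] V, h v = w := by
  obtain ⟨f, u, hf, -, h⟩ := exists_transv (⊥ : Submodule (ZMod 2) V) (v := w) (v' := v) hw hv
  exact ⟨_, h⟩

/-- an element normalising a cyclic group that is transitive on the non-zero vectors induces a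
power of the squaring map on it -/
theorem conj_eq_pow {c g : V ≃ₗ[ZMod 2] V} [Nontrivial V]
    (ht : ∀ v w : V, v ≠ 0 → w ≠ 0 → ∃ h ∈ zpowers c, h v = w) (hg : g⁻¹ * c * g ∈ zpowers c) :
    ∃ i : ℕ, g * c * g⁻¹ = c ^ 2 ^ i := by
  haveI : Finite (V ≃ₗ[ZMod 2] V) := DFunLike.finite _
  haveI : Finite (Module.End (ZMod 2) V) := DFunLike.finite _
  let ι : (V ≃ₗ[ZMod 2] V) →* Module.End (ZMod 2) V :=
    LinearEquiv.automorphismGroup.toLinearMapMonoidHom
  let K := Subalgebra.centralizer (ZMod 2) ({ι c} : Set (Module.End (ZMod 2) V))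
  have hK : ∀ T, T ∈ K ↔ Commute (ι c) T := fun T => by
    simp [K, Subalgebra.mem_centralizer_iff, Commute, SemiconjBy]
  have hc : ∀ T ∈ K, ∀ x ∈ zpowers c, Commute (ι x) T := fun T hT x hx => by
    obtain ⟨k, rfl⟩ := mem_powers_iff_mem_zpowers.2 hx
    rw [map_pow]
    exact ((hK T).1 hT).pow_left k
  have h0 : ∀ T ∈ K, ∀ v, v ≠ 0 → T v = 0 → T = 0 := fun T hT v hv e => LinearMap.ext fun w => by
    by_cases hw : w = 0
    · rw [hw, map_zero, map_zero]
    obtain ⟨x, hx, rfl⟩ := ht v w hv hw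
    have : x (T v) = T (x v) := LinearMap.congr_fun (hc T hT x hx) v
    rw [← this, e, map_zero]
    rfl
  haveI : NoZeroDivisors K := ⟨fun {S T} e => by
    obtain ⟨v, hv⟩ := exists_ne (0 : V)
    by_cases h1 : T.1 v = 0
    · exact Or.inr (Subtype.ext (h0 _ T.2 v hv h1))
    · exact Or.inl (Subtype.ext (h0 _ S.2 _ h1 (LinearMap.congr_fun (congrArg Subtype.val e) v)))⟩
  haveI : IsDomain K := NoZeroDivisors.to_isDomain K
  letI : Field K := (Finite.isDomain_to_isField K).toField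
  let σ : K →ₐ[ZMod 2] K := ((g.conjAlgEquiv (ZMod 2)).toAlgHom.comp K.val).codRestrict K fun T =>
    (hK _).2 (LinearMap.ext fun v => by
      have : (g⁻¹ * c * g) (T.1 (g.symm v)) = T.1 ((g⁻¹ * c * g) (g.symm v)) :=
        LinearMap.congr_fun (hc _ T.2 _ hg) (g.symm v)
      have h2 := congrArg g this
      simp only [LinearEquiv.mul_apply, LinearEquiv.coe_inv, LinearEquiv.apply_symm_apply] at h2
      exact h2)
  obtain ⟨i, hi⟩ := (FiniteField.bijective_frobeniusAlgHom_pow (ZMod 2) K).2 σ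
  have h1 := AlgHom.congr_fun hi ⟨ι c, (hK _).2 (Commute.refl _)⟩
  simp only [AlgHom.coe_pow, FiniteField.coe_frobeniusAlgHom, pow_iterate, ZMod.card] at h1
  refine ⟨i, LinearEquiv.toLinearMap_injective ?_⟩
  change _ = ι (c ^ 2 ^ (i : ℕ))
  rw [map_pow]
  exact (congrArg Subtype.val h1).symm

theorem affine_case {n : ℕ} (hn : n.Prime) (hpn : p = 2 ^ n - 1) (H : Subgroup (V ≃ₗ[ZMod 2] V))
    {c : H} {e : ZMod p ≃ NZ V} (hc : ∀ j, c • e j = e (j + 1)) (hC : Nat.card (zpowers c) = p)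
    (h : ∀ g : H, ∃ m b : ZMod p, ∀ j, g • e j = e (m * j + b)) :
    (IsCyclic H ∧ Nat.card H = p) ∨ (Nat.card H = n * p ∧ ∃ C : Subgroup (V ≃ₗ[ZMod 2] V),
      C ≤ H ∧ (C.subgroupOf H).Normal ∧ IsCyclic C ∧ Nat.card C = p) := by
  haveI : Nontrivial V := nontrivial_of_ne _ _ (e 0).2
  obtain ⟨φ, hφ⟩ := H26.exists_slopeHom e h
  have hk : φ.ker = zpowers c := by
    refine le_antisymm (fun g hg => (H26.frame_mem_zpowers hc).2 ?_) (zpowers_le_of_mem ?_)
    · obtain ⟨b, hb⟩ := hφ g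
      exact ⟨b, fun j => by rw [hb, MonoidHom.mem_ker.1 hg, Units.val_one, one_mul]⟩
    · obtain ⟨b, hb⟩ := hφ c
      have h0 := e.injective ((hc 0).symm.trans (hb 0))
      have h1 := e.injective ((hc 1).symm.trans (hb 1))
      refine Units.ext ?_
      rw [Units.val_one]
      linear_combination h0 - h1
  have hcard : Nat.card (zpowers (c : V ≃ₗ[ZMod 2] V)) = p := by
    rw [Nat.card_zpowers, Subgroup.orderOf_coe, ← Nat.card_zpowers, hC]
  have hα : Nat.card (NZ V) = p := by rw [← Nat.card_congr e, Nat.card_zmod]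
  have h2n : (2 : ZMod p) ^ n = 1 := by
    have h1 : ((2 ^ n - 1 : ℕ) : ZMod p) = 0 := by rw [← hpn, ZMod.natCast_self]
    rw [Nat.cast_sub Nat.one_le_two_pow, sub_eq_zero] at h1
    simpa using h1
  have h20 : (2 : ZMod p) ≠ 0 := fun e => by
    rw [e, zero_pow hn.ne_zero] at h2n
    exact zero_ne_one h2n
  have hr : φ.range ≤ zpowers (Units.mk0 2 h20) := by
    rintro _ ⟨g, rfl⟩
    have h1 : g⁻¹ * c * g⁻¹⁻¹ ∈ zpowers c := H26.conj_mem_of_affine hc (h g⁻¹) (mem_zpowers c)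
    obtain ⟨i, hi⟩ := conj_eq_pow (c := c.1) (g := g.1) (trans_of_cyclic hα _ hcard) (by
      obtain ⟨k, hk⟩ := h1
      exact ⟨k, by simpa using congrArg Subtype.val hk⟩)
    have h2 : g * c = c ^ 2 ^ i * g := mul_inv_eq_iff_eq_mul.1 (Subtype.ext hi)
    obtain ⟨b, hb⟩ := hφ g
    have h3 := congrArg (· • e 0) h2
    simp only [mul_smul, hc, hb, H26.frame_pow hc] at h3
    refine ⟨(i : ℕ), Units.ext ?_⟩
    have h4 := e.injective h3
    simp only [zpow_natCast, Units.val_pow_eq_pow_val, Units.val_mk0]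
    push_cast at h4
    linear_combination -h4
  have hd : Nat.card φ.range ∣ n := by
    refine (card_dvd_of_le hr).trans ?_
    rw [Nat.card_zpowers]
    exact orderOf_dvd_of_pow_eq_one (Units.ext (by simpa using h2n))
  have hH : Nat.card H = Nat.card φ.range * p := by
    rw [← φ.ker.index_mul_card, index_ker, hk, hC]
  rcases (Nat.dvd_prime hn).1 hd with e1 | e1
  · rw [e1, one_mul] at hH
    exact Or.inl ⟨isCyclic_of_prime_card hH, hH⟩
  · rw [e1] at hH
    refine Or.inr ⟨hH, zpowers (c : V ≃ₗ[ZMod 2] V), zpowers_le_of_mem c.2, ?_, inferInstance, hcard⟩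
    have : (zpowers (c : V ≃ₗ[ZMod 2] V)).subgroupOf H = φ.ker := by
      rw [hk]
      ext x
      exact ⟨fun ⟨k, hk⟩ => ⟨k, Subtype.ext hk⟩, fun ⟨k, hk⟩ => ⟨k, congrArg Subtype.val hk⟩⟩
    rw [this]
    infer_instance

theorem two_trans_case {n : ℕ} (hn : n.Prime) (hV : Module.finrank (ZMod 2) V = n)
    (H : Subgroup (V ≃ₗ[ZMod 2] V)) (h : IsMultiplyPretransitive H (NZ V) 2) : H = ⊤ := by
  haveI : Finite (V ≃ₗ[ZMod 2] V) := DFunLike.finite _
  rw [is_two_pretransitive_iff] at h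
  by_cases h2 : n = 2
  · have hα : Nat.card (NZ V) = 3 := by rw [card_NZ hV, h2]; rfl
    obtain ⟨e⟩ : Nonempty (ZMod 3 ≃ NZ V) := Finite.card_eq.1 (by rw [hα, Nat.card_zmod])
    refine eq_top_iff.2 fun g _ => ?_
    obtain ⟨k, h0, h1⟩ := h (e.injective.ne (by decide : (0 : ZMod 3) ≠ 1))
      ((MulAction.injective g).ne (e.injective.ne (by decide : (0 : ZMod 3) ≠ 1)))
    have h3 : ∀ j : ZMod 3, j = 0 ∨ j = 1 ∨ j = 2 := by decide
    have h4 : k⁻¹ • g • e 2 = e 2 := by
      obtain ⟨j, hj⟩ := e.surjective (k⁻¹ • g • e 2)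
      rcases h3 j with rfl | rfl | rfl
      · rw [eq_inv_smul_iff, h0] at hj
        exact absurd (e.injective (MulAction.injective g hj)) (by decide)
      · rw [eq_inv_smul_iff, h1] at hj
        exact absurd (e.injective (MulAction.injective g hj)) (by decide)
      · exact hj.symm
    have h5 : g = k := eq_of_smul_eq_smul (α := NZ V) fun a => by
      obtain ⟨j, rfl⟩ := e.surjective a
      rcases h3 j with rfl | rfl | rfl
      exacts [h0.symm, h1.symm, inv_smul_eq_iff.1 h4]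
    exact h5 ▸ k.2
  · refine eq_top_of_transv H fun f u hf => ?_
    obtain ⟨g, hg⟩ := all_transvections (G := H) (V := V) (fun x y x' y' hx hy hxy hx' hy' hxy' => by
      obtain ⟨g, h1, h2⟩ := h (a := ⟨x, hx⟩) (b := ⟨y, hy⟩) (c := ⟨x', hx'⟩) (d := ⟨y', hy'⟩)
        (fun e => hxy (congrArg Subtype.val e)) (fun e => hxy' (congrArg Subtype.val e))
      exact ⟨g, congrArg Subtype.val h1, congrArg Subtype.val h2⟩)
      (by have := hn.two_le; omega) (by rw [hV]; rintro rfl; exact absurd hn (by decide)) u f hf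
    rw [show LinearEquiv.transvection hf = g from LinearEquiv.ext fun v => (hg v).symm]
    exact g.2

theorem main (n : ℕ) (hn : Module.finrank (ZMod 2) V = n)
    (hprime : (2 ^ n - 1).Prime) (H : Subgroup (V ≃ₗ[ZMod 2] V)) :
    (∀ v w : V, v ≠ 0 → w ≠ 0 → ∃ h ∈ H, h v = w) ↔
      ((IsCyclic ↥H ∧ Nat.card ↥H = 2 ^ n - 1) ∨
       (Nat.card ↥H = n * (2 ^ n - 1) ∧ ∃ C : Subgroup (V ≃ₗ[ZMod 2] V), C ≤ H ∧
          (C.subgroupOf H).Normal ∧ IsCyclic ↥C ∧ Nat.card ↥C = 2 ^ n - 1) ∨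
       H = ⊤) := by
  haveI := Fact.mk hprime
  haveI : Finite (V ≃ₗ[ZMod 2] V) := DFunLike.finite _
  have hα := card_NZ hn
  have hnp : n.Prime := (Nat.prime_of_pow_sub_one_prime (by rintro rfl; exact absurd hprime (by decide))
    hprime).2
  constructor
  · intro ht
    haveI : IsPretransitive H (NZ V) := ⟨fun v w => by
      obtain ⟨g, hg, e⟩ := ht v.1 w.1 v.2 w.2
      exact ⟨⟨g, hg⟩, Subtype.ext e⟩⟩
    obtain ⟨P⟩ : Nonempty (Sylow (2 ^ n - 1) H) := inferInstance
    obtain ⟨c, e, hP, hc⟩ := H26.exists_frame_sylow hα P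
    rcases H26.affine_or_two_trans hc with h | h
    · exact (affine_case hnp rfl H hc (hP ▸ H26.card_sylow_prime_degree hα P) h).imp_right Or.inl
    · exact Or.inr (Or.inr (two_trans_case hnp hn H h))
  · rintro (⟨-, h⟩ | ⟨-, C, hC, -, -, h⟩ | rfl) v w hv hw
    · exact trans_of_cyclic hα H h v w hv hw
    · obtain ⟨g, hg, e⟩ := trans_of_cyclic hα C h v w hv hw
      exact ⟨g, hC hg, e⟩
    · obtain ⟨g, e⟩ := trans_top v w hv hw
      exact ⟨g, mem_top g, e⟩

end H98.CK.Top
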