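import Cfsg.Agent.Lib.CK.Pair

/-! Groups `2`-transitive on the nonzero vectors: duality, standard flags, cone lemmas. -/

set_option autoImplicit false
set_option linter.unusedSectionVars false

namespace H98.CK

open Module

variable {G V V' : Type*} [Group G] [AddCommGroup V] [Module F2 V] [DistribMulAction G V]
  [AddCommGroup V'] [Module F2 V'] [DistribMulAction G V']

/-- Independent pair. -/
structure Ind (x y : V) : Prop where
  l : x ≠ 0
  r : y ≠ 0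
  ne : x ≠ y

theorem Ind.symm {x y : V} (h : Ind x y) : Ind y x := ⟨h.r, h.l, h.ne.symm⟩
theorem Ind.add {x y : V} (h : Ind x y) : Ind x (y + x) :=
  ⟨h.l, add_ne_z h.ne.symm, fun e => h.r (by rw [← abb y x, ← e, aa])⟩
theorem Ind.smul {x y : V} (h : Ind x y) (g : G) : Ind (g • x) (g • y) :=
  ⟨sm_ne h.l, sm_ne h.r, sm_ne' h.ne⟩
theorem ind_of_notMem {x y u : V} (h : Ind x y) (hu : u ∉ ln x y) : Ind x u :=
  ⟨h.l, fun e => hu (e ▸ zero_mem _), fun e => hu (e ▸ l_mem_ln _ _)⟩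
theorem notMem_swap {x y u : V} (h : Ind x y) (hu : u ∉ ln x y) : y ∉ ln x u := by
  rw [mem_ln] at hu ⊢
  push Not at hu ⊢
  exact ⟨h.r, h.ne.symm, hu.2.2.1.symm, fun e => hu.2.2.2 (by rw [e, aab])⟩
theorem ln_add (x y : V) : ln x (y + x) = ln x y :=
  le_antisymm (ln_le (l_mem_ln _ _) (add_mem (r_mem_ln _ _) (l_mem_ln _ _)))
    (ln_le (l_mem_ln _ _) (by simpa [abb] using add_mem (r_mem_ln x (y + x)) (l_mem_ln _ _)))
theorem mem_ln_ind {x y u : V} (hu : u ∈ ln x y) (h : Ind x u) : u = y ∨ u = y + x := by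
  rcases mem_ln.1 hu with e | e | e | e
  · exact absurd e h.r
  · exact absurd e.symm h.ne
  · exact Or.inl e
  · exact Or.inr (by rw [e, add_comm])

variable (G V) in
/-- `2`-transitivity on nonzero vectors. -/
def T2 : Prop := ∀ x y x' y' : V, Ind x y → Ind x' y' → ∃ g : G, g • x = x' ∧ g • y = y'

/-- The `P`-invariant point and line. -/
structure Half (P : Subgroup G) (x y : V) : Prop where
  ind : Ind x y
  fx : ∀ g ∈ P, g • x = x
  fy : ∀ g ∈ P, g • y = y ∨ g • y = y + x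

variable [Finite V] [Finite V'] [Finite G]

theorem exists_ind (hn : 2 ≤ finrank F2 V) {x : V} (hx : x ≠ 0) : ∃ y, Ind x y := by
  obtain ⟨y, hy⟩ := exists_notMem' (T := pt x) (by rw [fr_pt hx]; omega)
  rw [mem_pt] at hy
  push Not at hy
  exact ⟨y, hx, hy.1, hy.2.symm⟩

theorem exists_ne0 (hn : 1 ≤ finrank F2 V) : ∃ x : V, x ≠ 0 := by
  obtain ⟨y, hy⟩ := exists_notMem' (T := (⊥ : Submodule F2 V)) (by rw [finrank_bot]; omega)
  exact ⟨y, by simpa using hy⟩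

theorem exists_half (hn : 2 ≤ finrank F2 V) {P : Subgroup G} (hP : IsPGroup 2 P) :
    ∃ x y : V, Half P x y := by
  obtain ⟨a, ha⟩ := exists_ne0 (V := V) (by omega)
  obtain ⟨x, -, hx, hx'⟩ := exists_fix hP (T := ⊥) (T' := ⊤) (by simp) (by simp) (a := a) trivial
    (by simpa using ha)
  have hx0 : x ≠ 0 := by simpa using hx
  have fx : ∀ g ∈ P, g • x = x := fun g hg => add_eq_z.1 (by simpa using hx' g hg)
  obtain ⟨c, hc⟩ := exists_ind hn hx0
  obtain ⟨y, -, hy, hy'⟩ := exists_fix hP (T := pt x) (T' := ⊤) (fun g hg v hv => by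
    rcases mem_pt.1 hv with rfl | rfl
    · simp
    · rw [fx g hg]; exact hv) (by simp) (a := c) trivial
    (by rw [mem_pt]; push Not; exact ⟨hc.r, hc.ne.symm⟩)
  rw [mem_pt] at hy
  push Not at hy
  refine ⟨x, y, ⟨hx0, hy.1, hy.2.symm⟩, fx, fun g hg => ?_⟩
  rcases mem_pt.1 (hy' g hg) with h | h
  · exact Or.inl (add_eq_z.1 h)
  · exact Or.inr (by rw [eq_add_of h, add_comm])

namespace Pr

variable (Γ : Pr G V V')

theorem stab_dual (hT : T2 G V) {x : V} (hx : x ≠ 0) {f f' : V'} (hf : f ≠ 0) (hf' : f' ≠ 0)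
    (h : Γ.b f x = Γ.b f' x) : ∃ g : G, g • x = x ∧ g • f = f' := by
  by_cases e : f = f'
  · exact ⟨1, one_smul _ _, by rw [one_smul, e]⟩
  obtain ⟨t, ht, ht'⟩ := Γ.sep' (T := pt (f + f')) (f := f) (by
    rw [mem_pt]; push Not; exact ⟨hf, fun e' => hf' (by rw [← aab f f', ← e', aa])⟩)
  have h0 := ht _ (mem_pt.2 (Or.inr rfl))
  have hx0 : Γ.b (f + f') x = 0 := by rw [map_add, LinearMap.add_apply, h, aa]
  have key : ∀ u, Γ.b (f + f') u = 1 → Ind x u := fun u hu =>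
    ⟨hx, fun e => by rw [e, map_zero] at hu; exact f10 hu.symm,
      fun e => by rw [← e, hx0] at hu; exact f10 hu.symm⟩
  obtain ⟨g, hg, hg'⟩ := Γ.flip.four (MulAction.stabilizer G x) (t := f + f') (f0 := t) h0
    (fun u hu => by
      obtain ⟨g, h1, h2⟩ := hT x u x (u + t) (key u hu) (key _ (by
        rw [map_add, h0, add_zero]; exact hu))
      exact ⟨g, h1, h2⟩) (u := f) ht'
  exact ⟨g, hg, by rw [hg', aab]⟩

theorem pair_trans (hT : T2 G V) (hn : 2 ≤ finrank F2 V) {x x' : V} (hx : x ≠ 0) (hx' : x' ≠ 0)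
    {f f' : V'} (hf : f ≠ 0) (hf' : f' ≠ 0) (h : Γ.b f x = Γ.b f' x') :
    ∃ g : G, g • x = x' ∧ g • f = f' := by
  obtain ⟨y, hy⟩ := exists_ind hn hx
  obtain ⟨y', hy'⟩ := exists_ind hn hx'
  obtain ⟨g, hg, -⟩ := hT _ _ _ _ hy hy'
  obtain ⟨k, hk, hk'⟩ := Γ.stab_dual hT hx' (sm_ne (g := g) hf) hf' (by rw [← h, Γ.inv_r hg])
  exact ⟨k * g, by rw [mul_smul, hg, hk], by rw [mul_smul, hk']⟩

include Γ in
theorem t2_dual (hT : T2 G V) (hn : 2 ≤ finrank F2 V) : T2 G V' := by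
  have one : ∀ f : V', f ≠ 0 → ∀ u, Γ.b f u = 1 → u ≠ 0 := fun f _ u hu e => by
    rw [e, map_zero] at hu; exact f10 hu.symm
  have key : ∀ h f f' : V', Ind h f → Ind h f' → ∃ g : G, g • h = h ∧ g • f = f' := by
    intro h f f' h1 h2
    by_cases e : f = f'
    · exact ⟨1, one_smul _ _, by rw [one_smul, e]⟩
    obtain ⟨t, ht, ht'⟩ := Γ.sep' (T := ln h (f + f')) (f := f) (by
      rw [mem_ln]; push Not
      exact ⟨h1.r, h1.ne.symm, fun e' => h2.r (by rw [← aab f f', ← e', aa]),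
        fun e' => h2.ne (by rw [← abb h (f + f'), ← e', aab])⟩)
    have h0 := ht _ (r_mem_ln _ _)
    obtain ⟨g, hg, hg'⟩ := Γ.flip.four (MulAction.stabilizer G h) (t := f + f') (f0 := t) h0
      (fun u hu => by
        obtain ⟨g, h3, h4⟩ := Γ.pair_trans hT hn (one _ (add_ne_z e) u hu)
          (one _ (add_ne_z e) (u + t) (by rw [map_add, h0, add_zero]; exact hu)) h1.l h1.l
          (by rw [map_add, ht _ (l_mem_ln _ _), add_zero])
        exact ⟨g, h4, h3⟩) (u := f) ht'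
    exact ⟨g, hg, by rw [hg', aab]⟩
  intro h k h' k' h1 h2
  obtain ⟨x, hx⟩ := Γ.exists_one h1.l
  obtain ⟨x', hx'⟩ := Γ.exists_one h2.l
  obtain ⟨g, -, hg⟩ := Γ.pair_trans hT hn (one _ h1.l _ hx) (one _ h2.l _ hx') h1.l h2.l
    (by rw [hx, hx'])
  obtain ⟨g', h3, h4⟩ := key h' (g • k) k' (hg ▸ h1.smul g) h2
  exact ⟨g' * g, by rw [mul_smul, hg, h3], by rw [mul_smul, h4]⟩

variable (hT : T2 G V) {P : Subgroup G} (hodd : Odd P.index) {x y : V} (H : Half P x y)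
include hT hodd H

theorem p_phi {f f' : V'} (hf : Γ.b f x = 1) (hf' : Γ.b f' x = 1) : ∃ g ∈ P, g • f = f' := by
  have one : ∀ f : V', Γ.b f x = 1 → f ≠ 0 := fun f hu e => by
    rw [e, map_zero] at hu; exact f10 hu.symm
  refine odd_trans (MulAction.stabilizer G x) P H.fx hodd _
    (half ⊤ (Γ.flip.b x) (a := f) trivial hf).1 (fun g hg => ⟨trivial, ?_⟩) (fun a ha => ?_) f'
    ⟨trivial, hf'⟩
  · exact (Γ.inv_r hg f).trans hf
  · obtain ⟨g, h1, h2⟩ := Γ.stab_dual hT H.ind.l (one f hf) (one a ha.2) (hf.trans ha.2.symm)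
    exact ⟨g, h1, h2⟩

include Γ in
theorem cone1 {u : V} (hu : Ind x u) : ∃ g ∈ P, g • u = u + x := by
  obtain ⟨f0, h1, h2⟩ := Γ.sep (T := pt x) (u := u) (by
    rw [mem_pt]; push Not; exact ⟨hu.r, hu.ne.symm⟩)
  have h0 := h1 _ (mem_pt.2 (Or.inr rfl))
  exact Γ.four P h0 (fun f hf => Γ.p_phi hT hodd H hf (by
    rw [map_add, LinearMap.add_apply, hf, h0, add_zero])) h2

theorem q_trans1 {f f' : V'} (hf : Γ.b f x = 1) (hf' : Γ.b f' x = 1) (h : Γ.b f y = Γ.b f' y) :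
    ∃ g ∈ P, g • y = y ∧ g • f = f' := by
  obtain ⟨g, hg, hg'⟩ := Γ.p_phi hT hodd H hf hf'
  refine ⟨g, hg, (H.fy g hg).resolve_right fun e => ?_, hg'⟩
  have := Γ.inv2 hg' e
  rw [map_add, hf', h] at this
  exact f10 (add_eq_left.1 this)

theorem q_trans {f f' : V'} (hx : Γ.b f x = Γ.b f' x) (hy : Γ.b f y = Γ.b f' y)
    (h : Γ.b f x = 1 ∨ Γ.b f y = 1) : ∃ g ∈ P, g • y = y ∧ g • f = f' := by
  rcases f01 (Γ.b f x) with h0 | h0
  swap
  · exact Γ.q_trans1 hT hodd H h0 (hx ▸ h0) hy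
  have h1 : Γ.b f y = 1 := h.resolve_left (by rw [h0]; exact f10.symm)
  obtain ⟨k, hk, hk'⟩ := hT _ _ _ _ H.ind H.ind.symm
  have gen : ∀ φ, Γ.b φ x = 0 → Γ.b φ y = 1 → ∃ g : G, g • x = x ∧ g • y = y ∧ g • f = φ := by
    intro φ h2 h3
    obtain ⟨g, hg, h4, h5⟩ := Γ.q_trans1 hT hodd H (f := k • f) (f' := k • φ)
      (by rw [Γ.inv_r hk', h1]) (by rw [Γ.inv_r hk', h3]) (by rw [Γ.inv_r hk, Γ.inv_r hk, h0, h2])
    refine ⟨k⁻¹ * g * k, ?_, ?_, ?_⟩
    · rw [mul_smul, mul_smul, hk, h4, inv_fix hk]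
    · rw [mul_smul, mul_smul, hk', H.fx g hg, inv_fix hk']
    · rw [mul_smul, mul_smul, h5, inv_smul_smul]
  let Y : Subgroup G :=
    { carrier := {g | g • x = x ∧ (g • y = y ∨ g • y = y + x)}
      one_mem' := ⟨one_smul _ _, Or.inl (one_smul _ _)⟩
      mul_mem' := fun {g k} hg hk => ⟨by rw [mul_smul, hk.1, hg.1], by
        rw [mul_smul]
        rcases hk.2 with e | e <;> rcases hg.2 with e' | e' <;> simp [e, e', smul_add, hg.1, abb]⟩
      inv_mem' := fun {g} hg => ⟨inv_fix hg.1, by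
        rcases hg.2 with e | e
        · exact Or.inl (inv_fix e)
        · right
          have := inv_fix e
          rw [smul_add, inv_fix hg.1] at this
          exact eq_add_of this⟩ }
  let B : Set V' := {φ | φ ∈ Γ.flip.kr x ∧ Γ.flip.b y φ = 1}
  have hB := (half (Γ.flip.kr x) (Γ.flip.b y) (a := f) h0 h1).1
  have hΩ : (({y, y + x} : Set V) ×ˢ B).ncard = 2 ^ (finrank F2 (Γ.flip.kr x) - 1 + 1) := by
    rw [Set.ncard_prod, hB, Set.ncard_pair (fun e => H.ind.l (by simpa using e)), pow_succ, mul_comm]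
  obtain ⟨s, hs, hs'⟩ := Γ.cone1 hT hodd H H.ind
  obtain ⟨g, hg, hg'⟩ := odd_trans Y P (fun g hg => ⟨H.fx g hg, H.fy g hg⟩) hodd _ hΩ (a := (y, f))
    (fun g hg => ⟨hg.2, (Γ.inv_r hg.1 f).trans h0, by
      have e0 : Γ.b (g • f) x = 0 := (Γ.inv_r hg.1 f).trans h0
      rcases hg.2 with e | e
      · exact (Γ.inv_r e f).trans h1
      · have := Γ.inv_r e f
        rw [map_add, e0, add_zero, h1] at this
        exact this⟩)
    (by
      rintro ⟨v, φ⟩ ⟨hv, h2, h3⟩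
      rcases hv with rfl | rfl
      · obtain ⟨g, e1, e2, e3⟩ := gen φ h2 h3
        exact ⟨g, ⟨e1, Or.inl e2⟩, Prod.ext e2 e3⟩
      · obtain ⟨g, e1, e2, e3⟩ := gen (s⁻¹ • φ) ((Γ.inv_r (inv_fix (H.fx s hs)) φ).trans h2) (by
          rw [Γ.inv_r (inv_fix hs') φ, map_add, show Γ.b φ x = 0 from h2, add_zero]; exact h3)
        refine ⟨s * g, ⟨by rw [mul_smul, e1, H.fx s hs], Or.inr (by rw [mul_smul, e2, hs'])⟩,
          Prod.ext ?_ ?_⟩
        · change (s * g) • y = y + x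
          rw [mul_smul, e2, hs']
        · change (s * g) • f = φ
          rw [mul_smul, e3, smul_inv_smul])
    (y, f') ⟨Or.inl rfl, hx.symm.trans h0, hy.symm.trans h1⟩
  exact ⟨g, hg, congrArg Prod.fst hg', congrArg Prod.snd hg'⟩

include Γ in
theorem cone2 {u l : V} (hu : u ∉ ln x y) (hl : l ∈ ln x y) : ∃ g ∈ P, g • y = y ∧ g • u = u + l := by
  obtain ⟨f0, h1, h2⟩ := Γ.sep hu
  obtain ⟨g, hg, hg'⟩ := Γ.four (P ⊓ MulAction.stabilizer G y) (h1 l hl) (fun f hf => by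
    obtain ⟨g, e1, e2, e3⟩ := Γ.q_trans hT hodd H (f := f) (f' := f + f0)
      (by rw [map_add, LinearMap.add_apply, h1 _ (l_mem_ln _ _), add_zero])
      (by rw [map_add, LinearMap.add_apply, h1 _ (r_mem_ln _ _), add_zero]) (by
        by_contra hc
        push Not at hc
        rcases mem_ln.1 hl with rfl | rfl | rfl | rfl
        · rw [map_zero] at hf; exact f10 hf.symm
        · exact hc.1 hf
        · exact hc.2 hf
        · rw [map_add, f_ne1 hc.1, f_ne1 hc.2, add_zero] at hf; exact f10 hf.symm)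
    exact ⟨g, ⟨e1, e2⟩, e3⟩) h2
  exact ⟨g, hg.1, hg.2, hg'⟩

/-- A proper invariant subspace of the dual is killed by the fixed point. -/
theorem proper_le {T : Submodule F2 V'} (hT' : ∀ g ∈ P, ∀ v ∈ T, g • v ∈ T) (hne : T ≠ ⊤) :
    ∀ f ∈ T, Γ.b f x = 0 := by
  intro f hf
  by_contra h
  apply hne
  have key : ∀ f', Γ.b f' x = 1 → f' ∈ T := fun f' hf' => by
    obtain ⟨g, hg, rfl⟩ := Γ.p_phi hT hodd H (f_ne h) hf'
    exact hT' g hg f hf
  rw [eq_top_iff]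
  intro f' _
  rcases f01 (Γ.b f' x) with e | e
  · exact (mem_add' hf).1 (key _ (by rw [map_add, LinearMap.add_apply, e, f_ne h, zero_add]))
  · exact key _ e

end Pr

end H98.CK
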